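import Cfsg.Agent.H48.DP3Spec

/-! # S3275, chapter (3): the kit -/

set_option autoImplicit false

namespace H48.DP

open Subgroup Cfsg H98 H97
open scoped commutatorElement

variable {G : Type*} [Group G]

theorem relIndex_cj (g : G) (A B : Subgroup G) : (cj g A).relIndex (cj g B) = A.relIndex B :=
  relIndex_map_map_of_injective _ _ (MulAut.conj g).injective

theorem relIndex_ne_zero' [Finite G] (A B : Subgroup G) : A.relIndex B ≠ 0 :=
  index_ne_zero_of_finite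

theorem mem_C1 {x g : G} : g ∈ C1 x ↔ x * g = g * x := by
  simp [mem_centralizer_iff]

theorem mem_Ce {A : Subgroup G} {g : G} : g ∈ Ce A ↔ ∀ a ∈ A, a * g = g * a :=
  mem_centralizer_iff

theorem card_le_relIndex [Finite G] {T P : Subgroup G} {n : ℕ} (f : Fin n → G) (hf : ∀ i, f i ∈ P)
    (hinj : ∀ i j, (f i)⁻¹ * f j ∈ T → i = j) : n ≤ T.relIndex P := by
  have := Nat.card_le_card_of_injective
    (fun i => (QuotientGroup.mk (⟨f i, hf i⟩ : P) : P ⧸ T.subgroupOf P))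
    (fun i j h => hinj i j (by simpa [mem_subgroupOf] using QuotientGroup.eq.1 h))
  simpa [relIndex, index] using this

theorem nsym {T : Subgroup G} {u v : G} (h : u⁻¹ * v ∉ T) : v⁻¹ * u ∉ T :=
  fun h' => h (by simpa using T.inv_mem h')

theorem three_le_relIndex [Finite G] {T P : Subgroup G} {a b c : G} (ha : a ∈ P) (hb : b ∈ P)
    (hc : c ∈ P) (hab : a⁻¹ * b ∉ T) (hac : a⁻¹ * c ∉ T) (hbc : b⁻¹ * c ∉ T) :
    3 ≤ T.relIndex P := by
  have h1 := nsym hab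
  have h2 := nsym hac
  have h3 := nsym hbc
  exact card_le_relIndex (T := T) (P := P) ![a, b, c] (fun i => by fin_cases i <;> assumption)
    (fun i j hh => by fin_cases i <;> fin_cases j <;> first | rfl | exact absurd hh ‹_›)

theorem cover3 [Finite G] {T P : Subgroup G} (h : T.relIndex P = 3) {a b c g : G} (ha : a ∈ P)
    (hb : b ∈ P) (hc : c ∈ P) (hg : g ∈ P) (hab : a⁻¹ * b ∉ T) (hac : a⁻¹ * c ∉ T)
    (hbc : b⁻¹ * c ∉ T) : a⁻¹ * g ∈ T ∨ b⁻¹ * g ∈ T ∨ c⁻¹ * g ∈ T := by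
  by_contra hn
  simp only [not_or] at hn
  obtain ⟨n1, n2, n3⟩ := hn
  have h1 := nsym hab
  have h2 := nsym hac
  have h3 := nsym hbc
  have h4 := nsym n1
  have h5 := nsym n2
  have h6 := nsym n3
  have := card_le_relIndex (T := T) (P := P) ![a, b, c, g] (fun i => by fin_cases i <;> assumption)
    (fun i j hh => by fin_cases i <;> fin_cases j <;> first | rfl | exact absurd hh ‹_›)
  omega

theorem cover4 [Finite G] {T P : Subgroup G} (h : T.relIndex P = 4) {a b c d g : G} (ha : a ∈ P)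
    (hb : b ∈ P) (hc : c ∈ P) (hd : d ∈ P) (hg : g ∈ P) (hab : a⁻¹ * b ∉ T) (hac : a⁻¹ * c ∉ T)
    (had : a⁻¹ * d ∉ T) (hbc : b⁻¹ * c ∉ T) (hbd : b⁻¹ * d ∉ T) (hcd : c⁻¹ * d ∉ T) :
    a⁻¹ * g ∈ T ∨ b⁻¹ * g ∈ T ∨ c⁻¹ * g ∈ T ∨ d⁻¹ * g ∈ T := by
  by_contra hn
  simp only [not_or] at hn
  obtain ⟨n1, n2, n3, n4⟩ := hn
  have h1 := nsym hab
  have h2 := nsym hac
  have h3 := nsym hbc
  have h4 := nsym n1
  have h5 := nsym n2
  have h6 := nsym n3
  have h7 := nsym n4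
  have h8 := nsym had
  have h9 := nsym hbd
  have h10 := nsym hcd
  have := card_le_relIndex (T := T) (P := P) ![a, b, c, d, g]
    (fun i => by fin_cases i <;> assumption)
    (fun i j hh => by fin_cases i <;> fin_cases j <;> first | rfl | exact absurd hh ‹_›)
  omega

/-- Two elements of `P` outside a subgroup of index at most 2 multiply into it. -/
theorem mul_mem_of_idx [Finite G] {T P : Subgroup G} (h : T.relIndex P ≤ 2) {a b : G} (ha : a ∈ P)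
    (hb : b ∈ P) (ha' : a ∉ T) (hb' : b ∉ T) : a * b ∈ T := by
  by_contra hn
  have := three_le_relIndex (T := T) P.one_mem (P.inv_mem ha) hb (by simpa using ha')
    (by simpa using hb') (by simpa using hn)
  omega

theorem not_mem_of_three {A : Subgroup G} (hA : IsPGroup 2 A) {x : G} (hx : orderOf x = 3) :
    x ∉ A := fun h => by
  obtain ⟨k, hk⟩ := isPGroup_iff_forall.1 hA x h
  have := orderOf_dvd_of_pow_eq_one hk
  rw [hx] at this
  exact absurd (Nat.prime_three.dvd_of_dvd_pow this) (by decide)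

theorem orderOf_sq_three {x : G} (hx : orderOf x = 3) : orderOf (x ^ 2) = 3 := by
  rw [Nat.Coprime.orderOf_pow (by rw [hx]; decide), hx]

theorem pow_three_of {x : G} (hx : orderOf x = 3) : x ^ 3 = 1 := hx ▸ pow_orderOf_eq_one x

theorem cop_dec {A B : Subgroup G} [Finite B] (hB : IsPGroup 2 B) {x : G} (hx : orderOf x = 3)
    (h : x ∈ stab A B) {a : G} (ha : a ∈ A) : ∃ n ∈ B, n * a ∈ C1 x := by
  have : Fact (Nat.Prime 3) := ⟨Nat.prime_three⟩
  have hz : zpowers x ≤ stab A B := (zpowers_le (G := G)).2 h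
  obtain ⟨n, hn, hc⟩ := exists_mul_mem_centralizer (p := 3) (A := zpowers x) (N := B)
    (isPGroup_zpowers (k := 1) (by simpa using pow_three_of hx))
    (not_dvd_card_of_isPGroup_ne Nat.prime_three (by decide) hB)
    (fun g hg => (mem_stab.1 (hz hg)).1) (y := a) (fun g hg => by
      rw [← commutatorElement_inv]
      exact B.inv_mem ((mem_stab.1 (hz hg)).2 a ha))
  exact ⟨n, hn, mem_C1.2 (hc x (mem_zpowers x))⟩

theorem cent_of_chain {A B : Subgroup G} [Finite B] (hB : IsPGroup 2 B) {x : G}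
    (hx : orderOf x = 3) (h : ∀ a ∈ A, ⁅a, x⁆ ∈ B) (hc : x ∈ Ce B) : x ∈ Ce A := by
  refine mem_Ce.2 fun a ha => ?_
  obtain ⟨n, hn, hna⟩ := cop_dec hB hx (mem_stab.2 ⟨centralizer_le_normalizer _ hc, h⟩) ha
  have h1 : n ∈ C1 x := mem_C1.2 (mem_Ce.1 hc n hn).symm
  exact (mem_C1.1 ((mul_mem_cancel_left h1).1 hna)).symm

theorem mem_stab_of_idx [Finite G] {A B : Subgroup G} (h : B.relIndex A ≤ 2) {x : G}
    (hA : x ∈ No A) (hB : x ∈ No B) : x ∈ stab A B := by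
  refine mem_stab.2 ⟨hB, fun a ha => ?_⟩
  have e : ⁅a, x⁆ = a * (x * a⁻¹ * x⁻¹) := by rw [commutatorElement_def]; group
  rw [e]
  by_cases hb : a ∈ B
  · exact B.mul_mem hb (conj_mem_of_mem_normalizer hB (B.inv_mem hb))
  · refine mul_mem_of_idx h ha (conj_mem_of_mem_normalizer hA (A.inv_mem ha)) hb fun h' => hb ?_
    have := conj_mem_of_mem_normalizer' hB h'
    rw [show x⁻¹ * (x * a⁻¹ * x⁻¹) * x = a⁻¹ by group] at this
    exact B.inv_mem_iff.1 this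

theorem le_No_Zq (H : Subgroup G) : H ≤ No (Zq H) :=
  (self_le_normalizer_pCoreOf H).trans (normalizer_le_normalizer_oZ _)

theorem Zq_le (H : Subgroup G) : Zq H ≤ O2 H := oZ_le _

theorem isPGroup_Zq (H : Subgroup G) : IsPGroup 2 (Zq H) := (isPGroup_pCoreOf H).to_le (Zq_le H)

theorem oZ_le_Zq {T H : Subgroup G} (hc : CharP 2 H) (h : T ≤ H) (h' : O2 H ≤ T) :
    oZ 2 T ≤ Zq H := fun z hz => by
  obtain ⟨h1, h2, h3⟩ := mem_oZ.1 hz
  have h4 := centralizer_anti h' h2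
  exact mem_oZ.2 ⟨hc.le ⟨h h1, h4⟩, h4, h3⟩

namespace S3

variable {T P : Subgroup G}

theorem cj (h : S3 T P) (g : G) : S3 (H98.cj g T) (H98.cj g P) where
  le := cj_mono g h.le
  two := isPGroup_cj g h.two
  idx := by rw [relIndex_cj]; exact h.idx
  nn := fun hn => h.nn (cj_le_cj_iff.1 (hn.trans_eq (cj_normalizer g T).symm))

theorem isSyl (h : S3 T P) : IsSyl 2 T P :=
  isSyl_of_not_dvd_relIndex h.le h.two (by rw [h.idx]; decide)

theorem o2_le (h : S3 T P) : O2 P ≤ T := h.isSyl.pCoreOf_le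

theorem max (h : S3 T P) {K : Subgroup G} (h1 : T ≤ K) (h2 : K ≤ P) : K = T ∨ K = P := by
  have e := relIndex_mul_relIndex T K P h1 h2
  rw [h.idx] at e
  rcases (Nat.dvd_prime Nat.prime_three).1 (Dvd.intro _ e) with h3 | h3
  · exact .inl (le_antisymm (relIndex_eq_one.1 h3) h1)
  · rw [h3] at e
    exact .inr (le_antisymm h2 (relIndex_eq_one.1 (by omega)))

theorem exists_three [Finite G] (h : S3 T P) : ∃ x ∈ P, orderOf x = 3 := by
  have : Fact (Nat.Prime 3) := ⟨Nat.prime_three⟩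
  obtain ⟨x, hx⟩ := exists_prime_orderOf_dvd_card' (G := P) 3 (h.idx ▸ relIndex_dvd_card T P)
  exact ⟨x, x.2, by rw [orderOf_coe, hx]⟩

theorem not_mem (h : S3 T P) {x : G} (hx : orderOf x = 3) : x ∉ T := not_mem_of_three h.two hx

theorem cover [Finite G] (h : S3 T P) {x g : G} (hxP : x ∈ P) (hx : orderOf x = 3) (hg : g ∈ P) :
    g ∈ T ∨ x⁻¹ * g ∈ T ∨ (x ^ 2)⁻¹ * g ∈ T := by
  have := cover3 h.idx P.one_mem hxP (P.pow_mem hxP 2) hg (by simpa using h.not_mem hx)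
    (by simpa using h.not_mem (orderOf_sq_three hx))
    (by rw [show x⁻¹ * x ^ 2 = x by group]; exact h.not_mem hx)
  simpa using this

theorem le_of (h : S3 T P) {K : Subgroup G} (h1 : T ≤ K) {x : G} (hK : x ∈ K) (hP : x ∈ P)
    (hT : x ∉ T) : P ≤ K := by
  rcases h.max (le_inf h1 h.le) inf_le_right with e | e
  · exact absurd (e ▸ (⟨hK, hP⟩ : x ∈ K ⊓ P)) hT
  · exact e ▸ inf_le_left

theorem le_of_norm (h : S3 T P) {K : Subgroup G} (h1 : T ≤ K) (h2 : P ≤ No K) : P ≤ K := by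
  rcases h.max (le_inf h1 h.le) inf_le_right with e | e
  · exact absurd (e ▸ le_normalizer_inf h2 le_normalizer) h.nn
  · exact e ▸ inf_le_left

theorem mem_o2_of_fix [Finite G] (h : S3 T P) {s r : G} (hs : s ∈ T) (hr : r ∈ P) (hrT : r ∉ T)
    (hf : r⁻¹ * s * r ∈ T) : s ∈ O2 P := by
  have hK : (⨅ g : P, H98.cj (g : G) T) ≤ T := by
    have := iInf_le (fun g : P => H98.cj (g : G) T) 1
    rwa [OneMemClass.coe_one, cj_one] at this
  refine le_pCoreOf (h.two.to_le hK) (hK.trans h.le) (fun k hk => mem_normalizer_of_cj_le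
    fun u hu => mem_iInf.2 fun g => ?_) (mem_iInf.2 fun g => mem_cj.2 ?_)
  · have := mem_cj.1 (mem_iInf.1 (mem_cj.1 hu) ⟨k⁻¹ * g, P.mul_mem (P.inv_mem hk) g.2⟩)
    rw [mem_cj]
    convert this using 1
    group
  · by_cases h1 : (g : G) ∈ T
    · exact T.mul_mem (T.mul_mem (T.inv_mem h1) hs) h1
    by_cases h2 : r⁻¹ * g ∈ T
    · have := T.mul_mem (T.mul_mem (T.inv_mem h2) hf) h2
      convert this using 1
      group
    rcases cover3 h.idx P.one_mem hr g.2 (P.mul_mem (h.le hs) g.2) (by simpa using hrT)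
      (by simpa using h1) h2 with h3 | h3 | h3
    · rw [inv_one, one_mul] at h3
      exact absurd ((mul_mem_cancel_left hs).1 h3) h1
    · refine absurd ((mul_mem_cancel_left hf).1 ?_) h2
      convert h3 using 1
      group
    · rwa [mul_assoc]

theorem exists_not_mem (h : S3 T P) : ∃ s ∈ T, s ∉ O2 P := by
  by_contra hn
  push Not at hn
  exact h.nn (le_antisymm hn h.o2_le ▸ self_le_normalizer_pCoreOf P)

theorem mul_mem [Finite G] (h : S3 T P) {s s' : G} (hs : s ∈ T) (h1 : s ∉ O2 P) (hs' : s' ∈ T)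
    (h2 : s' ∉ O2 P) : s * s' ∈ O2 P := by
  obtain ⟨x, hxP, hx⟩ := h.exists_three
  have key : ∀ u ∈ T, u ∉ O2 P → (x ^ 2)⁻¹ * (u * x) ∈ T := fun u hu hu' => by
    rcases h.cover hxP hx (P.mul_mem (h.le hu) hxP) with h3 | h3 | h3
    · exact absurd ((mul_mem_cancel_left hu).1 h3) (h.not_mem hx)
    · exact absurd (h.mem_o2_of_fix hu hxP (h.not_mem hx) (by rwa [mul_assoc])) hu'
    · exact h3
  refine h.mem_o2_of_fix (T.mul_mem hs hs') hxP (h.not_mem hx) ?_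
  have := T.mul_mem (T.inv_mem (key _ (T.inv_mem hs) (by simpa using h1))) (key _ hs' h2)
  convert this using 1
  group

theorem idx2 [Finite G] (h : S3 T P) : (O2 P).relIndex T = 2 := by
  obtain ⟨s, hs, hs'⟩ := h.exists_not_mem
  refine relIndex_eq_two_iff_exists_notMem_and.2 ⟨s, hs, hs', fun b hb => ?_⟩
  by_cases h1 : b ∈ O2 P
  · exact .inr h1
  · exact .inl (h.mul_mem hb h1 hs hs')

theorem three_mem_sup [Finite G] (h : S3 T P) {A : Subgroup G} (hA : A ≤ T) (hA' : ¬ A ≤ O2 P)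
    {g : G} (hg : g ∈ P) (hgT : g ∉ T) : ∃ x ∈ A ⊔ H98.cj g A, x ∈ P ∧ orderOf x = 3 := by
  have : Fact (Nat.Prime 3) := ⟨Nat.prime_three⟩
  have hK : A ⊔ H98.cj g A ≤ P := sup_le (hA.trans h.le) (cj_le_of_le_of_mem (hA.trans h.le) hg)
  obtain ⟨a, ha, ha'⟩ := SetLike.not_le_iff_exists.1 hA'
  by_cases h3 : 3 ∣ Nat.card (A ⊔ H98.cj g A : Subgroup G)
  · obtain ⟨x, hx⟩ := exists_prime_orderOf_dvd_card' 3 h3
    exact ⟨x, x.2, hK x.2, by rw [orderOf_coe, hx]⟩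
  exfalso
  have h2 : IsPGroup 2 (A ⊔ H98.cj g A : Subgroup G) := by
    obtain ⟨n, hn⟩ := IsPGroup.iff_card.1 h.two
    have e : Nat.card P = 2 ^ n * 3 := by
      rw [← hn, ← h.idx, ← relIndex_bot_left, ← relIndex_bot_left,
        relIndex_mul_relIndex _ _ _ bot_le h.le]
    have d := card_dvd_of_le hK
    rw [e] at d
    have d2 := Nat.Coprime.dvd_of_dvd_mul_right
      ((Nat.Prime.coprime_iff_not_dvd Nat.prime_three).2 h3).symm d
    obtain ⟨k, -, hk⟩ := (Nat.dvd_prime_pow Nat.prime_two).1 d2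
    exact IsPGroup.of_card hk
  obtain ⟨k, hk, hle⟩ := h.isSyl.exists_le_cj h2 hK
  have hkT : k ∈ T := by
    by_contra hkT
    exact ha' (h.mem_o2_of_fix (hA ha) hk hkT (mem_cj.1 (hle (mem_sup_left ha))))
  rw [cj_eq_self_of_mem hkT] at hle
  exact ha' (h.mem_o2_of_fix (hA ha) (P.inv_mem hg) (by simpa using hgT)
    (by simpa using hle (mem_sup_right (conj_mem_cj ha))))

end S3

namespace LH

variable {T P R L : Subgroup G}

theorem le_No (h : LH T P R L) : P ≤ No (O2 L) := h.leL.trans (self_le_normalizer_pCoreOf L)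

theorem conj_not_mem (h : LH T P R L) {g a : G} (hg : g ∈ P) (ha : a ∉ O2 L) :
    g * a * g⁻¹ ∉ O2 L := fun h' => ha (by
  have := conj_mem_of_mem_normalizer' (h.le_No hg) h'
  rwa [show g⁻¹ * (g * a * g⁻¹) * g = a by group] at this)

theorem ne_conj (h : LH T P R L) {x a : G} (hxP : x ∈ P) (hx : orderOf x = 3) (ha : a ∈ O2 P)
    (ha' : a ∉ O2 L) : a⁻¹ * (x * a * x⁻¹) ∉ O2 L := fun h' =>
  ha' ((O2 L).inv_mem_iff.1 (h.fpf x hxP hx a⁻¹ ((O2 P).inv_mem ha) (by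
    rw [commutatorElement_def, inv_inv]
    convert h' using 1
    group)))

theorem cos [Finite G] (h : LH T P R L) {x a b : G} (hxP : x ∈ P) (hx : orderOf x = 3)
    (ha : a ∈ O2 P) (ha' : a ∉ O2 L) (hb : b ∈ O2 P) :
    b ∈ O2 L ∨ a⁻¹ * b ∈ O2 L ∨ (x * a * x⁻¹)⁻¹ * b ∈ O2 L ∨
      (x ^ 2 * a * (x ^ 2)⁻¹)⁻¹ * b ∈ O2 L := by
  have hn := self_le_normalizer_pCoreOf (p := 2) P
  have hx2 := P.pow_mem hxP 2
  have := cover4 h.idx (O2 P).one_mem ha (conj_mem_of_mem_normalizer (hn hxP) ha)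
    (conj_mem_of_mem_normalizer (hn hx2) ha) hb (by simpa using ha')
    (by rw [inv_one, one_mul]; exact h.conj_not_mem hxP ha')
    (by rw [inv_one, one_mul]; exact h.conj_not_mem hx2 ha') (h.ne_conj hxP hx ha ha')
    (h.ne_conj hx2 (orderOf_sq_three hx) ha ha') (by
      have := h.conj_not_mem hxP (h.ne_conj hxP hx ha ha')
      convert this using 2
      group)
  rwa [inv_one, one_mul] at this

theorem le_of [Finite G] (h : LH T P R L) {K : Subgroup G} (hK : O2 L ≤ K) {x a : G} (hxP : x ∈ P)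
    (hx : orderOf x = 3) (ha : a ∈ O2 P) (ha' : a ∉ O2 L) (h1 : a ∈ K) (h2 : x * a * x⁻¹ ∈ K) :
    O2 P ≤ K := by
  have h3 := three_le_relIndex (T := O2 L) (P := K ⊓ O2 P) (one_mem _) ⟨h1, ha⟩
    ⟨h2, conj_mem_of_mem_normalizer (self_le_normalizer_pCoreOf P hxP) ha⟩ (by simpa using ha')
    (by rw [inv_one, one_mul]; exact h.conj_not_mem hxP ha') (h.ne_conj hxP hx ha ha')
  have e := relIndex_mul_relIndex (O2 L) (K ⊓ O2 P) (O2 P) (le_inf hK h.le) inf_le_right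
  rw [h.idx] at e
  have h4 : (K ⊓ O2 P).relIndex (O2 P) = 1 := by
    have h5 := relIndex_ne_zero' (K ⊓ O2 P) (O2 P)
    by_contra h6
    have : 3 * 2 ≤ 4 := e ▸ Nat.mul_le_mul h3 (by omega)
    omega
  exact (relIndex_eq_one.1 h4).trans inf_le_left

theorem sup_eq [Finite G] (h : LH T P R L) {A : Subgroup G} (hA : A ≤ O2 P) (hA' : ¬ A ≤ O2 L)
    {x : G} (hxP : x ∈ P) (hx : orderOf x = 3) (hn : x ∈ No A) : A ⊔ O2 L = O2 P := by
  obtain ⟨a, ha, ha'⟩ := SetLike.not_le_iff_exists.1 hA'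
  exact le_antisymm (sup_le hA h.le) (h.le_of le_sup_right hxP hx (hA ha) ha' (mem_sup_left ha)
    (mem_sup_left (conj_mem_of_mem_normalizer hn ha)))

theorem not_le (h : LH T P R L) : ¬ O2 P ≤ O2 L := fun h' => by
  have := h.idx
  rw [relIndex_eq_one.2 h'] at this
  omega

theorem Zq_le (h : LH T P R L) (hc : CharP 2 L) : Zq P ≤ Zq L := fun z hz => by
  obtain ⟨h1, h2, h3⟩ := mem_oZ.1 hz
  have h4 := centralizer_anti h.le h2
  exact mem_oZ.2 ⟨hc.le ⟨h.leL (pCoreOf_le P h1), h4⟩, h4, h3⟩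

theorem mem_Zq (h : LH T P R L) {w : G} (hw : w ∈ Zq L) (hc : w ∈ Ce (O2 P)) : w ∈ Zq P :=
  mem_oZ.2 ⟨h.le (mem_oZ.1 hw).1, hc, (mem_oZ.1 hw).2.2⟩

end LH

namespace LT

variable {T P R L : Subgroup G}

theorem symm (h : LT T P R L) : LT T R P L where
  h1 := h.h2
  h2 := h.h1
  eq := h.eq.trans (sup_comm _ _)
  ne := h.ne.symm
  idx := h.idx
  simple := h.simple
  ovr := fun X h1 h2 => (h.ovr X h1 h2).symm
  sq := fun u h1 h2 h3 => h.sq u h1 h3 h2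

theorem le (h : LT T P R L) : T ≤ L := h.h1.s3.le.trans h.h1.leL

theorem isSyl (h : LT T P R L) : IsSyl 2 T L :=
  isSyl_of_not_dvd_relIndex h.le h.h1.s3.two (by rw [h.idx]; decide)

theorem o2_le (h : LT T P R L) : O2 L ≤ T := h.isSyl.pCoreOf_le

theorem idx8 [Finite G] (h : LT T P R L) : (O2 L).relIndex T = 8 := by
  rw [← relIndex_mul_relIndex _ _ _ h.h1.le h.h1.s3.o2_le, h.h1.idx, h.h1.s3.idx2]

theorem o2_ne (h : LT T P R L) : O2 P ≠ O2 R := fun e => h.h1.not_le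
  (le_pCoreOf (isPGroup_pCoreOf P) (h.h1.s3.o2_le.trans h.le) (by
    rw [h.eq]
    exact sup_le (self_le_normalizer_pCoreOf P) (e ▸ self_le_normalizer_pCoreOf R)))

theorem not_le [Finite G] (h : LT T P R L) : ¬ O2 P ≤ O2 R := fun h' => by
  have e := relIndex_mul_relIndex _ _ _ h' h.h2.s3.o2_le
  rw [h.h1.s3.idx2, h.h2.s3.idx2] at e
  exact h.o2_ne (le_antisymm h' (relIndex_eq_one.1 (by omega)))

theorem sup [Finite G] (h : LT T P R L) : O2 P ⊔ O2 R = T := by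
  refine le_antisymm (sup_le h.h1.s3.o2_le h.h2.s3.o2_le) fun t ht => ?_
  obtain ⟨s, hs, hs'⟩ := SetLike.not_le_iff_exists.1 h.symm.not_le
  by_cases h1 : t ∈ O2 P
  · exact mem_sup_left h1
  · exact (mul_mem_cancel_right (mem_sup_right hs)).1
      (mem_sup_left (h.h1.s3.mul_mem ht h1 (h.h2.s3.o2_le hs) hs'))

theorem exists_t [Finite G] (h : LT T P R L) : ∃ t ∈ O2 P, t ∈ O2 R ∧ t ∉ O2 L := by
  by_contra hn
  push Not at hn
  have h1 : (O2 L).relIndex (O2 P) ≤ (O2 R ⊓ O2 P).relIndex (O2 P) :=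
    relIndex_le_of_le_left (fun t ht => hn t ht.2 ht.1) (relIndex_ne_zero' _ _)
  have h2 := relIndex_le_of_le_right (H := O2 R) h.h1.s3.o2_le (relIndex_ne_zero' _ _)
  rw [inf_relIndex_right, h.h1.idx] at h1
  rw [h.h2.s3.idx2] at h2
  omega

theorem exists_u [Finite G] (h : LT T P R L) : ∃ u ∈ T, u ∉ O2 P ∧ u ∉ O2 R := by
  obtain ⟨s, hs, hs'⟩ := SetLike.not_le_iff_exists.1 h.not_le
  obtain ⟨t, ht, ht'⟩ := SetLike.not_le_iff_exists.1 h.symm.not_le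
  exact ⟨s * t, T.mul_mem (h.h1.s3.o2_le hs) (h.h2.s3.o2_le ht),
    fun h' => ht' ((mul_mem_cancel_left hs).1 h'), fun h' => hs' ((mul_mem_cancel_right ht).1 h')⟩

theorem le_of_mem (h : LT T P R L) {K : Subgroup G} (hQ : O2 L ≤ K) (hn : L ≤ No K) {a : G}
    (hK : a ∈ K) (hL : a ∈ L) (ha : a ∉ O2 L) : L ≤ K := by
  rcases h.simple (K ⊓ L) (le_inf hQ (pCoreOf_le L)) inf_le_right
    (le_normalizer_inf hn le_normalizer) with e | e
  · exact absurd (e ▸ (⟨hK, hL⟩ : a ∈ K ⊓ L)) ha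
  · exact e ▸ inf_le_left

theorem odd_mem (h : LT T P R L) {K : Subgroup G} (hn : L ≤ No K) {a : G} (hK : a ∈ K)
    (hL : a ∈ L) (ha : a ∉ O2 L) {x : G} (hx : x ∈ L) (ho : Odd (orderOf x)) : x ∈ K :=
  res_sup_le_right (isPGroup_pCoreOf L) ((pCoreOf_le L).trans hn)
    (mem_res_of_coprime (h.le_of_mem le_sup_left
      (le_normalizer_sup (self_le_normalizer_pCoreOf L) hn) (mem_sup_right hK) hL ha hx)
      (Nat.coprime_two_right.2 ho))

theorem three_mem (h : LT T P R L) {K : Subgroup G} (hn : L ≤ No K) {a : G} (hK : a ∈ K)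
    (hL : a ∈ L) (ha : a ∉ O2 L) {x : G} (hx : x ∈ L) (ho : orderOf x = 3) : x ∈ K :=
  h.odd_mem hn hK hL ha hx (by rw [ho]; decide)

theorem nc_or (h : LT T P R L) : L ⊓ Ce (Zq L) = O2 L ∨ L ≤ Ce (Zq L) := by
  rcases h.simple (L ⊓ Ce (Zq L)) (le_inf (pCoreOf_le L) (le_centralizer_oZ _)) inf_le_left
    (le_normalizer_inf le_normalizer (le_normalizer_centralizer (le_No_Zq L))) with e | e
  · exact .inl e
  · exact .inr (e.ge.trans inf_le_right)

theorem o2_eq (h : LT T P R L) {N : Subgroup G} (h1 : L ≤ N) (h2 : N ≤ No L) (hs : IsSyl 2 T N) :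
    O2 L = O2 N :=
  le_antisymm (pCoreOf_le_pCoreOf_of_normal h1 h2)
    (pCoreOf_le_pCoreOf h1 (hs.pCoreOf_le.trans h.le))

/-- A subgroup of `T` whose squares lie in `O₂(L)` has image of order at most 4. -/
theorem idx_le_four [Finite G] (h : LT T P R L) {A : Subgroup G} (hA : A ≤ T)
    (hs : ∀ a ∈ A, a * a ∈ O2 L) :
    (O2 L).relIndex A = 1 ∨ (O2 L).relIndex A = 2 ∨ (O2 L).relIndex A = 4 := by
  have key : A ≤ O2 P ∨ A ≤ O2 R := by
    by_contra hn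
    rw [not_or] at hn
    obtain ⟨a, ha, ha'⟩ := SetLike.not_le_iff_exists.1 hn.1
    obtain ⟨b, hb, hb'⟩ := SetLike.not_le_iff_exists.1 hn.2
    have h1 : a ∈ O2 R := by_contra fun h1 => h.sq a (hA ha) ha' h1 (hs a ha)
    have h2 : b ∈ O2 P := by_contra fun h2 => h.sq b (hA hb) h2 hb' (hs b hb)
    exact h.sq (a * b) (hA (A.mul_mem ha hb)) (fun h' => ha' ((mul_mem_cancel_right h2).1 h'))
      (fun h' => hb' ((mul_mem_cancel_left h1).1 h')) (hs _ (A.mul_mem ha hb))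
  have h4 : (O2 L).relIndex A ≤ 4 := by
    rcases key with k | k
    · exact h.h1.idx ▸ relIndex_le_of_le_right k (relIndex_ne_zero' _ _)
    · exact h.h2.idx ▸ relIndex_le_of_le_right k (relIndex_ne_zero' _ _)
  obtain ⟨n, hn⟩ := IsPGroup.iff_card.1 (h.h1.s3.two.to_le hA)
  obtain ⟨k, -, hk⟩ := (Nat.dvd_prime_pow Nat.prime_two).1 (hn ▸ relIndex_dvd_card (O2 L) A)
  rw [hk] at h4 ⊢
  have : k ≤ 2 := (Nat.pow_le_pow_iff_right one_lt_two).1 (show 2 ^ k ≤ 2 ^ 2 from h4)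
  interval_cases k <;> simp

end LT

namespace DT

variable {T N T' P R : Subgroup G} {y : G} {a : ℕ}

theorem o2_eq [Finite G] (h : DT T N y a) (hs : IsSyl 2 T N) (h3 : S3 T' P) (hP : P ≤ N)
    (hs' : IsSyl 2 T' N) : O2 P = O2 N := by
  have h1 : O2 N ≤ O2 P := pCoreOf_le_pCoreOf hP (hs'.pCoreOf_le.trans h3.le)
  obtain ⟨g, hg, e⟩ := hs.exists_cj_eq hs'
  have h2 := relIndex_cj g (O2 N) T
  rw [e, cj_eq_self (self_le_normalizer_pCoreOf N hg), h.idx,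
    ← relIndex_mul_relIndex _ _ _ h1 h3.o2_le, h3.idx2] at h2
  exact le_antisymm (relIndex_eq_one.1 (by omega)) h1

theorem three_mem [Finite G] (h : DT T N y a) (h3 : S3 T' P) (hP : P ≤ N) (hs' : IsSyl 2 T' N)
    {x : G} (hx : x ∈ N) (ho : orderOf x = 3) : x ∈ P := by
  obtain ⟨x', h1, h2⟩ := h3.exists_three
  exact sup_le ((zpowers_le (G := G)).2 h1) (hs'.pCoreOf_le.trans h3.le) (h.three x hx ho x' (hP h1) h2)

theorem eq [Finite G] (h : DT T N y a) (hs : IsSyl 2 T N) (h1 : S3 T P) (h2 : S3 T R) (hP : P ≤ N)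
    (hR : R ≤ N) : P = R := by
  have key : ∀ {P R : Subgroup G}, S3 T P → S3 T R → P ≤ N → R ≤ N → P ≤ R := fun h1 h2 hP hR => by
    obtain ⟨x, hx, ho⟩ := h1.exists_three
    exact h1.le_of h2.le (h.three_mem h2 hR hs (hP hx) ho) hx (h1.not_mem ho)
  exact le_antisymm (key h1 h2 hP hR) (key h2 h1 hR hP)

end DT

/-- Words of minimal length that violate `p`. -/
theorem crit2 (A B : Subgroup G) (p : G → Prop) (hex : ∃ g ∈ A ⊔ B, ¬ p g) :
    ∃ S S' : Set G, (∀ g ∈ S, g⁻¹ ∈ S) ∧ (∀ g ∈ S', g⁻¹ ∈ S') ∧ (∀ g ∈ S', p g) ∧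
      (∃ g ∈ S, ¬ p g) ∧
      (∀ g ∈ S, g = 1 ∨ ∃ s g', (s ∈ A ∨ s ∈ B) ∧ g' ∈ S' ∧ g = s * g') ∧
      (∀ g ∈ S', ∀ s, (s ∈ A ∨ s ∈ B) → g * s ∈ S) ∧ ∀ g ∈ S, g ∈ A ⊔ B := by
  classical
  let Wd : ℕ → Set G := fun n =>
    {g | ∃ l : List G, l.length < n ∧ (∀ s ∈ l, s ∈ A ∨ s ∈ B) ∧ l.prod = g}
  have hinv : ∀ n, ∀ g ∈ Wd n, g⁻¹ ∈ Wd n := by
    rintro n g ⟨l, h1, h2, rfl⟩
    refine ⟨(l.map fun s => s⁻¹).reverse, by simpa using h1, fun s hs => ?_,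
      (List.prod_inv_reverse l).symm⟩
    obtain ⟨t, ht, rfl⟩ := List.mem_map.1 (List.mem_reverse.1 hs)
    exact (h2 t ht).imp A.inv_mem B.inv_mem
  let K : Subgroup G :=
    { carrier := {g | ∃ n, g ∈ Wd n}
      one_mem' := ⟨1, [], by simp, by simp, rfl⟩
      mul_mem' := by
        rintro a b ⟨n, l, -, h2, rfl⟩ ⟨m, l', -, h2', rfl⟩
        exact ⟨_, l ++ l', Nat.lt_succ_self _, fun s hs => (List.mem_append.1 hs).elim (h2 s) (h2' s),
          List.prod_append⟩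
      inv_mem' := fun ⟨n, h⟩ => ⟨n, hinv n _ h⟩ }
  have hK : A ⊔ B ≤ K := sup_le (fun a ha => ⟨2, [a], by simp, by simp [ha], by simp⟩)
    (fun a ha => ⟨2, [a], by simp, by simp [ha], by simp⟩)
  have hex' : ∃ n, ∃ g ∈ Wd (n + 1), ¬ p g := by
    obtain ⟨g, hg, hp⟩ := hex
    obtain ⟨n, l, h1, h2⟩ := hK hg
    exact ⟨n, g, ⟨l, by omega, h2⟩, hp⟩
  refine ⟨Wd (Nat.find hex' + 1), Wd (Nat.find hex'), hinv _, hinv _, fun g hg => ?_,
    Nat.find_spec hex', ?_, ?_, ?_⟩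
  · by_contra hp
    obtain ⟨l, h1, h2⟩ := hg
    exact Nat.find_min hex' h1 ⟨g, ⟨l, Nat.lt_succ_self _, h2⟩, hp⟩
  · rintro g ⟨l, h1, h2, rfl⟩
    rcases l with _ | ⟨s, l⟩
    · exact .inl rfl
    · exact .inr ⟨s, l.prod, h2 s (by simp), ⟨l, by simpa using h1, fun t ht => h2 t (by simp [ht]),
        rfl⟩, List.prod_cons⟩
  · rintro g ⟨l, h1, h2, rfl⟩ s hs
    refine ⟨l ++ [s], by simpa using h1, fun t ht => ?_, by simp⟩
    rcases List.mem_append.1 ht with h | h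
    · exact h2 t h
    · rwa [List.mem_singleton.1 h]
  · rintro g ⟨l, -, h2, rfl⟩
    exact list_prod_mem fun s hs => (h2 s hs).elim mem_sup_left mem_sup_right

theorem crit (A B : Subgroup G) (p r : G → Prop) (h1 : r 1)
    (hs : ∀ g, p g → ∀ s, (s ∈ A ∨ s ∈ B) → r (s * g)) (hex : ∃ g ∈ A ⊔ B, ¬ p g) :
    ∃ g ∈ A ⊔ B, ¬ p g ∧ r g ∧ r g⁻¹ := by
  obtain ⟨S, S', i1, -, i3, ⟨g, hg, hp⟩, i5, -, i7⟩ := crit2 A B p hex
  have key : ∀ g ∈ S, r g := fun g hg => by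
    rcases i5 g hg with rfl | ⟨s, g', h2, h3, rfl⟩
    · exact h1
    · exact hs g' (i3 g' h3) s h2
  exact ⟨g, i7 g hg, hp, key g hg, key _ (i1 g hg)⟩

/-- If all conjugates of `W` under `H` lie in the 2-group `Q`, then `⟨W^H⟩` is a 2-group. -/
theorem isPGroup_ncl {H W Q : Subgroup G} (hQ : IsPGroup 2 Q) (h : ∀ g ∈ H, cj g W ≤ Q) :
    IsPGroup 2 (ncl H W) := hQ.to_le (ncl_le_iff.2 h)

theorem o2_No_ne_bot {K : Subgroup G} (hK : IsPGroup 2 K) (h : K ≠ ⊥) : O2 (No K) ≠ ⊥ :=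
  fun e => h (le_bot_iff.1 (e ▸ le_pCoreOf hK le_normalizer le_rfl))

theorem o2_C1_ne_bot {z : G} (h1 : z ≠ 1) (h2 : z * z = 1) : O2 (C1 z) ≠ ⊥ := fun e => by
  have h3 : zpowers z ≤ O2 (C1 z) :=
    le_pCoreOf (isPGroup_zpowers (k := 1) (by rw [pow_one, pow_two, h2]))
      ((zpowers_le (G := G)).2 (mem_C1.2 rfl)) (le_normalizer_of_le_centralizer fun g hg =>
        mem_Ce.2 fun a ha => by
          obtain ⟨k, rfl⟩ := mem_zpowers_iff.1 ha
          exact (Commute.zpow_left (mem_C1.1 hg) k))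
  rw [e] at h3
  exact h1 (mem_bot.1 (h3 (mem_zpowers z)))

namespace Amb

variable {T P R N : Subgroup G}

theorem isSyl (h : Amb T) (hN : T ≤ N) : IsSyl 2 T N := h.syl.of_le hN le_top

theorem of_two [Finite G] (h : Amb T) (h1 : S3 T P) (h2 : S3 T R) (hne : P ≠ R) (hP : P ≤ N)
    (hR : R ≤ N) (ho : O2 N ≠ ⊥) :
    LT T P R (P ⊔ R) ∧ N ≤ No (P ⊔ R) ∧ ∀ X, S3 T X → X ≤ N → X = P ∨ X = R := by
  have hT := h1.le.trans hP
  rcases h.str N hT ho with k | ⟨y, a, k⟩ | ⟨P', R', L, k, k1, k2⟩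
  · exact absurd (hP.trans k) h1.nn
  · exact absurd (k.eq (h.isSyl hT) h1 h2 hP hR) hne
  have key : ∀ X, S3 T X → X ≤ N → X = P' ∨ X = R' := fun X h3 hX =>
    k.ovr X h3 (h3.le_of_norm k.le (hX.trans k2))
  rcases key P h1 hP with rfl | rfl <;> rcases key R h2 hR with rfl | rfl
  · exact absurd rfl hne
  · exact ⟨k.eq ▸ k, k.eq ▸ k2, key⟩
  · exact ⟨k.symm.eq ▸ k.symm, k.symm.eq ▸ k2, fun X h3 hX => (key X h3 hX).symm⟩
  · exact absurd rfl hne

theorem three_bot [Finite G] (h : Amb T) {P₁ P₂ P₃ K : Subgroup G} (h1 : S3 T P₁) (h2 : S3 T P₂)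
    (h3 : S3 T P₃) (n12 : P₁ ≠ P₂) (n13 : P₁ ≠ P₃) (n23 : P₂ ≠ P₃) (hK : IsPGroup 2 K)
    (k1 : P₁ ≤ No K) (k2 : P₂ ≤ No K) (k3 : P₃ ≤ No K) : K = ⊥ := by
  by_contra hn
  rcases (h.of_two h1 h2 n12 k1 k2 (o2_No_ne_bot hK hn)).2.2 P₃ h3 k3 with e | e
  · exact n13 e.symm
  · exact n23 e.symm

end Amb

namespace Amb2

variable {T P R R' : Subgroup G}

theorem lt [Finite G] (h : Amb2 T) (h1 : S3 T P) (h2 : S3 T R) (hne : P ≠ R) : LT T P R (P ⊔ R) :=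
  (h.toAmb.of_two h1 h2 hne le_sup_left le_sup_right (h.pair P R h1 h2 hne)).1

theorem charP (h : Amb2 T) (h1 : S3 T P) (h2 : S3 T R) (hne : P ≠ R) : CharP 2 (P ⊔ R) :=
  h.char _ (h1.le.trans le_sup_left) (h.pair P R h1 h2 hne)

theorem charS [Finite G] (h : Amb2 T) (h1 : S3 T P) (h2 : S3 T R) (hne : P ≠ R) : CharP 2 P :=
  h.char _ h1.le fun e => (h.lt h1 h2 hne).h1.not_le (e ▸ bot_le)

theorem pair_crit [Finite G] (h : Amb2 T) (h1 : S3 T P) (h2 : S3 T R) (h3 : S3 T R') (n12 : P ≠ R)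
    (n13 : P ≠ R') (n23 : R ≠ R') : ∃ (g : G) (X Y : Subgroup G), (X = R ∨ X = R') ∧
      (Y = R ∨ Y = R') ∧ cj g (Zq (P ⊔ X)) ≤ O2 P ∧ ¬ cj g (Zq (P ⊔ X)) ≤ O2 (P ⊔ Y) ∧
      cj g⁻¹ (Zq (P ⊔ Y)) ≤ O2 P := by
  have l2 := h.lt h1 h2 n12
  have l3 := h.lt h1 h3 n13
  obtain ⟨g, -, hp, r1, r2⟩ := crit (P ⊔ R) (P ⊔ R')
    (fun g => ∀ X Y : Subgroup G, (X = R ∨ X = R') → (Y = R ∨ Y = R') →
      cj g (Zq (P ⊔ X)) ≤ O2 (P ⊔ Y))
    (fun g => ∀ X : Subgroup G, (X = R ∨ X = R') → cj g (Zq (P ⊔ X)) ≤ O2 P)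
    (fun X hX => by
      rw [cj_one]
      rcases hX with rfl | rfl
      · exact (Zq_le _).trans l2.h1.le
      · exact (Zq_le _).trans l3.h1.le)
    (fun g hg s hs X hX => by
      rw [← cj_cj]
      rcases hs with hs | hs
      · exact (cj_le_of_le (hg X R hX (.inl rfl)) (self_le_normalizer_pCoreOf _ hs)).trans l2.h1.le
      · exact (cj_le_of_le (hg X R' hX (.inr rfl)) (self_le_normalizer_pCoreOf _ hs)).trans l3.h1.le)
    (by
      by_contra hn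
      push Not at hn
      have hK := isPGroup_ncl (isPGroup_pCoreOf (P ⊔ R)) fun g hg => hn g hg R R (.inl rfl) (.inl rfl)
      have hn' := le_normalizer_ncl ((P ⊔ R) ⊔ (P ⊔ R')) (Zq (P ⊔ R))
      have := h.toAmb.three_bot h1 h2 h3 n12 n13 n23 hK
        ((le_sup_left.trans le_sup_left).trans hn') ((le_sup_right.trans le_sup_left).trans hn')
        ((le_sup_right.trans le_sup_right).trans hn')
      exact oZ_ne_bot (isPGroup_pCoreOf _) (h.pair P R h1 h2 n12) (ncl_eq_bot_iff.1 this))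
  push Not at hp
  obtain ⟨X, Y, hX, hY, hp⟩ := hp
  exact ⟨g, X, Y, hX, hY, r1 X hX, hp, r2 Y hY⟩

end Amb2

end H48.DP
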