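import Cfsg.Agent.H48.DPTop
import Cfsg.Prelude.Def_SevenCases

/-! # S3275, chapter (1): a counterexample is of characteristic 2 type

Definitions and job statements; proofs in `blueprints/DP1.md`. -/

set_option autoImplicit false

namespace H48.DP

open Subgroup Cfsg H98
open scoped commutatorElement

universe u

structure Hyp1 (G : Type u) [Group G] : Prop extends Hyp G where
  r3 : ¬ PRankLE 2 3 G
  sec : ¬ SectionalPRankLE 2 4 G
  se : ∀ M : Subgroup G, ¬ IsStronglyEmbedded M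

/-! ### The three groups -/

/-- Every automorphism is inner or inverts an element of prime order `> 3` up to conjugacy. -/
def Aut3 (L : Type*) [Group L] : Prop := ∀ β : MulAut L, (∃ l : L, β = MulAut.conj l) ∨
  ∃ x l : L, (orderOf x).Prime ∧ 3 < orderOf x ∧ β x = l * x⁻¹ * l⁻¹

def JobA27 : Prop := ∀ (L : Type u) [Group L] [Finite L], IsL27 L → Aut3 L
def JobA33 : Prop := ∀ (L : Type u) [Group L] [Finite L], IsL33 L → Aut3 L
def JobAU : Prop := ∀ (L : Type u) [Group L] [Finite L], IsU33 L → Aut3 L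

def JobCen : Prop := ∀ (L : Type u) [Group L] [Finite L], Three L →
  IsSimpleGroup L ∧ ¬ IsMulCommutative L ∧ PRankAtLeast 2 2 L ∧
    (∃ p : ℕ, p.Prime ∧ 3 < p ∧ p ∣ Nat.card L) ∧
    (∀ w : L, orderOf w = 2 → Group.IsSolvable (C1 w) ∧ centralizerPPrimeCore 2 w = ⊥) ∧
    (IsL27 L → ∀ S : Sylow 2 L, Nonempty ((S : Subgroup L) ≃* DihedralGroup 4))

def IsSL27 (X : Type*) [Group X] : Prop :=
  Nonempty (X ≃* Matrix.SpecialLinearGroup (Fin 2) (ZMod 7))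

def JobCov : Prop := ∀ (L : Type u) [Group L] [Finite L], IsQuasisimple L →
  IsPGroup 2 (center L) → Three (L ⧸ center L) → Three L ∨ IsSL27 L

def JobCT : Prop := JobCen.{u} → ∀ (L : Type u) [Group L] [Finite L],
  (Three L → InC 2 L) ∧ (IsSL27 L → InT 2 L)

/-- 2-elements normalise components, and the normaliser acts by inner automorphisms. -/
def Act : Prop := ∀ (X : Type u) [Group X] [Finite X], ND X → ∀ K : Subgroup X, IsComponent K →
  Three (K ⧸ center K) →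
    (∀ g : X, IsPGroup 2 (zpowers g) → g ∈ No K) ∧ ∀ g ∈ No K, ∃ l ∈ K, l⁻¹ * g ∈ Ce K

def JobAct : Prop := JobA27.{u} → JobA33.{u} → JobAU.{u} → JobCen.{u} → Act.{u}

/-! ### Reduction to a standard subgroup -/

/-- Involution centralisers have trivial core. -/
def OT (G : Type*) [Group G] : Prop := ∀ t : G, orderOf t = 2 → centralizerPPrimeCore 2 t = ⊥

def JobBal : Prop := Act.{u} → JobCen.{u} → ∀ (G : Type u) [Group G] [Finite G], Hyp1 G → OT G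

/-- Components of involution centralisers are among the three groups. -/
def CT3 (G : Type*) [Group G] : Prop :=
  ∀ (t : G) (K : Subgroup G), orderOf t = 2 → IsComponentOf K (C1 t) → Three K

def JobSL : Prop := JobCen.{u} → JobCov.{u} → JobCT.{u} → ∀ (G : Type u) [Group G] [Finite G],
  Hyp1 G → OT G → CT3 G

def JobTerm : Prop := Act.{u} → JobCen.{u} → ∀ (G : Type u) [Group G] [Finite G], Hyp G → OT G →
  CT3 G → IsComponentType G → ∃ K : Subgroup G, IsStandardSubgroup K ∧ Three K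

def JobStd : Prop := JobHKit.{u} → JobCen.{u} → JobKN.{u} → ∀ (G : Type u) [Group G] [Finite G],
  Hyp1 G → ∀ K : Subgroup G, IsStandardSubgroup K → ¬ IsL27 K ∧ ¬ IsL33 K

/-! ### Standard `U₃(3)` -/

variable {G : Type*} [Group G]

/-- The model of `L = U₃(3)`: `⟨a, b, s⟩ = 4 ≀ 2`, `⟨a, b, x, s⟩ = 4² : S₃`,
`⟨a, b, s, y⟩ = C_L(z)` for `z = a² b²`. -/
structure UM0 (L : Subgroup G) (a b s x y : G) : Prop where
  aL : a ∈ L
  bL : b ∈ L
  sL : s ∈ L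
  xL : x ∈ L
  yL : y ∈ L
  a4 : a ^ 4 = 1
  b4 : b ^ 4 = 1
  ab : a * b = b * a
  s2 : s * s = 1
  sa : s * a * s⁻¹ = b
  x3 : x ^ 3 = 1
  xa : x * a * x⁻¹ = b
  xb : x * b * x⁻¹ = (a * b)⁻¹
  sx : s * x * s⁻¹ = x⁻¹
  y3 : y ^ 3 = 1
  yc : Commute y (a * b)
  y1 : y * a ^ 2 * y⁻¹ = s
  y2 : y * s * y⁻¹ = s * a⁻¹ * b
  ind : ∀ i j : ℤ, a ^ i * b ^ j = 1 → 4 ∣ i ∧ 4 ∣ j
  card : Nat.card L = 6048
  simple : IsSimpleGroup L
  one : ∀ l ∈ L, orderOf l = 2 → ∃ g ∈ L, g * l * g⁻¹ = a ^ 2 * b ^ 2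
  cV : ∀ l ∈ L, Commute l (a ^ 2) → Commute l (b ^ 2) → l ∈ closure {a, b}
  cz : Nat.card ↥(L ⊓ C1 (a ^ 2 * b ^ 2)) = 96
  gen : L ≤ (L ⊓ C1 (a ^ 2 * b ^ 2)) ⊔ (L ⊓ C1 (a ^ 2))

structure UM (L : Subgroup G) (a b s x y : G) : Prop extends UM0 L a b s x y where
  two : ∀ l ∈ L, orderOf l = 2 → Commute l (a ^ 2 * b ^ 2) → l ≠ a ^ 2 * b ^ 2 →
    ∃ g ∈ L, Commute g (a ^ 2 * b ^ 2) ∧ g * l * g⁻¹ = a ^ 2
  c3 : ∀ o ∈ L, orderOf o = 3 → ∀ U : Subgroup G, U ≤ L → IsPGroup 2 U → U ≤ C1 o →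
    IsCyclic U ∧ Nat.card U ≤ 4
  syl : IsSyl 2 (closure {a, b, s}) L
  cW : Nat.card ↥(closure ({a, b, s} : Set G)) = 32
  cH : Nat.card ↥(closure ({a, b} : Set G)) = 16
  rk : PRankLE 2 2 L
  cen : L ⊓ Ce L = ⊥

def JobUM0 : Prop := ∀ (G : Type u) [Group G] [Finite G] (L : Subgroup G), IsU33 L →
  ∃ a b s x y : G, UM0 L a b s x y

def JobUM : Prop := ∀ (G : Type u) [Group G] [Finite G] (L : Subgroup G) (a b s x y : G),
  UM0 L a b s x y → UM L a b s x y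

/-- The Sylow 2-subgroups of `C(L)` are cyclic, and a diagonal involution is fused to `C(L)`. -/
def UR1 (L : Subgroup G) : Prop :=
  (∀ R : Subgroup G, IsSyl 2 R (Ce L) → IsCyclic R ∧ Nat.card R ≤ 4) ∧
    ∃ g : G, ∃ l ∈ L, ∃ k ∈ Ce L, l ≠ 1 ∧ l * l = 1 ∧ k * k = 1 ∧ l * k ∈ cj g (Ce L)

def JobUR1 : Prop := Act.{u} → ∀ (G : Type u) [Group G] [Finite G], Hyp1 G →
  ∀ (L : Subgroup G) (a b s x y : G), IsStandardSubgroup L → IsU33 L → UM L a b s x y → UR1 L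

/-- `C(t) = L × ⟨r⟩`, `t ≁ z`, `t ∼ t z`. -/
structure US (L : Subgroup G) (a b s x y r t : G) : Prop extends UM L a b s x y where
  idx : ∀ N : Subgroup G, N.index ≠ 2
  rc : r ∈ Ce L
  r4 : r ^ 4 = 1
  tr : t = r ∨ t = r ^ 2
  t2 : orderOf t = 2
  ct : ∀ g : G, Commute g t → ∃ l ∈ L, ∃ k ∈ zpowers r, g = l * k
  nz : ∀ g : G, g * t * g⁻¹ ∉ L
  tz : ∃ g : G, g * t * g⁻¹ = t * (a ^ 2 * b ^ 2)

def JobUR2 : Prop := Act.{u} → ∀ (G : Type u) [Group G] [Finite G], Hyp G → OT G →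
  ∀ (L : Subgroup G) (a b s x y : G), IsStandardSubgroup L → IsU33 L → UM L a b s x y → UR1 L →
    ∃ r t : G, US L a b s x y r t

/-- `V₀ = ⟨a², b²⟩`. -/
abbrev V0 (a b : G) : Subgroup G := closure {a ^ 2, b ^ 2}
/-- `H = ⟨a, b⟩`. -/
abbrev Hs (a b : G) : Subgroup G := closure {a, b}
/-- `E = ⟨t, a², b²⟩`. -/
abbrev Es (a b t : G) : Subgroup G := closure {t, a ^ 2, b ^ 2}
/-- `Y = C(E) = ⟨a, b, r⟩`. -/
abbrev Ys (a b r : G) : Subgroup G := closure {a, b, r}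
/-- `Q = N(E) ∩ C(V₀)`. -/
abbrev Qs (a b t : G) : Subgroup G := No (Es a b t) ⊓ Ce (V0 a b)
/-- `T₁ = Q ⟨s⟩`. -/
abbrev Ts (a b s t : G) : Subgroup G := Qs a b t ⊔ zpowers s

/-- `Q` centralises `H`, and `R` has order 2. -/
def Psi0 (a b r t : G) : Prop := r = t ∧ ∀ q ∈ Qs a b t, Commute q a ∧ Commute q b

structure UQ1 (L : Subgroup G) (a b s x y r t : G) : Prop extends US L a b s x y r t where
  cE : Ce (Es a b t) = Ys a b r
  om : ∀ c ∈ Ys a b r, c * c = 1 → c ∈ Es a b t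
  nE : ∀ n ∈ No (Es a b t), n * t * n⁻¹ * t ∈ V0 a b ∧ ∃ w ∈ closure ({x, s} : Set G),
    n * w⁻¹ ∈ Qs a b t
  ex : ∃ q ∈ Qs a b t, q * t * q⁻¹ = t * a ^ 2
  nH : ∀ q ∈ Qs a b t, ∀ h ∈ Hs a b, q * h * q⁻¹ * h⁻¹ ∈ V0 a b

/-- The action of `Q` on `Y`. -/
def Psi (a b r t : G) : Prop := (∀ q ∈ Qs a b t, q * r * q⁻¹ * r⁻¹ ∈ Hs a b) ∧
  (Psi0 a b r t ∨ ∀ q ∈ Qs a b t, q * t * q⁻¹ ≠ t → ∀ c ∈ Ys a b r, Commute c q →
    c ∈ V0 a b ∨ ∃ h ∈ Hs a b, t * h ^ 2 = q * t * q⁻¹ ∧ c = t * h)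

/-- `Q / H` is abelian and `t ∉ T₁' H`. -/
def Der (a b s t : G) : Prop := (∀ q ∈ Qs a b t, ∀ q' ∈ Qs a b t, ⁅q, q'⁆ ∈ Hs a b) ∧
  ∃ D : Subgroup G, ⁅Ts a b s t, Ts a b s t⁆ ≤ D ∧ V0 a b ≤ D ∧ t ∉ D

structure UQ (L : Subgroup G) (a b s x y r t : G) : Prop extends UQ1 L a b s x y r t where
  psi : Psi a b r t
  der : Der a b s t

def JobUQ1 : Prop := ∀ (G : Type u) [Group G] [Finite G] (L : Subgroup G) (a b s x y r t : G),
  US L a b s x y r t → UQ1 L a b s x y r t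

def JobUQ2 : Prop := ∀ (G : Type u) [Group G] [Finite G] (L : Subgroup G) (a b s x y r t : G),
  UQ1 L a b s x y r t → Psi a b r t

def JobUQ3 : Prop := ∀ (G : Type u) [Group G] [Finite G] (L : Subgroup G) (a b s x y r t : G),
  UQ1 L a b s x y r t → Psi a b r t → Der a b s t

/-- Weak closure of `E` with respect to `Y`. -/
def WC (a b s r t : G) : Prop :=
  ∀ g : G, cj g (Ys a b r) ≤ Ts a b s t → cj g (Es a b t) = Es a b t

def JobWC : Prop := ∀ (G : Type u) [Group G] [Finite G] (L : Subgroup G) (a b s x y r t : G),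
  UQ L a b s x y r t → WC a b s r t ∨
    (Psi0 a b r t ∧ ∃ e ∈ Qs a b t, e * e = 1 ∧ e * t * e⁻¹ ≠ t)

def JobWT : Prop := ∀ (G : Type u) [Group G] [Finite G] (L : Subgroup G) (a b s x y r t : G),
  UQ L a b s x y r t → ¬ WC a b s r t

/-- `A = ⟨a², b², e, e ^ s⟩ = E₁₆`. -/
abbrev As (a b s e : G) : Subgroup G := closure {a ^ 2, b ^ 2, e, s * e * s⁻¹}

structure UA (L : Subgroup G) (a b s x y t e : G) : Prop extends US L a b s x y t t where
  e2 : e * e = 1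
  ea : Commute e a
  eb : Commute e b
  et : e * t * e⁻¹ = t * a ^ 2
  es : Commute e (s * e * s⁻¹)
  xA : x ∈ No (As a b s e)

def JobUA : Prop := ∀ (G : Type u) [Group G] [Finite G] (L : Subgroup G) (a b s x y r t : G),
  UQ L a b s x y r t → Psi0 a b r t → (∃ e ∈ Qs a b t, e * e = 1 ∧ e * t * e⁻¹ ≠ t) →
    ∃ e : G, UA L a b s x y t e

/-- `u = e e ^ s`, `f = e ^ y`, `w = e f f ^ y`. -/
structure UW (L : Subgroup G) (a b s x y t e u f w : G) : Prop extends UA L a b s x y t e where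
  ud : u = e * (s * e * s⁻¹)
  f2 : f * f = 1
  ft : f * t * f⁻¹ = t * s
  fs : Commute f s
  fab : Commute f (a * b)
  fu : Commute f u
  fa2 : f * a ^ 2 * f⁻¹ = a ^ 2 * u
  fe : f * e * f⁻¹ = e * w ^ 2
  fa : f * a * f⁻¹ = e * w * a
  fw : Commute f w
  we : Commute w e
  ws : Commute w s
  wab : Commute w (a * b)
  wa2 : Commute w (a ^ 2)
  wt : w * t * w⁻¹ = t * (a * b) * u
  wc : w ^ 2 = u ∨ w ^ 2 = u * (a ^ 2 * b ^ 2)
  wa : a * w * a⁻¹ = w * w ^ 2 * u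

def JobUW : Prop := ∀ (G : Type u) [Group G] [Finite G] (L : Subgroup G) (a b s x y t e : G),
  UA L a b s x y t e → ∃ u f w : G, UW L a b s x y t e u f w

/-- `B = ⟨a, b, w, v⟩ = 4⁴` with `v = w ^ x`. -/
structure UB (L : Subgroup G) (a b s x y t e u f w v : G) : Prop extends
    UW L a b s x y t e u f w where
  vd : v = x * w * x⁻¹
  w2 : w ^ 2 = u
  w4 : w ^ 4 = 1
  aw : Commute a w
  bw : Commute b w
  av : Commute a v
  bv : Commute b v
  wv : Commute w v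
  xv : x * v * x⁻¹ = (w * v)⁻¹
  eB : e * v ^ 2 ∈ V0 a b
  ind4 : ∀ i j k l : ℤ, a ^ i * b ^ j * w ^ k * v ^ l = 1 → 4 ∣ i ∧ 4 ∣ j ∧ 4 ∣ k ∧ 4 ∣ l

def JobUB : Prop := ∀ (G : Type u) [Group G] [Finite G] (L : Subgroup G)
  (a b s x y t e u f w : G), UW L a b s x y t e u f w → ∃ v : G, UB L a b s x y t e u f w v

/-- `B`. -/
abbrev Bs (a b w v : G) : Subgroup G := closure {a, b, w, v}
/-- `Ω₁(B)`. -/
abbrev Os (a b w v : G) : Subgroup G := closure {a ^ 2, b ^ 2, w ^ 2, v ^ 2}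

structure UC (L : Subgroup G) (a b s x y t e u f w v : G) : Prop extends
    UB L a b s x y t e u f w v where
  cB : Nat.card (Bs a b w v) = 256
  nf : ∀ β ∈ Bs a b w v, ∃ i j k l : Fin 4, β = a ^ i.val * b ^ j.val * w ^ k.val * v ^ l.val
  tB : t ∈ No (Bs a b w v)
  sB : s ∈ No (Bs a b w v)
  fB : f ∈ No (Bs a b w v)
  tc : ∀ β ∈ Bs a b w v, (t * β) * (t * β) = 1 → ∃ γ ∈ Bs a b w v, γ * t * γ⁻¹ = t * β
  sc : ∀ β ∈ Bs a b w v, (s * β) * (s * β) = 1 → ∃ γ ∈ Bs a b w v, γ * s * γ⁻¹ = s * β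
  cs : Nat.card ↥(Bs a b w v ⊓ C1 s) = 16
  sylB : IsSyl 2 (Bs a b w v) (Ce (Os a b w v))

def JobUC : Prop := ∀ (G : Type u) [Group G] [Finite G] (L : Subgroup G)
  (a b s x y t e u f w v : G), UB L a b s x y t e u f w v → UC L a b s x y t e u f w v

/-- `T = B ⟨t, f⟩` is a Sylow 2-subgroup of `N(Ω₁ B)`. -/
def JobUN : Prop := ∀ (G : Type u) [Group G] [Finite G] (L : Subgroup G)
  (a b s x y t e u f w v : G), UC L a b s x y t e u f w v →
    IsSyl 2 (Bs a b w v ⊔ closure {t, f}) (No (Os a b w v))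

def JobUT : Prop := ∀ (G : Type u) [Group G] [Finite G] (L : Subgroup G)
  (a b s x y t e u f w v : G), UC L a b s x y t e u f w v →
    IsSyl 2 (Bs a b w v ⊔ closure {t, f}) (No (Os a b w v)) →
      IsSyl 2 (Bs a b w v ⊔ closure {t, f}) ⊤

def JobUF : Prop := ∀ (G : Type u) [Group G] [Finite G] (L : Subgroup G)
  (a b s x y t e u f w v : G), UC L a b s x y t e u f w v →
    ¬ IsSyl 2 (Bs a b w v ⊔ closure {t, f}) ⊤

theorem not_us (q1 : JobUQ1.{u}) (q2 : JobUQ2.{u}) (q3 : JobUQ3.{u}) (wc : JobWC.{u}) (wt : JobWT.{u}) (ua : JobUA.{u})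
    (uw : JobUW.{u}) (ub : JobUB.{u}) (uc : JobUC.{u}) (un : JobUN.{u}) (ut : JobUT.{u})
    (uf : JobUF.{u}) {G : Type u} [Group G] [Finite G] {L : Subgroup G} {a b s x y r t : G}
    (h : US L a b s x y r t) : False := by
  have h0 := q1 G L a b s x y r t h
  have h1 : UQ L a b s x y r t :=
    ⟨h0, q2 G L a b s x y r t h0, q3 G L a b s x y r t h0 (q2 G L a b s x y r t h0)⟩
  rcases wc G L a b s x y r t h1 with h2 | ⟨h2, h3⟩
  · exact wt G L a b s x y r t h1 h2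
  obtain ⟨e, h4⟩ := ua G L a b s x y r t h1 h2 h3
  obtain ⟨u, f, w, h5⟩ := uw G L a b s x y t e h4
  obtain ⟨v, h6⟩ := ub G L a b s x y t e u f w h5
  have h7 := uc G L a b s x y t e u f w v h6
  exact uf G L a b s x y t e u f w v h7 (ut G L a b s x y t e u f w v h7
    (un G L a b s x y t e u f w v h7))

end H48.DP
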