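/- Covering number of `PSL(n,q)` (blueprints/CN.md), `JobDEC`: a cyclic decomposition with maximal `rho`. -/
import Cfsg.Agent.H68.CNKit2

set_option autoImplicit false
set_option linter.unusedSectionVars false

namespace H48.CN
open Polynomial Module H53 H60.Ore H68.CN Function

universe u
variable {K : Type u} [Field K] {V : Type u} [AddCommGroup V] [Module K V]
  {ι : Type} [Fintype ι] [DecidableEq ι] {x : End K V} {a : ι → V} {f : ι → K[X]} {i j : ι}

theorem sum_upd {α : Type*} (g : α → ℕ) (f : ι → α) (i : ι) (p : α) :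
    ∑ k, g (update f i p k) + g (f i) = ∑ k, g (f k) + g p := by
  rw [← Finset.add_sum_erase _ _ (Finset.mem_univ i), ← Finset.add_sum_erase _ (fun k => g (f k)) (Finset.mem_univ i),
    update_self, Finset.sum_congr rfl fun k hk => by rw [update_of_ne (Finset.ne_of_mem_erase hk)]]
  ring

theorem sum_upd2 {α : Type*} (g : α → ℕ) (f : ι → α) (h : i ≠ j) (p q : α) :
    ∑ k, g (update (update f i p) j q k) + g (f i) + g (f j) = ∑ k, g (f k) + g p + g q := by
  have h1 := sum_upd g f i p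
  have h2 := sum_upd g (update f i p) j q
  rw [update_of_ne h.symm] at h2
  omega

theorem repl (h : Dec x a f) (hij : i ≠ j) {u v : V} {p q : K[X]} (hp : p.Monic) (hq : q.Monic)
    (hu : aeval x p u = 0) (hv : aeval x q v = 0)
    (hd : p.natDegree + q.natDegree = (f i).natDegree + (f j).natDegree)
    (hW : ∀ W : Submodule K V, u ∈ W → v ∈ W → (∀ w ∈ W, x w ∈ W) → a i ∈ W ∧ a j ∈ W) :
    Dec x (update (update a i u) j v) (update (update f i p) j q) := by
  have k : ∀ P : V → K[X] → Prop, (∀ k, P (a k) (f k)) → P u p → P v q →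
      ∀ k, P (update (update a i u) j v k) (update (update f i p) j q k) := fun P h1 h2 h3 k => by
    by_cases e : k = j
    · rwa [e, update_self, update_self]
    rw [update_of_ne e, update_of_ne e]
    by_cases e' : k = i
    · rwa [e', update_self, update_self]
    · rw [update_of_ne e', update_of_ne e']; exact h1 k
  refine ⟨k (fun _ p => p.Monic) h.1 hp hq, k (fun v p => aeval x p v = 0) h.2.1 hu hv, ?_, fun W h1 h2 => ?_⟩
  · have := sum_upd2 natDegree f hij p q
    have := h.2.2.1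
    omega
  · have := hW W (by simpa [hij] using h1 i) (by simpa using h1 j) h2
    refine h.2.2.2 W (fun k => ?_) h2
    by_cases e : k = j
    · exact e ▸ this.2
    by_cases e' : k = i
    · exact e' ▸ this.1
    · simpa [e, e'] using h1 k

theorem exists_dec [FiniteDimensional K V] (x : End K V) :
    ∃ (m : ℕ) (a : Fin m → V) (f : Fin m → K[X]), Dec x a f := by
  obtain ⟨m, P, hP, e, he⟩ := exists_sim_model x
  have fd := fun i => finite_adjoinRoot (hP i).ne_zero
  have k : ∀ (Q : K[X]) (i : Fin m), aeval x Q (e.symm (Pi.single i 1)) = e.symm (Pi.single i (AdjoinRoot.mk _ Q)) :=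
    fun Q i => e.injective <| by
      have := intertwine_aeval (e : V →ₗ[K] ∀ i, AdjoinRoot (P i)) he Q (e.symm (Pi.single i 1))
      rw [LinearEquiv.coe_coe] at this
      rw [e.apply_symm_apply, this, aeval_piEnd]
      ext l
      by_cases h : l = i
      · subst h; simp [aeval_cyc_apply]
      · simp [h]
  refine ⟨m, fun i => e.symm (Pi.single i 1), P, fun i => (hP i).monic, fun i => by simp [k], ?_, fun W h1 h2 => ?_⟩
  · rw [e.finrank_eq, Module.finrank_pi_fintype]
    exact Finset.sum_congr rfl fun i _ => (finrank_adjoinRoot (hP i).ne_zero).symm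
  · refine eq_top_iff.2 fun v _ => ?_
    rw [← e.symm_apply_apply v, ← Finset.univ_sum_single (e v), map_sum]
    refine W.sum_mem fun i _ => ?_
    obtain ⟨Q, hQ⟩ := AdjoinRoot.mk_surjective (e v i)
    rw [← hQ, ← k]
    exact aeval_mem h2 Q (h1 i)

/-- A decomposition with maximal `rho`. -/
def Mx (x : End K V) (a : ι → V) (f : ι → K[X]) : Prop :=
  Dec x a f ∧ ∀ (a' : ι → V) (f' : ι → K[X]), Dec x a' f' → rho f' ≤ rho f

theorem exists_mx (h : Dec x a f) : ∃ (a : ι → V) (f : ι → K[X]), Mx x a f := by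
  have b : BddAbove {n | ∃ (a : ι → V) (f : ι → K[X]), Dec x a f ∧ rho f = n} := ⟨finrank K V, by
    rintro _ ⟨a, f, h, rfl⟩
    exact (Finset.sum_le_sum fun i _ => Nat.sub_le _ _).trans h.2.2.1.le⟩
  obtain ⟨a, f, h1, h2⟩ := Nat.sSup_mem (by exact ⟨_, a, f, h, rfl⟩) b
  exact ⟨a, f, h1, fun a' f' h' => h2 ▸ le_csSup b ⟨a', f', h', rfl⟩⟩

theorem Mx.m0 (h : Mx x a f) (hij : i ≠ j) (h1 : 1 ≤ (f i).natDegree) (h2 : 1 ≤ (f j).natDegree) :
    ¬ IsCoprime (f i) (f j) := fun ⟨s, t, e⟩ => by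
  have d := (h.1.1 i).natDegree_mul (h.1.1 j)
  have z := h.1.2.1
  have k := h.2 _ _ (repl h.1 hij (u := a i + a j) (v := 0) ((h.1.1 i).mul (h.1.1 j)) monic_one (by
    rw [map_add, map_mul, End.mul_apply _ _ (a j), z, ← map_mul, mul_comm, map_mul, End.mul_apply, z]; simp)
    (map_zero _) (by simp [d]) fun W hu _ hW => by
      have k : a i ∈ W := by
        have := aeval_mem hW (t * f j) hu
        rwa [map_add, map_mul, End.mul_apply _ _ (a j), z, map_zero, add_zero, ← map_mul, eq_sub_of_add_eq' e,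
          map_sub, map_one, map_mul, LinearMap.sub_apply, End.mul_apply, z, map_zero, sub_zero] at this
      exact ⟨k, (W.add_mem_iff_right k).1 hu⟩)
  have := sum_upd2 (fun p : K[X] => p.natDegree - 1) f hij (f i * f j) 1
  simp only [rho, natDegree_one] at k this
  omega

theorem Mx.m1 (h : Mx x a f) : M1 f := fun i j l e hj => by
  by_cases hij : i = j
  · simp [← hij, e]
  · have := h.m0 hij (by simp [e]) hj
    rw [e, (irreducible_X_sub_C l).coprime_iff_not_dvd, not_not] at this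
    exact dvd_iff_isRoot.1 this

theorem quad_fac {p : K[X]} (hm : p.Monic) (hd : p.natDegree = 2) {g : K} (hg : p.IsRoot g) :
    ∃ μ, p = (X - C g) * (X - C μ) := by
  obtain ⟨q, rfl⟩ := dvd_iff_isRoot.2 hg
  have hq := (monic_X_sub_C g).of_mul_monic_left hm
  rw [(monic_X_sub_C g).natDegree_mul hq, natDegree_X_sub_C] at hd
  exact ⟨-q.coeff 0, by rw [C_neg, sub_neg_eq_add, ← hq.eq_X_add_C (by omega)]⟩

theorem Mx.m2 [FiniteDimensional K V] (h : Mx x a f) (hij : i ≠ j) {g μ ν : K} (hi : f i = (X - C g) * (X - C μ))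
    (hj : f j = (X - C g) * (X - C ν)) (h1 : ν ≠ g) (h2 : ν ≠ μ) :
    ∃ (a : ι → V) (f : ι → K[X]), Mx x a f ∧ ∃ j, 3 ≤ (f j).natDegree := by
  have z := h.1.2.1
  have di : (f i).natDegree = 2 := by rw [hi, (monic_X_sub_C g).natDegree_mul (monic_X_sub_C _)]; simp
  have dj : (f j).natDegree = 2 := by rw [hj, (monic_X_sub_C g).natDegree_mul (monic_X_sub_C _)]; simp
  have d : (f i * (X - C ν)).natDegree = 3 := by rw [(h.1.1 i).natDegree_mul (monic_X_sub_C _), di]; simp
  have zc : aeval x (X - C ν) (aeval x (X - C g) (a j)) = 0 := by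
    rw [← End.mul_apply, ← map_mul, mul_comm, ← hj, z]
  refine ⟨_, _, ⟨repl h.1 hij (u := a i + aeval x (X - C g) (a j)) (v := aeval x (X - C ν) (a j))
    ((h.1.1 i).mul (monic_X_sub_C ν)) (monic_X_sub_C g) ?_ ?_ (by simp [d, di, dj]) fun W hu hv hW => ?_,
    fun a' f' h' => (h.2 a' f' h').trans ?_⟩, i, by simp [hij, d]⟩
  · rw [map_add, map_mul, End.mul_apply _ _ (aeval x _ _), zc, ← map_mul, mul_comm, map_mul, End.mul_apply, z]; simp
  · rw [← End.mul_apply, ← map_mul, ← hj, z]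
  · have k := aeval_mem hW (f i) hu
    rw [map_add, z, zero_add, aeval_eigen (β := ν) (by simpa [sub_eq_zero] using zc), W.smul_mem_iff (by
      simp [hi, sub_eq_zero, h1, h2])] at k
    refine ⟨(W.add_mem_iff_left k).1 hu, (W.smul_mem_iff (sub_ne_zero.2 h1)).1 ?_⟩
    convert W.sub_mem k hv using 1
    simp [sub_smul]
  · have := sum_upd2 (fun p : K[X] => p.natDegree - 1) f hij (f i * (X - C ν)) (X - C g)
    simp only [rho, natDegree_X_sub_C] at this ⊢
    omega

theorem jobDEC : JobDEC.{u} := fun K _ V _ _ _ x => by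
  obtain ⟨m, a, f, h⟩ := exists_dec x
  obtain ⟨a, f, h⟩ := exists_mx h
  by_cases k : (∃ j, 3 ≤ (f j).natDegree) ∨ ((∀ i, (f i).natDegree ≤ 2) ∧
      ∀ i j, (f i).natDegree = 2 → (f j).natDegree = 2 → f i = f j)
  · exact ⟨m, a, f, h.1, h.m1, k⟩
  push Not at k
  obtain ⟨i, j, hi, hj, e⟩ := k.2 fun i => Nat.le_of_lt_succ (k.1 i)
  have hij : i ≠ j := fun e' => e (e' ▸ rfl)
  obtain ⟨π, p1, p2, p3⟩ : ∃ π, Irreducible π ∧ π ∣ f i ∧ π ∣ f j := by
    by_contra k'
    push Not at k'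
    exact h.m0 hij (by omega) (by omega) (isCoprime_of_irreducible_dvd (fun e => (h.1.1 i).ne_zero e.1) k')
  have d1 := natDegree_le_of_dvd (dvd_sub p2 p3) (sub_ne_zero.2 e)
  have d2 : (f i - f j).natDegree < (f i).natDegree := natDegree_lt_natDegree (sub_ne_zero.2 e)
    (degree_sub_lt_left (by rw [degree_eq_natDegree (h.1.1 i).ne_zero, degree_eq_natDegree (h.1.1 j).ne_zero, hi, hj])
      (h.1.1 i).ne_zero ((h.1.1 i).trans (h.1.1 j).symm))
  have d3 := p1.natDegree_pos
  obtain ⟨g, hg⟩ := exists_root_of_degree_eq_one (p := π) (by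
    rw [degree_eq_natDegree p1.ne_zero, show π.natDegree = 1 by omega]; rfl)
  obtain ⟨μ, h1⟩ := quad_fac (h.1.1 i) hi (hg.dvd p2)
  obtain ⟨ν, h2⟩ := quad_fac (h.1.1 j) hj (hg.dvd p3)
  have h3 : ν ≠ μ := fun e' => e (by rw [h1, h2, e'])
  obtain ⟨a, f, h, h'⟩ : ∃ (a : Fin m → V) (f : Fin m → K[X]), Mx x a f ∧ ∃ j, 3 ≤ (f j).natDegree := by
    by_cases h4 : ν = g
    · exact h.m2 hij.symm h2 h1 (h4 ▸ h3.symm) h3.symm
    · exact h.m2 hij h1 h2 h4 h3
  exact ⟨m, a, f, h.1, h.m1, .inl h'⟩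

end H48.CN
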