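import Cfsg.Agent.H98.Norm
import Cfsg.Agent.H97.ZClosure
import Cfsg.Prelude.Def_Local
import Cfsg.Prelude.Def_CaseTheorems
import Cfsg.Prelude.Def_ClassificationK
import Cfsg.Prelude.Def_Involutions
import Mathlib.GroupTheory.SpecificGroups.Dihedral

/-! # S3275, chapter (3): characteristic 2 type, no `D_{2p}` (`p > 3`), 2-local 3-rank at most 1

Definitions and job statements; proofs in `blueprints/DP3.md`, kit in `H48.DP3Kit`. -/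

set_option autoImplicit false

namespace H48.DP

open Subgroup Cfsg H98 H97
open scoped commutatorElement

universe u

variable {G : Type*} [Group G]

/-- `O₂(H)`. -/
abbrev O2 (H : Subgroup G) : Subgroup G := pCoreOf 2 H
/-- Centraliser of a subgroup. -/
abbrev Ce (H : Subgroup G) : Subgroup G := centralizer (H : Set G)
/-- Normaliser of a subgroup. -/
abbrev No (H : Subgroup G) : Subgroup G := normalizer (H : Set G)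
/-- Centraliser of an element. -/
abbrev C1 (x : G) : Subgroup G := centralizer ({x} : Set G)
/-- `Ω₁ Z(O₂(H))`. -/
abbrev Zq (H : Subgroup G) : Subgroup G := oZ 2 (O2 H)

/-- `P / O₂(P) ≅ S₃` with Sylow 2-subgroup `T`. -/
structure S3 (T P : Subgroup G) : Prop where
  le : T ≤ P
  two : IsPGroup 2 T
  idx : T.relIndex P = 3
  nn : ¬ P ≤ No T

/-- One half of `L / O₂(L) ≅ L₃(2)`: the facts on the parabolic `P` (the other one is `R`). -/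
structure LH (T P R L : Subgroup G) : Prop where
  s3 : S3 T P
  leL : P ≤ L
  le : O2 L ≤ O2 P
  idx : (O2 L).relIndex (O2 P) = 4
  el : ∀ a ∈ O2 P, a * a ∈ O2 L
  fpf : ∀ x ∈ P, orderOf x = 3 → ∀ a ∈ O2 P, ⁅a, x⁆ ∈ O2 L → a ∈ O2 L
  bru : ∀ y ∈ R, y ∉ T → ∀ l ∈ L, l ∈ P ∨ ∃ p ∈ P, ∃ p' ∈ P, l = p * y * p'
  nrm : ∃ r₁ ∈ P, ∃ r₂ ∈ R, ∃ s₁ ∈ T, ∃ s₂ ∈ T, r₁ ∉ T ∧ r₂ ∉ T ∧ s₁ ∉ O2 P ∧ s₂ ∉ O2 R ∧
    r₁ * s₂ * r₁⁻¹ ∈ T ∧ (r₁ * r₂) * s₁ * (r₁ * r₂)⁻¹ ∈ T ∧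
    ∀ u ∈ T, ∃ a b c : Fin 2, (s₁ ^ a.val * (r₁ * s₂ * r₁⁻¹) ^ b.val *
      ((r₁ * r₂) * s₁ * (r₁ * r₂)⁻¹) ^ c.val)⁻¹ * u ∈ O2 L

/-- `L / O₂(L) ≅ L₃(2)` with Sylow 2-subgroup `T` and parabolics `P`, `R`. -/
structure LT (T P R L : Subgroup G) : Prop where
  h1 : LH T P R L
  h2 : LH T R P L
  eq : L = P ⊔ R
  ne : P ≠ R
  idx : T.relIndex L = 21
  simple : ∀ N : Subgroup G, O2 L ≤ N → N ≤ L → L ≤ No N → N = O2 L ∨ N = L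
  ovr : ∀ X : Subgroup G, S3 T X → X ≤ L → X = P ∨ X = R
  sq : ∀ u ∈ T, u ∉ O2 P → u ∉ O2 R → u * u ∉ O2 L

/-- `O^{2'}(N / O₂(N))` is dihedral of order `2 · 3 ^ (a + 1)`, `y` generating the cyclic part. -/
structure DT (T N : Subgroup G) (y : G) (a : ℕ) : Prop where
  mem : y ∈ N
  ord : orderOf y = 3 ^ (a + 1)
  idx : (O2 N).relIndex T = 2
  s3 : S3 T (T ⊔ zpowers (y ^ 3 ^ a))
  fr : N ≤ No T ⊔ zpowers y
  three : ∀ x ∈ N, orderOf x = 3 → ∀ x' ∈ N, orderOf x' = 3 → x ∈ zpowers x' ⊔ O2 N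

/-- The overgroups of the Sylow 2-subgroup `T` with non-trivial `O₂`. -/
structure Amb (T : Subgroup G) : Prop where
  syl : IsSyl 2 T ⊤
  char : ∀ H : Subgroup G, T ≤ H → O2 H ≠ ⊥ → CharP 2 H
  str : ∀ N : Subgroup G, T ≤ N → O2 N ≠ ⊥ →
    N ≤ No T ∨ (∃ y a, DT T N y a) ∨ ∃ P R L, LT T P R L ∧ L ≤ N ∧ N ≤ No L

/-- `Amb`, and any two `S₃`-parabolics generate a group with non-trivial `O₂`. -/
structure Amb2 (T : Subgroup G) : Prop extends Amb T where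
  pair : ∀ P R : Subgroup G, S3 T P → S3 T R → P ≠ R → O2 (P ⊔ R) ≠ ⊥

/-- The product of the three conjugates of `v` under an element of order 3 of `P` lies in `Z`. -/
def Ln (P Z : Subgroup G) (v : G) : Prop :=
  ∃ x ∈ P, orderOf x = 3 ∧ v * (x * v * x⁻¹) * (x ^ 2 * v * (x ^ 2)⁻¹) ∈ Z

/-- `O₂(P)` induces the transvections with centre `p` on `W = Zq L`. -/
structure Tv (T P R L : Subgroup G) (p : G) : Prop where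
  ne : p ≠ 1
  mem : p ∈ oZ 2 T
  com : ∀ a ∈ O2 P, ∀ w ∈ Zq L, ⁅w, a⁆ = 1 ∨ ⁅w, a⁆ = p
  i2 : (Zq R).relIndex (Zq L) = 2
  i4 : (Zq P).relIndex (Zq L) = 4
  cen : P ≤ Ce (Zq P)
  ln : Ln R ⊥ p
  nc : ¬ R ≤ C1 p

/-- Of three distinct `S₃`-parabolics one centralises `Ω₁ Z(T)`. -/
def Star (T : Subgroup G) : Prop :=
  ∀ P₁ P₂ P₃ : Subgroup G, S3 T P₁ → S3 T P₂ → S3 T P₃ → P₁ ≠ P₂ → P₁ ≠ P₃ → P₂ ≠ P₃ →
    P₁ ≤ Ce (oZ 2 T) ∨ P₂ ≤ Ce (oZ 2 T) ∨ P₃ ≤ Ce (oZ 2 T)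

/-- A good triple. -/
structure Gd (T P₁ P₂ P₃ : Subgroup G) (z y : G) : Prop where
  s1 : S3 T P₁
  s2 : S3 T P₂
  s3 : S3 T P₃
  ne : P₁ ≠ P₂
  zne : z ≠ 1
  zmem : z ∈ oZ 2 T
  c1 : P₁ ≤ C1 z
  c2 : P₂ ≤ C1 z
  nc3 : ¬ P₃ ≤ C1 z
  ymem : y ∈ P₃
  yord : orderOf y = 3
  ln : z * (y * z * y⁻¹) * (y ^ 2 * z * (y ^ 2)⁻¹) = 1

/-- The geometry of a good triple: `D = ⟨z^{P₃}⟩ = {1, z, v, zv}`, `U = ⟨D^L⟩`. -/
structure Geo (T P₁ P₂ P₃ L D U : Subgroup G) (z v : G) : Prop where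
  lt : LT T P₁ P₂ L
  s3 : S3 T P₃
  zz : z * z = 1
  vv : v * v = 1
  zv : z * v = v * z
  zne : z ≠ 1
  vne : v ∉ zpowers z
  memD : ∀ d, d ∈ D ↔ d = 1 ∨ d = z ∨ d = v ∨ d = z * v
  nD : P₃ ≤ No D
  cD : T ⊓ Ce D = O2 P₃
  DQ : D ≤ O2 L ⊓ O2 P₃
  eqU : U = ncl L D
  UQ : U ≤ O2 L
  com : ∀ q ∈ O2 L, ∀ u ∈ U, ⁅q, u⁆ ∈ zpowers z
  sqU : ∀ u ∈ U, u * u ∈ zpowers z
  cz : L ≤ C1 z
  nU : C1 z ≤ No U
  vT : ∀ t ∈ T, ⁅v, t⁆ ∈ zpowers z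
  ln1 : Ln P₁ (zpowers z) v
  ln2 : Ln P₂ (zpowers z) v
  swap : ∃ τ ∈ P₃, τ * z * τ⁻¹ = v ∧ τ * v * τ⁻¹ = z
  bot : ∀ K : Subgroup G, IsPGroup 2 K → L ≤ No K → P₃ ≤ No K → K = ⊥

/-- `X / Z` contains a free `F₂[T / O₂(L)]`-module. -/
def Fr (T L X Z : Subgroup G) : Prop :=
  ∀ B : Subgroup G, B ≤ T → (¬ B ≤ O2 L → 16 ≤ (stab B Z).relIndex X) ∧
    ((O2 L).relIndex B = 4 → 64 ≤ (stab B Z).relIndex X)

/-- The critical pair of the case of two parabolics. -/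
structure CP (T P R L : Subgroup G) (x g : G) : Prop where
  nc : L ⊓ Ce (Zq L) = O2 L
  le1 : cj g (Zq L) ≤ O2 P
  nle : ¬ cj g (Zq L) ≤ O2 L
  le2 : cj g⁻¹ (Zq L) ≤ O2 P
  i4 : (Zq P).relIndex (Zq L) = 4
  xc : x ∈ Ce (Zq P)
  cx : Zq L ⊓ C1 x ≤ Zq P
  com : ∀ a ∈ O2 P, a ∉ O2 L → ⁅Zq L, zpowers a⁆ = ⁅Zq L, O2 P⁆
  comZ : ⁅Zq L, O2 P⁆ ≤ Zq P

/-- No section is dihedral of order `2p`, `p > 3` (as in S3275). -/
def ND (X : Type*) [Group X] : Prop :=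
  ∀ p : ℕ, p.Prime → 3 < p → ∀ (H : Subgroup X) (N : Subgroup H) [N.Normal],
    IsEmpty (H ⧸ N ≃* DihedralGroup p)

/-- 2-subgroups centralise the `p`-subgroups (`p > 3`) they normalise. -/
def Inv (X : Type*) [Group X] : Prop :=
  ∀ p : ℕ, p.Prime → 3 < p → ∀ A B : Subgroup X, IsPGroup 2 A → IsPGroup p B → A ≤ No B → A ≤ Ce B

/-- 3-subgroups are cyclic. -/
def C3 (X : Type*) [Group X] : Prop := ∀ B : Subgroup X, IsPGroup 3 B → IsCyclic B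

/-- Non-abelian simple sections have order 168. -/
def K168 (X : Type*) [Group X] : Prop :=
  ∀ (H : Subgroup X) (N : Subgroup H) [N.Normal], IsSimpleGroup (H ⧸ N) →
    ¬ IsMulCommutative (H ⧸ N) → Nat.card (H ⧸ N) = 168

/-- The hypothesis of chapter (3). -/
structure H3 (G : Type*) [Group G] : Prop where
  simple : IsSimpleGroup G
  nc : ¬ IsMulCommutative G
  char : IsCharacteristicTwoType G
  e3 : TwoLocalPRankLE 3 1 G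
  nd : ND G
  k : ∀ H : Subgroup G, H ≠ ⊤ → ∀ (N : Subgroup H) [N.Normal], IsSimpleGroup (H ⧸ N) →
    ¬ IsMulCommutative (H ⧸ N) → Nat.card (H ⧸ N) = 168 ∨ ¬ PRankLE 3 1 (H ⧸ N)

/-- The structure of subgroups with non-trivial `O₂`. -/
def Str (G : Type*) [Group G] : Prop :=
  ∀ S N : Subgroup G, O2 N ≠ ⊥ → IsSyl 2 S N →
    (Group.IsSolvable N → N ≤ No S ∨ ∃ y a, DT S N y a) ∧
    (¬ Group.IsSolvable N → ∃ P R L, LT S P R L ∧ L ≤ N ∧ N ≤ No L)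

/-- The result of chapter (3). -/
def Main : Prop := ∀ (G : Type u) [Group G] [Finite G], H3 G →
  PRankLE 2 2 G ∨ SectionalPRankLE 2 4 G ∨ (∃ M : Subgroup G, IsStronglyEmbedded M) ∨
    ∃ S : Sylow 2 G, charCore (S : Subgroup G) ≠ ⊤

/-! ### Structure jobs -/

def JobInv : Prop := ∀ (X : Type u) [Group X] [Finite X], ND X → Inv X

def JobSec : Prop := ∀ (G : Type u) [Group G] [Finite G], H3 G → ∀ N : Subgroup G, O2 N ≠ ⊥ →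
  ND (N ⧸ pCore 2 N) ∧ C3 (N ⧸ pCore 2 N) ∧ K168 (N ⧸ pCore 2 N)

def JobSA : Prop := ∀ (X : Type u) [Group X] [Finite X], pCore 2 X = ⊥ → Inv X → C3 X →
  Group.IsSolvable X → ∀ T : Subgroup X, IsSyl 2 T ⊤ → T = ⊥ ∨ ∃ (t y : X) (a : ℕ),
    T = zpowers t ∧ orderOf t = 2 ∧ orderOf y = 3 ^ (a + 1) ∧ (zpowers y).Normal ∧
    t * y * t⁻¹ = y⁻¹ ∧ (∀ x : X, orderOf x = 3 → x ∈ zpowers y) ∧ (zpowers y ⊔ T).Normal

def JobSB : Prop := ∀ (X : Type u) [Group X] [Finite X], pCore 2 X = ⊥ → Inv X → C3 X → K168 X →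
  ¬ Group.IsSolvable X →
    ∃ L : Subgroup X, L.Normal ∧ IsSimpleGroup L ∧ Nat.card L = 168 ∧ Odd L.index

def JobLTm : Prop := IsSimpleGroup (Matrix.SpecialLinearGroup (Fin 3) (ZMod 2)) →
  ∃ T P R : Subgroup (Matrix.SpecialLinearGroup (Fin 3) (ZMod 2)), LT T P R ⊤

def JobLT : Prop := ∀ (G : Type u) [Group G] [Finite G] (T L : Subgroup G), IsSyl 2 T L →
  IsSimpleGroup (L ⧸ pCore 2 L) → Nat.card (L ⧸ pCore 2 L) = 168 → ∃ P R, LT T P R L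

def JobStr : Prop := JobInv.{u} → JobSec.{u} → JobSA.{u} → JobSB.{u} → JobLT.{u} →
  ∀ (G : Type u) [Group G] [Finite G], H3 G → Str G

/-! ### Module jobs -/

def JobOff : Prop := ∀ (G : Type u) [Group G] [Finite G] (T P R R' L L' : Subgroup G) (g : G),
  LH T P R L → LH T P R' L' → cj g (Zq L') ≤ O2 P → ¬ cj g (Zq L') ≤ O2 L →
  cj g⁻¹ (Zq L) ≤ O2 P → (Zq P).relIndex (Zq L) ≤ 4 ∨ (Zq P).relIndex (Zq L') ≤ 4

def JobTV : Prop := ∀ (G : Type u) [Group G] [Finite G] (T P R L : Subgroup G),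
  LT T P R L → CharP 2 L →
  ((Zq P).relIndex (Zq L) ≤ 4 → R ≤ Ce (oZ 2 T) ∨ ∃ p, Tv T P R L p) ∧
  (∀ a ∈ T, (C1 a).relIndex (Zq L) = 2 → (∃ p, Tv T P R L p) ∨ ∃ p, Tv T R P L p)

def JobPt : Prop := ∀ (G : Type u) [Group G] [Finite G] (T P R L : Subgroup G) (z y : G),
  LT T P R L → z ∈ Zq L → P ≤ C1 z → ¬ R ≤ C1 z → y ∈ R → orderOf y = 3 →
  z * (y * z * y⁻¹) * (y ^ 2 * z * (y ^ 2)⁻¹) = 1 →
  Ln P (zpowers z) (y * z * y⁻¹) ∧ ∀ w ∈ ncl L (zpowers z), w = 1 ∨ ∃ l ∈ L, w = l * z * l⁻¹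

def JobFree : Prop := ∀ (G : Type u) [Group G] [Finite G] (T P R L X Z : Subgroup G) (v : G),
  LT T P R L → Z ≤ X → L ≤ No X → L ≤ No Z → (∀ a ∈ X, ∀ b ∈ X, ⁅a, b⁆ ∈ Z) →
  (∀ a ∈ X, a * a ∈ Z) → (∀ q ∈ O2 L, ∀ a ∈ X, ⁅q, a⁆ ∈ Z) → v ∈ X → v ∉ Z →
  (∀ t ∈ T, ⁅v, t⁆ ∈ Z) → Ln P Z v → Ln R Z v → Fr T L X Z

/-! ### Two parabolics -/

def JobM9 : Prop := ∀ (G : Type u) [Group G] [Finite G] (D : Subgroup G) (y : G) (a : ℕ),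
  IsPGroup 2 D → orderOf y = 3 ^ (a + 2) → y ∈ No D →
  (C1 (y ^ 3 ^ (a + 1))).relIndex D % 9 = 1

def JobC1 : Prop := JobOff.{u} → JobM9.{u} → ∀ (G : Type u) [Group G] [Finite G] (T P R L : Subgroup G)
  (y : G) (a : ℕ), LT T P R L → CharP 2 L → orderOf y = 3 ^ (a + 2) → y ∈ No (O2 P) →
  y ^ 3 ^ (a + 1) ∈ P → (∀ K : Subgroup G, IsPGroup 2 K → L ≤ No K → y ∈ No K → K = ⊥) →
  ∃ g, CP T P R L (y ^ 3 ^ (a + 1)) g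

def JobC2 : Prop := JobM9.{u} → ∀ (G : Type u) [Group G] [Finite G] (T P R L : Subgroup G)
  (y g : G) (a : ℕ), Amb T → LT T P R L → CharP 2 L → (∀ X, S3 T X → X = P ∨ X = R) → orderOf y = 3 ^ (a + 2) →
  y ∈ No (O2 P) → y ^ 3 ^ (a + 1) ∈ P → CP T P R L (y ^ 3 ^ (a + 1)) g → False

/-! ### Three parabolics -/

def JobGood : Prop := JobOff.{u} → JobTV.{u} → ∀ (G : Type u) [Group G] [Finite G]
  (T P₁ P₂ P₃ : Subgroup G), Amb2 T → Star T → S3 T P₁ → S3 T P₂ → S3 T P₃ → P₁ ≠ P₂ →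
  P₁ ≠ P₃ → P₂ ≠ P₃ → ∃ R₁ R₂ R₃ z y, Gd T R₁ R₂ R₃ z y

def JobGeo : Prop := JobPt.{u} → ∀ (G : Type u) [Group G] [Finite G]
  (T P₁ P₂ P₃ : Subgroup G) (z y : G), Amb2 T → Star T → Gd T P₁ P₂ P₃ z y →
  ∃ D U, Geo T P₁ P₂ P₃ (P₁ ⊔ P₂) D U z (y * z * y⁻¹)

def JobAb : Prop := ∀ (G : Type u) [Group G] [Finite G] (T P₁ P₂ P₃ L D U : Subgroup G) (z v : G),
  Geo T P₁ P₂ P₃ L D U z v → Fr T L U (zpowers z) → U ≤ Ce U → False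

def JobNab : Prop := ∀ (G : Type u) [Group G] [Finite G] (T P₁ P₂ P₃ L D U : Subgroup G) (z v : G),
  Geo T P₁ P₂ P₃ L D U z v → Fr T L U (zpowers z) → U ≤ Ce U

/-! ### Small Sylow 2-subgroups -/

def JobSM1 : Prop := ∀ (G : Type u) [Group G] [Finite G] (T P R L : Subgroup G),
  LT T P R L → CharP 2 L → Nat.card (O2 L) ≤ 16 →
  (∀ a ∈ O2 L, a * a = 1) ∧ (Nat.card (O2 L) = 8 ∨ Nat.card (O2 L) = 16)

def JobSM2 : Prop := ∀ (G : Type u) [Group G] [Finite G] (T P R L : Subgroup G),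
  LT T P R L → CharP 2 L → (∀ a ∈ O2 L, a * a = 1) → Nat.card (O2 L) = 16 →
  ¬ SectionalPRankLE 2 4 T →
  ∃ a ∈ T, (C1 a).relIndex (O2 L) = 2 ∧ ∃ w ∈ O2 L, a * a = ⁅w, a⁆

def JobSM3 : Prop := JobTV.{u} → JobPt.{u} → ∀ (G : Type u) [Group G] [Finite G]
  (T P R L : Subgroup G) (a w : G), IsSyl 2 T ⊤ → res 2 (⊤ : Subgroup G) = ⊤ → LT T P R L →
  CharP 2 L → (∀ a ∈ O2 L, a * a = 1) → Nat.card (O2 L) = 16 → a ∈ T →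
  (C1 a).relIndex (O2 L) = 2 → w ∈ O2 L → a * a = ⁅w, a⁆ → False

end H48.DP
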