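import Cfsg.Agent.H52.DP3Inv
import Cfsg.Prelude.Def_Classification2

/-! # S3275: top level. The three groups, the family scan (K), the hubs (HUB) -/

set_option autoImplicit false

namespace H48.DP

open Subgroup Cfsg H98

universe u

def IsL27 (X : Type*) [Group X] : Prop :=
  Nonempty (X ≃* Matrix.ProjectiveSpecialLinearGroup (Fin 2) (ZMod 7))

def IsL33 (X : Type*) [Group X] : Prop :=
  Nonempty (X ≃* Matrix.ProjectiveSpecialLinearGroup (Fin 3) (ZMod 3))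

def IsU33 (X : Type*) [Group X] : Prop :=
  ∃ (F : Type) (_ : Field F) (_ : Fintype F), Fintype.card F = 9 ∧ Nonempty (X ≃* PSU 3 F 3)

/-- `L₂(7)`, `L₃(3)` or `U₃(3)`. -/
def Three (X : Type*) [Group X] : Prop := IsL27 X ∨ IsL33 X ∨ IsU33 X

/-- The standing hypothesis: a counterexample that is not a known group. -/
structure Hyp (G : Type u) [Group G] : Prop where
  simple : IsSimpleGroup G
  nc : ¬ IsMulCommutative G
  kp : IsKProper G
  nd : ND G
  k : ∀ H : Subgroup G, H ≠ ⊤ → ∀ (N : Subgroup H) [N.Normal], IsSimpleGroup (H ⧸ N) →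
    ¬ IsMulCommutative (H ⧸ N) → Three (H ⧸ N)
  unk : ¬ IsKnownSimple' G

section kit

variable {X Y : Type*} [Group X] [Group Y]

theorem ND.not_surj (h : ND X) {p : ℕ} (hp : p.Prime) (h3 : 3 < p) (H : Subgroup X)
    (f : H →* DihedralGroup p) : ¬ Function.Surjective f := fun hf =>
  (h p hp h3 H f.ker).false (QuotientGroup.quotientKerEquivOfSurjective f hf)

theorem nd_of_not_surj (h : ∀ p : ℕ, p.Prime → 3 < p → ∀ (H : Subgroup X)
    (f : H →* DihedralGroup p), ¬ Function.Surjective f) : ND X := fun p hp h3 H N _ =>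
  ⟨fun e => h p hp h3 H (e.toMonoidHom.comp (QuotientGroup.mk' N))
    (e.surjective.comp (QuotientGroup.mk'_surjective N))⟩

theorem ND.of_injective (h : ND X) (f : Y →* X) (hf : Function.Injective f) : ND Y :=
  nd_of_not_surj fun _ hp h3 H g hg => h.not_surj hp h3 (H.map f)
    (g.comp (H.equivMapOfInjective f hf).symm.toMonoidHom)
    (hg.comp (H.equivMapOfInjective f hf).symm.surjective)

theorem ND.of_surjective (h : ND X) (f : X →* Y) (hf : Function.Surjective f) : ND Y :=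
  nd_of_not_surj fun _ hp h3 H g hg => h.not_surj hp h3 (H.comap f)
    (g.comp (f.subgroupComap H)) (hg.comp (f.subgroupComap_surjective_of_surjective H hf))

theorem ND.of_equiv (h : ND X) (e : X ≃* Y) : ND Y := h.of_surjective e.toMonoidHom e.surjective

theorem ND.sub (h : ND X) (H : Subgroup X) : ND H := h.of_injective H.subtype H.subtype_injective

theorem ND.quot (h : ND X) (N : Subgroup X) [N.Normal] : ND (X ⧸ N) :=
  h.of_surjective (QuotientGroup.mk' N) (QuotientGroup.mk'_surjective N)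

theorem ND.inv {X : Type u} [Group X] [Finite X] (h : ND X) : Inv X := H52.DP3Inv.jobInv X h

/-- No element of prime order `p > 3` is real. -/
theorem ND.not_real {X : Type u} [Group X] [Finite X] (h : ND X) {p : ℕ} (hp : p.Prime)
    (h3 : 3 < p) {x g : X} (hx : orderOf x = p) : g * x * g⁻¹ ≠ x⁻¹ := fun e => by
  have : Fact (Nat.Prime 2) := ⟨Nat.prime_two⟩
  obtain ⟨k, m, hm, hg⟩ := Nat.exists_eq_two_pow_mul_odd (orderOf_pos g).ne'
  have h1 : ∀ n : ℕ, g ^ (2 * n) * x * (g ^ (2 * n))⁻¹ = x := fun n => by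
    induction n with
    | zero => simp
    | succ n ih =>
      have e2 : g * x⁻¹ * g⁻¹ = x := by
        rw [show g * x⁻¹ * g⁻¹ = (g * x * g⁻¹)⁻¹ by group, e, inv_inv]
      calc g ^ (2 * (n + 1)) * x * (g ^ (2 * (n + 1)))⁻¹
          = g * (g * (g ^ (2 * n) * x * (g ^ (2 * n))⁻¹) * g⁻¹) * g⁻¹ := by group
        _ = x := by rw [ih, e, e2]
  obtain ⟨n, rfl⟩ := hm
  have h2 : g ^ (2 * n + 1) * x * (g ^ (2 * n + 1))⁻¹ = x⁻¹ := by
    calc g ^ (2 * n + 1) * x * (g ^ (2 * n + 1))⁻¹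
        = g * (g ^ (2 * n) * x * (g ^ (2 * n))⁻¹) * g⁻¹ := by group
      _ = x⁻¹ := by rw [h1, e]
  have h4 := h.inv p hp h3 (zpowers (g ^ (2 * n + 1))) (zpowers x)
    (isPGroup_zpowers (k := k) (by rw [← pow_mul, mul_comm, ← hg, pow_orderOf_eq_one]))
    (isPGroup_zpowers (k := 1) (by rw [pow_one, ← hx, pow_orderOf_eq_one]))
    ((zpowers_le (G := X)).2 (mem_normalizer_of_cj_le (by
      rw [cj, MonoidHom.map_zpowers, zpowers_le]
      change g ^ (2 * n + 1) * x * (g ^ (2 * n + 1))⁻¹ ∈ zpowers x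
      rw [h2]
      exact inv_mem (mem_zpowers x))))
    (mem_zpowers _) x (mem_zpowers x)
  rw [← h4, mul_inv_cancel_right] at h2
  have h5 : x ^ 2 = 1 := by rw [pow_two]; exact mul_eq_one_iff_eq_inv.2 h2
  have := Nat.le_of_dvd two_pos (hx ▸ orderOf_dvd_of_pow_eq_one h5)
  omega

end kit

/-! ### Chapter K: the family scan -/

def JobKL2 : Prop := ∀ (F : Type) [Field F] [Fintype F],
  ND (Matrix.ProjectiveSpecialLinearGroup (Fin 2) F) → Fintype.card F ≤ 3 ∨ Fintype.card F = 7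

def JobKBu : Prop := ∀ (X : Type u) [Group X] [Finite X] [IsSimpleGroup X], ¬ IsMulCommutative X →
  ∀ p : ℕ, (p = 5 ∨ p = 17) → p ∣ Nat.card X → ¬ p ^ 2 ∣ Nat.card X → ¬ ND X

def JobKAL : Prop := JobKL2 → ∀ (X : Type u) [Group X] [Finite X], ND X →
  ¬ IsAlternating X ∧ (IsPSL X → Three X)

def JobKSp : Prop := JobKL2 → ∀ (X : Type u) [Group X] [Finite X], ND X → ¬ IsPSp X

def JobKU : Prop := JobKL2 → ∀ (X : Type u) [Group X] [Finite X], ND X → IsPSU X → IsU33 X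

def JobKO : Prop := JobKL2 → ∀ (X : Type u) [Group X] [Finite X], ND X →
  ¬ IsPOmegaOdd X ∧ ¬ IsPOmegaPlus X ∧ ¬ IsPOmegaMinus X

def JobKG : Prop := JobKL2 → ∀ (X : Type u) [Group X] [Finite X], ND X → ¬ Lie.IsoChevG2 X

def JobKE : Prop := JobKL2 → ∀ (X : Type u) [Group X] [Finite X], ND X →
  ¬ Lie.IsoF4 X ∧ ¬ Lie.IsoChevE6 X ∧ ¬ Lie.IsoE7 X ∧ ¬ Lie.IsoE8 X ∧ ¬ Lie.Iso2E6 X

def JobKT : Prop := JobKL2 → ∀ (X : Type u) [Group X] [Finite X], ND X →
  ¬ Lie.Iso3D4 X ∧ ¬ Lie.IsoSuzuki X ∧ ¬ Lie.IsoRee X ∧ ¬ Lie.Iso2F4 X ∧ ¬ Lie.IsoTits X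

def JobKS1 : Prop := JobKBu.{0} → ∀ (X : Type u) [Group X] [Finite X], ND X →
  ¬ (Spor.IsoM11 X ∨ Spor.IsoM12 X ∨ Spor.IsoM22 X ∨ Spor.IsoM23 X ∨ Spor.IsoM24 X ∨
    Spor.IsoJ1 X ∨ Spor.IsoJ3 X ∨ Spor.IsoJ4 X ∨ Spor.IsoHe X ∨ Spor.IsoON X ∨ Spor.IsoFi23 X ∨
    Spor.IsoFi24' X ∨ Spor.IsoB X ∨ Spor.IsoM X)

def JobKS2 : Prop := JobKBu.{0} → ∀ (X : Type u) [Group X] [Finite X], ND X →
  ¬ (Spor.IsoJ2 X ∨ Spor.IsoCo1 X ∨ Spor.IsoCo2 X ∨ Spor.IsoCo3 X ∨ Spor.IsoMcL X ∨ Spor.IsoHS X)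

def JobKS3 : Prop := JobKBu.{0} → ∀ (X : Type u) [Group X] [Finite X], ND X →
  ¬ (Spor.IsoSuz X ∨ Spor.IsoRu X ∨ Spor.IsoLy X ∨ Spor.IsoFi22 X ∨ Spor.IsoHN X ∨ Spor.IsoTh X)

/-- The result of chapter K. -/
def K : Prop := ∀ (X : Type u) [Group X] [Finite X], ¬ IsMulCommutative X → IsKnownSimple' X →
  ND X → Three X

/-- The conclusion of S3275 for the three groups, and small facts. -/
def JobKN : Prop := ∀ (X : Type u) [Group X] [Finite X], Three X →
  (∀ H : Subgroup X, IsTwoLocal H → IsPConstrained 2 H) ∧ PRankLE 3 2 X ∧ PRankLE 2 2 X ∧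
    (Nat.card X = 168 ∨ ¬ PRankLE 3 1 X) ∧
    (IsL27 X → Nat.card X = 168) ∧ (IsL33 X → Nat.card X = 5616) ∧ (IsU33 X → Nat.card X = 6048)

/-! ### Chapter HUB -/

/-- Classical groups with any parameters are known once they are non-abelian simple. -/
def JobHKit : Prop := ∀ (G : Type u) [Group G] [Finite G] [IsSimpleGroup G],
  ¬ IsMulCommutative G → ∀ (F : Type) [Field F] [Fintype F] (n : ℕ),
    (Nonempty (G ≃* Matrix.ProjectiveSpecialLinearGroup (Fin n) F) → IsKnownSimple' G) ∧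
    (Nonempty (G ≃* PSp n F) → IsKnownSimple' G) ∧
    (∀ q : ℕ, 3 ≤ n → Fintype.card F = q ^ 2 → Nonempty (G ≃* PSU n F q) → IsKnownSimple' G) ∧
    (Nonempty (G ≃* alternatingGroup (Fin n)) → IsKnownSimple' G)

def JobHub1 : Prop := JobHKit.{u} → JobKBu.{u} → ∀ (G : Type u) [Group G] [Finite G], Hyp G →
  ¬ PRankLE 2 2 G ∧ (∀ M : Subgroup G, ¬ IsStronglyEmbedded M) ∧
    (IsCharacteristicTwoType G → ∀ S : Sylow 2 G, charCore (S : Subgroup G) = ⊤) ∧
    ∀ (P : Subgroup G) (S : Sylow 2 G) (r : G), P ≠ ⊤ → orderOf r = 2 → r ∈ Ce (S : Subgroup G) →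
      C1 r ≤ P → ¬ ∀ g : G, g * r * g⁻¹ ∈ P → ∃ x ∈ P, g * r * g⁻¹ = x * r * x⁻¹

def JobHub2 : Prop := JobHKit.{u} → ∀ (G : Type u) [Group G] [Finite G], Hyp G →
  ¬ PRankLE 2 2 G → ¬ SectionalPRankLE 2 4 G ∧ ¬ PRankLE 2 3 G

theorem k_of (l : JobKL2) (b : JobKBu.{0}) (a : JobKAL.{u}) (s : JobKSp.{u}) (v : JobKU.{u})
    (o : JobKO.{u}) (g : JobKG.{u}) (e : JobKE.{u}) (t : JobKT.{u}) (s1 : JobKS1.{u})
    (s2 : JobKS2.{u}) (s3 : JobKS3.{u}) : K.{u} := by
  intro X _ _ hc hk h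
  have a := a l X h
  have o := o l X h
  have e := e l X h
  have t := t l X h
  have s1 := s1 b X h
  have s2 := s2 b X h
  have s3 := s3 b X h
  rcases hk with k | k | k | k | k | k | k | k | k | k
  · have : Fact (Nat.card X).Prime := ⟨k⟩
    exact absurd (isCyclic_of_prime_card (α := X) rfl).isMulCommutative hc
  · exact absurd k a.1
  · exact a.2 k
  · exact absurd k (s l X h)
  · exact .inr (.inr (v l X h k))
  · exact absurd k o.1
  · exact absurd k o.2.1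
  · exact absurd k o.2.2
  · obtain ⟨e1, e2, e3, e4, e5⟩ := e
    obtain ⟨t1, t2, t3, t4, t5⟩ := t
    have := g l X h
    rcases k with k | k | k | k | k | k | k | k | k | k | k <;> contradiction
  · simp only [not_or] at s1 s2 s3
    obtain ⟨_, _, _, _, _, _, _, _, _, _, _, _, _, _⟩ := s1
    obtain ⟨_, _, _, _, _, _⟩ := s2
    obtain ⟨_, _, _, _, _, _⟩ := s3
    rcases k with k | k | k | k | k | k | k | k | k | k | k | k | k | k | k | k | k | k | k | k |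
      k | k | k | k | k | k <;> contradiction

end H48.DP
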