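/- Row S5935, slot E7T-MU: `U₄(3)` is not compatible with the 56-dimensional module. -/
import Cfsg.Agent.H40.E7TSpec
import Cfsg.Agent.H61.E7Mod
import Cfsg.Agent.H58.E7Lin

set_option autoImplicit false

namespace H48.E7T

open Module H40.E7S H40.E7T H61.E7M

universe u

theorem sum_cls (f : ℕ → ℕ) (φ : E4 → ℕ) (n : ℕ) (hφ : ∀ v, φ v < n) :
    ∑ v, f (φ v) = ∑ j ∈ Finset.range n, (Finset.univ.filter fun v => φ v = j).card * f j := by
  rw [← Finset.sum_fiberwise_of_maps_to (g := φ) (t := Finset.range n)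
    fun v _ => Finset.mem_range.2 (hφ v)]
  refine Finset.sum_congr rfl fun j _ => ?_
  rw [Finset.sum_congr rfl fun v hv => congrArg f (Finset.mem_filter.1 hv).2, Finset.sum_const,
    smul_eq_mul]

/-- the class, with a separate value for zero -/
def cz (v : E4) : ℕ := if v = 0 then 3 else cU v

theorem num {d0 d1 d2 F x y z : ℕ}
    (h : 0 + 20 * d0 + 30 * d1 + 30 * d2 + 1 * 56 = 27 * (56 + 2 * F))
    (t0 : d0 = 2 ∨ d0 = 14 ∨ d0 = 20 ∨ d0 = 32) (t1 : d1 = 2 ∨ d1 = 14 ∨ d1 = 20 ∨ d1 = 32)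
    (t2 : d2 = 2 ∨ d2 = 14 ∨ d2 = 20 ∨ d2 = 32) (a : 56 + 3 * x = d0 + 3 * d2) (a' : F ≤ x)
    (b : 56 + 3 * y = d0 + 3 * d2) (c : 56 + 3 * z = d0 + 3 * d1) (c' : F ≤ z) :
    d0 = 20 ∧ F = 16 ∧ x = 20 ∧ y = 20 := by
  rcases t0 with rfl | rfl | rfl | rfl <;> rcases t1 with rfl | rfl | rfl | rfl <;>
    rcases t2 with rfl | rfl | rfl | rfl <;> omega

theorem jobMU (hS : JobSum.{u}) : JobMU.{u} := by
  rintro G _ ρ hg ⟨a, k, c, g, w, h, hk, hc, hgd, og, hv⟩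
  have hP := H58.E7.jobPart
  have el := h.el
  let r : ℕ → E4 := fun j =>
    if j = 0 then ![1, 0, 0, 0] else if j = 1 then ![0, 1, 1, 0] else if j = 2 then ![0, 1, 0, 0] else 0
  have hD : ∀ v, fd ρ (ev a v) = fd ρ (ev a (r (cz v))) := fun v => by
    by_cases h0 : v = 0
    · rw [h0]; rfl
    · have : ∀ v : E4, v ≠ 0 → r (cz v) ≠ 0 ∧ cU v = cU (r (cz v)) := by decide +kernel
      exact fd_conj ρ (h.cj _ _ h0 (this v h0).1 (this v h0).2)
  have s0 := (hS G ρ a el).1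
  rw [Finset.sum_congr rfl fun v _ => hD v, sum_cls (fun j => fd ρ (ev a (r j))) cz 4
    (by decide +kernel)] at s0
  have n0 : (Finset.univ.filter fun v => cz v = 0).card = 20 := by decide +kernel
  have n1 : (Finset.univ.filter fun v => cz v = 1).card = 30 := by decide +kernel
  have n2 : (Finset.univ.filter fun v => cz v = 2).card = 30 := by decide +kernel
  have n3 : (Finset.univ.filter fun v => cz v = 3).card = 1 := by decide +kernel
  have d3 : fd ρ (ev a (r 3)) = 56 := by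
    rw [show r 3 = 0 from rfl, ev_zero, fd,
      show kf (ρ 1) = ⊤ from eq_top_iff.2 fun v _ => by simp [mem_kf], dm_top]
  simp only [Finset.sum_range_succ, Finset.sum_range_zero, n0, n1, n2, n3, d3] at s0
  have e0 : ev a (r 0) = a 0 := by simp [r, ev, ZMod.val_one]
  have e1 : ev a ![0, 1, 0, 0] = a 1 := by simp [ev, ZMod.val_one]
  have e2 : ev a ![0, 0, 1, 0] = a 2 := by simp [ev, ZMod.val_one]
  have t0 := hg.three _ (h.ord (r 0) (by decide))
  have t1 := hg.three _ (h.ord (r 1) (by decide))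
  have t2 := hg.three _ (h.ord (r 2) (by decide))
  have hW : ∀ v, fix4 ρ a ≤ kf (ρ (ev a v)) := fun v x hx => by
    rw [mem_kf, ev, mul_ap, mul_ap, mul_ap, mem_kf.1 (kf_le_pow _ _ hx.2),
      mem_kf.1 (kf_le_pow _ _ hx.1.2), mem_kf.1 (kf_le_pow _ _ hx.1.1.2),
      mem_kf.1 (kf_le_pow _ _ hx.1.1.1)]
  have key : ∀ (v : E4) (j : ℕ), cz v = j → cz (r 0 + v) = j → cz (r 0 + r 0 + v) = j →
      56 + 3 * f2 ρ (a 0) (ev a v) = fd ρ (a 0) + 3 * fd ρ (ev a (r j)) ∧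
        dm (fix4 ρ a) ≤ f2 ρ (a 0) (ev a v) := fun v j j0 j1 j2 => by
    refine ⟨?_, Submodule.finrank_mono (le_inf (e0 ▸ hW _) (hW v))⟩
    have := part_top (ρ := ρ) hP Nat.prime_three (by norm_num) (el.ev_comm (r 0) v)
      (el.ev_cube _) (el.ev_cube _)
    simp only [Finset.sum_range_succ, Finset.sum_range_zero, pow_zero, pow_one, one_mul, pow_two,
      ← el.ev_add] at this
    rw [hD v, hD (r 0 + v), hD (r 0 + r 0 + v), j0, j1, j2, e0] at this
    omega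
  have k1 := key ![0, 1, 0, 0] 2 (by decide) (by decide) (by decide)
  have k2 := key ![0, 0, 1, 0] 2 (by decide) (by decide) (by decide)
  have k3 := key ![0, 1, 1, 0] 1 (by decide) (by decide) (by decide)
  rw [e0] at s0 t0
  rw [e1] at k1
  rw [e2] at k2
  obtain ⟨dz, dW, f1, f2'⟩ := num s0 t0 t1 t2 k1.1 k1.2 k2.1 k3.1 k3.2
  have le : ∀ b, fd ρ (a 0) ≤ f2 ρ (a 0) b → kf (ρ (a 0)) ≤ kf (ρ b) := fun b hb v hv => by
    have : kf (ρ (a 0)) ⊓ kf (ρ b) = kf (ρ (a 0)) :=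
      Submodule.eq_of_le_of_finrank_le inf_le_left hb
    exact (this.ge hv).2
  have l1 := le (a 1) (dz.trans f1.symm).le
  have l2 := le (a 2) (dz.trans f2'.symm).le
  have ly : kf (ρ (a 0)) ≤ kf (ρ (k * a 1 * k⁻¹)) := fun v hv =>
    (mem_conj _ _ _).1 (l1 (inv_mem_kf hk.symm.inv_right v hv))
  have hWg : fix4 ρ a = kf (ρ g) := by
    refine Submodule.eq_of_le_of_finrank_le (fun v hv => ?_) ((hg.five g og).trans dW.symm).le
    have b1 := ly hv.1.1.1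
    have b2 := (mem_conj _ _ _).1 (ly ((mem_conj c (a 0) v).2 (hc ▸ hW w hv)))
    rw [mem_kf, hgd, mul_ap, mem_kf.1 b2, mem_kf.1 b1]
  let π : End (ZMod 2) V56 := 1 + ρ (a 0) + ρ (a 0 ^ 2)
  have π0 : ∀ x, π x = x + ρ (a 0) x + ρ (a 0 ^ 2) x := fun x => rfl
  have π1 : ∀ x ∈ kf (ρ (a 0)), π x = x := fun x hx => by
    rw [π0, mem_kf.1 hx, mem_kf.1 (kf_le_pow _ 2 hx), CharTwo.add_self_eq_zero, zero_add]
  have π2 : ∀ x, π x ∈ kf (ρ (a 0)) := fun x => by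
    rw [mem_kf, π0, map_add, map_add, ← mul_ap, ← mul_ap, ← pow_succ', ← pow_two, el.cube, map_one,
      Module.End.one_apply]
    abel
  have π3 : ∀ (v : E4), ∀ x ∈ kf (ρ (ev a v)), π x ∈ kf (ρ (ev a v)) := fun v x hx => by
    have := (e0 ▸ el.ev_comm v (r 0) : Commute (ev a v) (a 0))
    exact add_mem (add_mem hx (inv_mem_kf this x hx)) (inv_mem_kf (this.pow_right 2) x hx)
  have π4 : ∀ v : E4, v 3 ≠ 0 → kf (ρ (a 0)) ⊓ kf (ρ (ev a v)) ≤ fix4 ρ a := fun v h3 s hs => by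
    refine ⟨⟨⟨hs.1, l1 hs.1⟩, l2 hs.1⟩, ?_⟩
    have b1 := inv_mem_kf ((el.comm 0 3).pow_right (v 3).val) s hs.1
    have b2 := mem_kf.1 hs.2
    rw [ev, mul_ap, mul_ap, mul_ap, mem_kf.1 (kf_le_pow _ _ (l2 b1)),
      mem_kf.1 (kf_le_pow _ _ (l1 b1)), mem_kf.1 (kf_le_pow _ _ b1)] at b2
    have b3 := kf_le_pow (ρ := ρ) _ (v 3).val (mem_kf.2 b2)
    have b4 : ∀ t : ZMod 3, t ≠ 0 → t.val * t.val = 1 ∨ t.val * t.val = 3 + 1 := by decide
    rw [← pow_mul] at b3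
    rcases b4 _ h3 with b4 | b4
    · rwa [b4, pow_one] at b3
    · rwa [b4, pow_succ, el.cube, one_mul] at b3
  have fin : kf (ρ (a 0)) ≤ fix4 ρ a := fun x hx => by
    have b1 : ∀ i ∈ ({1, 2, 3, 4} : Set ℕ), π (ρ (g ^ i) x) ∈ fix4 ρ a := fun i hi => by
      obtain ⟨v, h3, hv⟩ := hv i hi
      refine π4 v h3 ⟨π2 _, π3 v _ ?_⟩
      rw [← hv, ← mem_conj, ← mul_ap]
      simpa using hx
    have b2 : x + (ρ (g ^ 1) x + ρ (g ^ 2) x + ρ (g ^ 3) x + ρ (g ^ 4) x) ∈ fix4 ρ a := by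
      rw [hWg, mem_kf]
      simp only [map_add, ← mul_ap, ← pow_succ']
      rw [po og, map_one, Module.End.one_apply, pow_one]
      abel
    have b3 := π1 _ b2.1.1.1
    rw [map_add, π1 x hx, add_right_inj] at b3
    refine (Submodule.add_mem_iff_left _ ?_).1 b2
    rw [← b3, map_add, map_add, map_add]
    exact add_mem (add_mem (add_mem (b1 1 (by simp)) (b1 2 (by simp))) (b1 3 (by simp)))
      (b1 4 (by simp))
  have : fd ρ (a 0) ≤ dm (fix4 ρ a) := Submodule.finrank_mono fin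
  rw [dz, dW] at this
  exact absurd this (by decide)

end H48.E7T
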