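/- Standard subgroups of type `2·Ω₈⁺(2)`: a quadratic form on the masks vanishes. -/
import Cfsg.Agent.H11.E8Spec

set_option autoImplicit false
set_option maxRecDepth 100000

namespace H48.E8
open H11.E8

/-- the sum of `q` over the members of a coded set -/
def ev (q : ℕ → ZMod 2) (m : ℕ) : ZMod 2 :=
  ∑ x ∈ Finset.range 256, if m.testBit (64 + x) then q x else 0

/-- the code of a list (the low bits only spread the numbers) -/
def mk (l : List ℕ) : ℕ :=
  l.foldr (fun x m => Nat.xor (Nat.xor (2 ^ (64 + x)) ((x + 3) ^ 23 % 1000000000000000003)) m) 0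

/-- reduction by a triangular list -/
noncomputable def red (B : List ℕ) (m : ℕ) : ℕ :=
  List.rec m (fun b _ r => Nat.rec 0 (fun n _ => Bool.rec (Nat.xor n.succ b) n.succ
    (Nat.ble n.succ (Nat.xor n.succ b))) r) B

/-- Gaussian elimination -/
noncomputable def bas (E : List (List ℕ)) : (List ℕ → Bool) → Bool :=
  List.rec (fun k => k []) (fun e _ ih k => ih fun B =>
    Nat.rec (k B) (fun n _ => k (n.succ :: B)) (red B (mk e))) E

/-- the equations span everything -/
noncomputable def chk (E : List (List ℕ)) : Bool :=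
  E.all (fun l => l.all fun x => Nat.blt x 256) &&
    bas E fun B => (List.range 256).all fun x => Nat.beq (red B (mk [x])) 0

variable {q : ℕ → ZMod 2}

theorem ev_zero : ev q 0 = 0 := by simp [ev]

theorem ev_xor (m n : ℕ) : ev q (Nat.xor m n) = ev q m + ev q n := by
  rw [ev, ev, ev, ← Finset.sum_add_distrib]
  refine Finset.sum_congr rfl fun x _ => ?_
  rw [show Nat.xor m n = m ^^^ n from rfl, Nat.testBit_xor]
  cases m.testBit (64 + x) <;> cases n.testBit (64 + x) <;> simp [CharTwo.add_self_eq_zero]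

theorem ev_mk {l : List ℕ} (h : ∀ x ∈ l, x < 256) : ev q (mk l) = (l.map q).sum := by
  induction l with
  | nil => exact ev_zero
  | cons x l ih =>
    rw [List.forall_mem_cons] at h
    rw [List.map_cons, List.sum_cons, ← ih h.2]
    refine (ev_xor _ _).trans (congrArg (· + _) ((ev_xor _ _).trans ?_))
    rw [ev, ev, Finset.sum_eq_zero (f := fun y => if Nat.testBit (_ % _) _ then _ else _)
      fun y _ => if_neg (by
        rw [Nat.testBit_lt_two_pow ((Nat.mod_lt _ (by norm_num)).trans_le
          (le_trans (by norm_num) (Nat.pow_le_pow_right two_pos (Nat.le_add_right 64 y))))]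
        simp)]
    simp [Nat.testBit_two_pow, h.1]

theorem ev_red {B : List ℕ} (h : ∀ b ∈ B, ev q b = 0) (m : ℕ) : ev q (red B m) = ev q m := by
  induction B with
  | nil => rfl
  | cons b B ih =>
    rw [List.forall_mem_cons] at h
    rw [← ih h.2]
    show ev q (Nat.rec 0 (fun n _ => Bool.rec (Nat.xor n.succ b) n.succ
      (Nat.ble n.succ (Nat.xor n.succ b))) (red B m)) = _
    cases red B m with
    | zero => rfl
    | succ n =>
      show ev q (Bool.rec (Nat.xor n.succ b) n.succ (Nat.ble n.succ (Nat.xor n.succ b))) = _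
      cases Nat.ble n.succ (Nat.xor n.succ b)
      exacts [(ev_xor _ _).trans (by rw [h.1, add_zero]), rfl]

theorem bas_spec {E : List (List ℕ)} (h : ∀ e ∈ E, ev q (mk e) = 0) {k : List ℕ → Bool}
    (hk : bas E k = true) : ∃ B, (∀ b ∈ B, ev q b = 0) ∧ k B = true := by
  induction E generalizing k with
  | nil => exact ⟨[], by simp, hk⟩
  | cons e E ih =>
    rw [List.forall_mem_cons] at h
    obtain ⟨B, h1, h2⟩ := ih h.2 hk
    have h3 := (ev_red h1 (mk e)).trans h.1
    generalize red B (mk e) = r at h2 h3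
    cases r
    exacts [⟨B, h1, h2⟩, ⟨_, List.forall_mem_cons.2 ⟨h3, h1⟩, h2⟩]

theorem chk_spec {E : List (List ℕ)} (h : chk E = true) (hE : ∀ e ∈ E, (e.map q).sum = 0) :
    ∀ x < 256, q x = 0 := fun x hx => by
  simp only [chk, Bool.and_eq_true, List.all_eq_true, Nat.blt_eq] at h
  obtain ⟨B, h1, h2⟩ := bas_spec (fun e he => (ev_mk (h.1 e he)).trans (hE e he)) h.2
  have := ev_red h1 (mk [x])
  rw [Nat.eq_of_beq_eq_true (List.all_eq_true.1 h2 x (List.mem_range.2 hx)), ev_zero,
    ev_mk (by simpa using hx)] at this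
  simpa using this.symm

/-- the cubic identity -/
def cub (x y v : ℕ) : List ℕ := [x ^^^ y ^^^ v, x, y, v, x ^^^ y, x ^^^ v, y ^^^ v]

/-- remove the lowest bit -/
def rm (n : ℕ) : ℕ := n &&& (n - 1)

/-- the equations -/
def eqs (S : ℕ) (A₁ A₂ : List ℕ) : List (List ℕ) :=
  [255] :: A₁.map (fun a => [act a S]) ++ (List.range 256).map (fun y => [S ^^^ y, y]) ++
    A₂.flatMap (fun a => (List.range 256).map fun x => [act a x, x]) ++
    (List.range 256).map fun n => cub (n ^^^ rm n) (rm n ^^^ rm (rm n)) (rm (rm n))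

/-- the codes -/
def cs (S : ℕ) : List ℕ × List ℕ := if S = 1 then
  ([14599809, 12535362, 12305475, 8333892, 8104005, 7745094, 7515207], [12369168, 14571144]) else
  ([14599368, 16362248, 14526792, 11644808, 9809352, 12534480,
    16096528, 13737808, 12425616, 10066896, 13967128, 15801688, 10296216, 12130776, 8332128,
    8295840, 5937120, 6166440, 8001000, 7742448, 12304593, 13995793, 15830353, 10324881,
    12159441, 16059673, 16288538], [])

theorem cert : ∀ S ∈ [1, 7], S < 256 ∧ (∀ a ∈ (cs S).1, okA a = true) ∧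
    (∀ a ∈ (cs S).2, okA a = true ∧ act a S = S) ∧ chk (eqs S (cs S).1 (cs S).2) = true := by
  decide +kernel

/-- the sign -/
noncomputable def nu (k : ZMod 2) : W := neg ^ k.val

theorem nu_add (a b : ZMod 2) (g : W) : nu a * (nu b * g) = nu (a + b) * g := by
  rw [← mul_assoc, nu, nu, nu, ← pow_add, ZMod.val_add,
    ← pow_eq_pow_mod _ ((pow_two neg).trans neg_sq)]

theorem mul_nu (a : ZMod 2) (g h : W) : g * (nu a * h) = nu a * (g * h) := by
  rw [← mul_assoc, nu, ← (Commute.pow_left (neg_comm g) a.val).eq, mul_assoc]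

theorem nu_inj {a b : ZMod 2} {g : W} (h : nu a * g = nu b * g) : a = b := by
  have := mul_right_cancel h
  fin_cases a <;> fin_cases b
  exacts [rfl, absurd (this.trans (pow_one _)).symm neg_ne_one,
    absurd ((pow_one _).symm.trans this) neg_ne_one, rfl]

theorem nu_zero (g : W) : nu 0 * g = g := one_mul g

theorem ex_nu {g h : W} (e : g = h ∨ g = neg * h) : ∃ k, g = nu k * h :=
  e.elim (fun e => ⟨0, e.trans (nu_zero h).symm⟩) fun e => ⟨1, by rw [e, nu, ZMod.val_one, pow_one]⟩

theorem jobSQ : JobSQ := by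
  intro S hS w h1 h2 h3 h4 h5
  have two : ∀ a : ZMod 2, a + a = 0 := CharTwo.add_self_eq_zero
  obtain ⟨hS', a1, a2, a3⟩ := cert S hS
  have wn := fun a x => mul_nu a (w x)
  choose! c hc using fun x hx y hy => ex_nu (h1 x hx y hy)
  have hc' : ∀ x < 256, ∀ y < 256, ∀ g, w x * (w y * g) = nu (c x y) * (w (x ^^^ y) * g) :=
    fun x hx y hy g => by simp only [hc x hx y hy, mul_assoc, nu_add, two, nu_zero]
  have h0 : ∀ g, w 0 * g = nu (c 0 0) * g := fun g => mul_left_cancel (a := w 0) (by
    rw [hc' 0 (by norm_num) 0 (by norm_num), mul_nu]; rfl)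
  let q : ℕ → ZMod 2 := fun x => c x x + c 0 0
  have hq : ∀ x < 256, ∀ g, w x * (w x * g) = nu (q x) * g := fun x hx g => by
    rw [hc' x hx x hx, Nat.xor_self, h0, nu_add]
  have hz : ∀ x < 256, w x * w x = 1 → q x = 0 := fun x hx h => nu_inj (g := 1) (by
    rw [← hq x hx, nu_zero, mul_one, h])
  have hb : ∀ x < 256, ∀ y < 256, ∀ g,
      w x * (w y * g) = nu (c x y + c y x) * (w y * (w x * g)) := fun x hx y hy g => by
    rw [hc' x hx y hy, hc' y hy x hx, nu_add, add_assoc, two, add_zero, Nat.xor_comm]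
  have e1 : ∀ x < 256, ∀ y < 256, q (x ^^^ y) = c y x + c x y + q x + q y := fun x hx y hy =>
    nu_inj (g := 1) (by
      rw [← hq _ (xor_lt hx hy), hc x hx y hy]
      simp only [mul_assoc, wn, nu_add, two, nu_zero]
      rw [hb y hy x hx, mul_nu, hq x hx, hq y hy, nu_add, nu_add])
  have e2 : ∀ x < 256, ∀ y < 256, ∀ v < 256, c (x ^^^ y) v + c v (x ^^^ y) + c x y =
      c x y + (c y v + c v y + (c x v + c v x)) := fun x hx y hy v hv =>
    nu_inj (g := w v * (w x * (w y * 1))) (by
      have := hb _ (xor_lt hx hy) v hv 1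
      rw [hc x hx y hy] at this
      simp only [mul_assoc, wn, nu_add] at this
      rw [← this, hb y hy v hv, mul_nu, hb x hx v hv, nu_add, nu_add, add_assoc])
  obtain ⟨k, hk⟩ := ex_nu (h := 1) (by simpa using h2)
  intro x hx
  rw [← mul_one (w x * w x), mul_assoc, hq x hx, chk_spec (q := q) a3 ?_ x hx, nu_zero]
  simp only [eqs, List.forall_mem_cons, List.forall_mem_append, List.forall_mem_map,
    List.forall_mem_flatMap, List.mem_range, List.map_cons, List.map_nil, List.sum_cons,
    List.sum_nil, add_zero, cub]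
  refine ⟨⟨⟨⟨hz _ (by norm_num) h4, fun a ha => hz _ (act_lt _ _) (h3 a (a1 a ha))⟩,
    fun y hy => ?_⟩, fun a ha y hy => ?_⟩, fun n hn => ?_⟩
  · rw [CharTwo.add_eq_zero]
    refine nu_inj (g := 1) ?_
    rw [← hq _ (xor_lt hS' hy), ← hq y hy, hc S hS' y hy, hk]
    simp only [mul_assoc, wn, nu_add, two, nu_zero, one_mul]
  · rw [CharTwo.add_eq_zero]
    refine nu_inj (g := 1) ?_
    rw [← hq _ (act_lt _ _), ← hq y hy, mul_one, mul_one, h5 a (a2 a ha).1 (a2 a ha).2 y hy]
  · have r : ∀ n < 256, rm n < 256 := fun n h => lt_of_le_of_lt Nat.and_le_left h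
    have hv := r _ (r n hn)
    have hx := xor_lt hn (r n hn)
    have hy := xor_lt (r n hn) hv
    generalize rm (rm n) = v at *
    generalize rm n ^^^ v = y at *
    generalize n ^^^ rm n = x at *
    have := e2 x hx y hy v hv
    rw [e1 _ (xor_lt hx hy) v hv, e1 x hx y hy, e1 x hx v hv, e1 y hy v hv]
    grind

end H48.E8
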