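/- Tower KG (blueprints/KG.md), `JobF`: the Frobenius count in a centraliser. -/
import Cfsg.Agent.H15.KGKit

set_option autoImplicit false

namespace H48.KG

open Classical Finset H15.KG Subgroup

universe u

variable {G : Type u} [Group G] [Finite G]

theorem sep {p e : ℕ} (hp : p.Prime) {x y y' g : G} (hx : orderOf x = p ^ e) (h : Commute x y) (h' : Commute x y')
    (k : ¬ p ∣ orderOf y) (k' : ¬ p ∣ orderOf y') (hg : g * (x * y) * g⁻¹ = x * y') :
    g * x * g⁻¹ = x ∧ g * y * g⁻¹ = y' := by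
  have h1 := part_conj p g (x * y)
  rw [hg, part_mul hp h hx k, part_mul hp h' hx k'] at h1
  exact ⟨h1.symm, mul_left_cancel (a := x) (by rw [← hg]; nth_rw 1 [h1]; group)⟩

theorem cc_sub {p e : ℕ} (hp : p.Prime) {x : G} (hx : orderOf x = p ^ e) (y : centralizer ({x} : Set G))
    (k : ¬ p ∣ orderOf y.1) : cc y = cc (x * y.1) := by
  have h : Commute x y.1 := (mem_centralizer_singleton_iff.1 y.2).symm
  have s := fun g : centralizer ({x * y.1} : Set G) =>
    sep hp hx h h k k (mul_inv_eq_of_eq_mul (mem_centralizer_singleton_iff.1 g.2))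
  exact Nat.card_congr
    { toFun := fun g => ⟨g.1.1, mem_centralizer_singleton_iff.2 (Commute.mul_right
        (mem_centralizer_singleton_iff.1 g.1.2) (congrArg Subtype.val (mem_centralizer_singleton_iff.1 g.2)))⟩
      invFun := fun g => ⟨⟨g.1, mem_centralizer_singleton_iff.2 (eq_mul_of_mul_inv_eq (s g).1)⟩,
        mem_centralizer_singleton_iff.2 (Subtype.ext (eq_mul_of_mul_inv_eq (s g).2))⟩
      left_inv := fun _ => rfl
      right_inv := fun _ => rfl }

theorem jobF : JobF.{u} := fun G _ _ hN i h2 b e hc hb => by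
  obtain ⟨e', he⟩ := pow_of_p2 (rep_ne i) h2
  have hp := p1_prime (rep_ne i)
  change cc (rep i) = b * p1 (rep i) ^ e at hc
  change ¬ p1 (rep i) ∣ b at hb
  have := Fintype.ofFinite (centralizer ({rep i} : Set G))
  have cm : ∀ y : centralizer ({rep i} : Set G), Commute (rep i) y.1 := fun y =>
    (mem_centralizer_singleton_iff.1 y.2).symm
  have nd : ∀ y : centralizer ({rep i} : Set G), y ^ b = 1 → ¬ p1 (rep i) ∣ orderOf y.1 := fun y h k =>
    hb (k.trans (orderOf_coe y ▸ orderOf_dvd_of_pow_eq_one h))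
  have od : ∀ y : centralizer ({rep i} : Set G), ¬ p1 (rep i) ∣ orderOf y.1 →
      orderOf (rep i * y.1) = p1 (rep i) ^ (e' + 1) * orderOf y.1 := fun y h => by
    rw [(cm y).orderOf_mul_eq_mul_orderOf_of_coprime (he ▸ (hp.coprime_iff_not_dvd.2 h).pow_left _), he]
  have ne : ∀ y : centralizer ({rep i} : Set G), ¬ p1 (rep i) ∣ orderOf y.1 → rep i * y.1 ≠ 1 := fun y h k => by
    have := od y h
    rw [k, orderOf_one, eq_comm, mul_eq_one] at this
    exact (Nat.one_lt_pow (by omega) hp.one_lt).ne' this.1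
  have h := H23.dvd_card_pow_eq_one (G := centralizer ({rep i} : Set G)) (n := b) ⟨_, hc⟩
  rw [Nat.card_eq_fintype_card, Fintype.card_subtype, ← card_erase_add_one (a := 1) (by simp), add_comm,
    card_eq_sum_card_fiberwise (f := fun y => cls (rep i * y.1) i) (t := {j | ∃ s, (dat G).Kid i j s}) ?_] at h
  · convert h using 2
    refine sum_congr (by congr) fun j hj => ?_
    obtain ⟨s, hs⟩ := (mem_filter.1 hj).2
    obtain ⟨-, hs, hn, w, f, hw, hc', hj⟩ := (kid_iff hN).1 hs
    obtain ⟨w, rfl⟩ : ∃ y : centralizer ({rep i} : Set G), y.1 = w :=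
      ⟨⟨w, mem_centralizer_singleton_iff.2 hc'.symm⟩, rfl⟩
    have k : ¬ p1 (rep i) ∣ orderOf w.1 := hw ▸ fun k =>
      hn.symm ((Nat.prime_dvd_prime_iff_eq hp hs).1 (hp.dvd_of_dvd_pow k))
    change cc (rep i) / cc (rep j) = _
    rw [← cc_conj hj, ← cc_sub hp he w k, ← card_class]
    refine congrArg card (ext fun y => ?_)
    simp only [mem_filter, mem_erase, mem_univ, true_and]
    refine ⟨fun hy => ?_, fun hy => ?_⟩
    · have o : orderOf y.1 = orderOf w.1 := by rw [orderOf_coe, orderOf_coe, ord_conj hy]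
      obtain ⟨g, rfl⟩ := isConj_iff.1 hy
      refine ⟨⟨fun e => ?_, orderOf_dvd_iff_pow_eq_one.1 ?_⟩, (cls_eq_iff (ne _ (o ▸ k))).2 (.trans ?_ hj)⟩
      · rw [e, hw] at o
        exact (Nat.one_lt_pow f.succ_ne_zero hs.one_lt).ne (by simpa using o)
      · refine Nat.Coprime.dvd_of_dvd_mul_right ?_ ((_root_.orderOf_dvd_natCard _).trans hc.dvd)
        rw [← orderOf_coe, o]
        exact ((hp.coprime_iff_not_dvd.2 k).pow_left _).symm
      · refine (isConj_iff.2 ⟨g.1, ?_⟩).symm
        rw [← mul_assoc, ← (cm g).eq]; simp [mul_assoc]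
    · obtain ⟨g, hg⟩ := isConj_iff.1 (hj.trans ((cls_eq_iff (ne _ (nd _ hy.1.2))).1 hy.2).symm)
      obtain ⟨h1, h2⟩ := sep hp he (cm w) (cm y) k (nd _ hy.1.2) hg
      exact isConj_iff.2 ⟨⟨g, mem_centralizer_singleton_iff.2 (eq_mul_of_mul_inv_eq h1)⟩, Subtype.ext h2⟩
  · intro y hy
    simp only [coe_erase, coe_filter, mem_univ, true_and, Set.mem_sdiff, Set.mem_ofPred_eq,
      Set.mem_singleton_iff] at hy ⊢
    have k := nd y hy.1
    have n := hN (rep i * y.1)
    have y0 : orderOf y.1 ≠ 1 := fun e => hy.2 (Subtype.ext (orderOf_eq_one_iff.1 e))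
    rw [od y k, ((hp.coprime_iff_not_dvd.2 k).pow_left _).primeFactors_mul, card_union_of_disjoint
      ((hp.coprime_iff_not_dvd.2 k).pow_left _).disjoint_primeFactors, Nat.primeFactors_prime_pow (by omega) hp,
      card_singleton] at n
    have pos := card_pos.2 (Nat.nonempty_primeFactors.2 (lt_of_le_of_ne (orderOf_pos y.1) y0.symm))
    obtain ⟨s, f, hs, f0, hf⟩ := (isPrimePow_nat_iff _).1 (isPrimePow_iff_card_primeFactors_eq_one.2 (by omega :
      (orderOf y.1).primeFactors.card = 1))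
    obtain ⟨f, rfl⟩ := Nat.exists_eq_add_one.2 f0
    exact ⟨s, (kid_iff hN).2 ⟨h2, hs, fun e => k (hf ▸ e ▸ dvd_pow_self _ (by omega)), _, f, hf.symm, cm y,
      conj_cls (ne y k) i⟩⟩

end H48.KG
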