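/- Tower KG: soundness of the final test of the search, final form. -/
import Cfsg.Agent.H15.KGSpec3
import Cfsg.Agent.H48.KGFin

set_option autoImplicit false

namespace H48.KG
open H15.KG Classical Finset

universe u

variable {ι : Type u} {D : Dat ι} {K : ℕ}

theorem fr_spec' (hi : ∀ i, D.inv i → D.p i = 2 ∧ D.q i = 1) {lo : ℕ} {L : List Dn}
    (hb : ∀ i, D.inv i → bsD D.g (D.g / D.c i) L = true) {ds : List ι} {S : List Dn}
    (H : List.Forall₂ D.RD' ds S) : ∀ (m ni : ℕ) (top : Bool) (I : List ℕ),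
    fr K D.g lo L S m ni top I = true → ∃ top' I',
      fr K D.g lo L [] (m + (ds.map fun i => if D.inv i then D.g / D.c i else 0).sum)
        (ni + (ds.map fun i => if D.inv i then 1 else 0).sum) top' I' = true ∧
      (top = true ∨ (∃ i ∈ ds, D.inv i ∧ D.g / D.c i % 2 = 1) → top' = true) ∧
      ∀ x, x ∈ I' ↔ x ∈ I ∨ ∃ i ∈ ds, D.p i = 2 ∧ D.q i = 1 ∧ ¬ D.inv i ∧ D.c i = x := by
  induction H with
  | nil => exact fun m ni top I h => ⟨top, I, h, by simp, by simp⟩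
  | @cons i d ds S h1 _ ih =>
    intro m ni top I h
    obtain ⟨k1, k2, k3, k4⟩ := h1
    have h2 := fr_cons h
    rw [k1, k2, k3] at h2
    simp only [List.map_cons, List.sum_cons, List.mem_cons, exists_eq_or_imp]
    by_cases h3 : D.inv i
    · obtain ⟨t, J, a1, a2, a3⟩ := ih _ _ _ _ ((h2.1 (hi i h3)).2 (hb i h3))
      refine ⟨t, J, by simpa only [h3, if_true, add_assoc] using a1, fun a => a2 ?_, by
        simpa [h3] using a3⟩
      rcases a with a | a | a
      exacts [Or.inl (by simp [a]), Or.inl (by simp [a.2]), Or.inr a]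
    by_cases h4 : D.p i = 2 ∧ D.q i = 1
    · obtain ⟨t, J, a1, a2, a3⟩ := ih _ _ _ _ ((h2.1 h4).1.resolve_left fun a => h3 (k4 a h4.1))
      refine ⟨t, J, by simpa only [h3, if_false, zero_add] using a1, by simpa [h3] using a2,
        fun x => ?_⟩
      rw [a3, List.mem_cons, or_comm (a := x = _), or_assoc, eq_comm]
      simp only [h3, h4, true_and, not_false_eq_true]
    · obtain ⟨t, J, a1, a2, a3⟩ := ih _ _ _ _ (h2.2 h4)
      refine ⟨t, J, by simpa only [h3, if_false, zero_add] using a1, by simpa [h3] using a2,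
        fun x => ?_⟩
      rw [a3, iff_false_intro fun k : _ ∧ _ ∧ ¬ D.inv i ∧ D.c i = x => h4 ⟨k.1, k.2.1⟩, false_or]

theorem jobFin' : JobFin'.{u} := by
  intro ι _ D K A ds L nd al H h
  have sm : ∀ f : ι → ℕ, (ds.map f).sum = ∑ i, f i := fun f => by
    rw [← List.sum_toFinset f nd, eq_univ_of_forall fun i => List.mem_toFinset.2 (al i)]
  have m1 : ∀ i, ∃ d ∈ L, D.RD' i d := fun i => ex_mem H (al i)
  have m2 : ∀ d ∈ L, ∃ i, D.RD' i d := fun d hd => (ex_mem H.flip hd).imp fun _ h => h.2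
  have lc : lcmL L Dn.c = D.g := by
    refine Nat.dvd_antisymm (lcmL_dvd fun d hd => ?_)
      ((Nat.dvd_iff_prime_pow_dvd_dvd _ _).2 fun s k hs hk => ?_)
    · obtain ⟨i, h⟩ := m2 d hd
      exact h.2.2.1 ▸ A.cdvd i
    · cases k with
      | zero => simp
      | succ k =>
        obtain ⟨i, -, -, h1⟩ := A.gtop s k hs hk
        obtain ⟨d, hd, h2⟩ := m1 i
        exact h1.trans (h2.2.2.1 ▸ dvd_lcmL Dn.c hd)
  have ct : ∀ p, cntD L p = D.cnt p := fun p => by
    rw [cntD, sumL_eq, map_eq H (f := fun i => if D.p i = p ∧ D.q i = 1 then 1 else 0)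
      fun i d h => by simp only [br, Nat.beq_eq, h.1, h.2.1, ite_and], sm, Dat.cnt, card_filter]
  simp only [fin, frc_eq, br, Nat.ble_eq, Nat.beq_eq, nsub, nmul, ndiv, nmod, sumL_eq, ct, A.big,
    lc, if_true, flags_eq] at h
  rw [map_eq H (f := fun i => if D.c i = D.p i ∧ (D.p i - 1) / D.cnt (D.p i) % 2 = 0 then 1 else 0)
    fun i d h => by simp only [h.1, h.2.2.1, ite_and], sm, ← card_filter] at h
  obtain ⟨t, I, a1, a2, a3⟩ := fr_spec' A.inv2 (fun i hi => by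
    obtain ⟨j, h1, h2, h3⟩ := A.bs i hi
    obtain ⟨d, hd, h4⟩ := m1 j
    refine anyL_iff.2 ⟨d, hd, ?_⟩
    simp only [br, Nat.ble_eq, Nat.beq_eq, nadd, nmul, ndiv, h4.1, h4.2.1, h4.2.2.1, h1, if_true,
      h3, show 3 ≤ D.p j from h2]) H _ _ _ _ h
  obtain rfl := a2 (Or.inr (A.itop.imp fun i h => ⟨al i, h⟩))
  rw [sm, sm, ← card_filter, ← sum_filter, zero_add, zero_add] at a1
  have a4 := fr_nil a1 A.up A.lo
  simp only [List.not_mem_nil, false_or, al, true_and] at a3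
  simp only [acc, Bool.or_eq_true, Bool.and_eq_true, beq_iff_eq, List.all_eq_true,
    List.any_eq_true, a3, bne_iff_ne, Bool.not_eq_true', Bool.and_eq_false_iff,
    beq_eq_false_iff_ne, List.isEmpty_iff, or_assoc] at a4
  rcases a4 with a | a | a | a | a
  · exact .inl a
  · exact .inr (.inl a)
  · refine .inr (.inr (.inl ⟨a.1, fun i h1 h2 => by_contra fun h3 => ?_⟩))
    simpa [a.2] using (a3 _).2 ⟨i, h1, h2, h3, rfl⟩
  · refine .inr (.inr (.inr (.inl ⟨fun i h => ?_, a.2.imp_right (Or.imp (And.imp_right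
      (Or.imp_right ?_)) (And.imp_right (Or.imp_right ?_)))⟩)))
    · obtain ⟨d, hd, h1⟩ := m1 i
      exact (a.1 d hd).elim (fun k => k (h1.1.trans h.1)) fun k => k (h1.2.1.trans h.2)
    · rintro ⟨_, ⟨i, h1, h2, h3, rfl⟩, h4⟩
      exact ⟨i, h1, h2, h3, h4⟩
    · rintro ⟨_, ⟨i, h1, h2, -, rfl⟩, h4⟩
      exact ⟨i, h1, h2, h4⟩
  · obtain ⟨⟨h1, d, hd, h2⟩, h3⟩ := a
    obtain ⟨i, h4⟩ := m2 d hd
    exact .inr (.inr (.inr (.inr ⟨fun i j hi hj => card_le_one.1 h1.le i (by simpa using hi) j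
      (by simpa using hj), ⟨i, h4.1 ▸ h2.1.1, h4.2.1 ▸ h2.1.2, h4.2.2.1 ▸ h2.2⟩, h3⟩)))

end H48.KG
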