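/- Row S2446, slot ORE4-PL: determinants and elementary divisors in the parabolic subgroup. -/
import Cfsg.Agent.H68.OuSpec

set_option autoImplicit false
set_option linter.unusedSectionVars false

namespace H48.Ou

open Polynomial Module H53 H60.Ore H68.Ou
open H59 (perp mem_perp form_smul_left form_smul_right)

universe u

/-- determinants of two endomorphisms preserving a perfect pairing -/
theorem det_pair {F U W : Type*} [Field F] {σ : F →+* F} [AddCommGroup U] [Module F U]
    [AddCommGroup W] [Module F W] [FiniteDimensional F U] [FiniteDimensional F W]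
    (C : U →ₛₗ[σ] W →ₗ[F] F) (hC : ∀ w, (∀ x, C x w = 0) → w = 0)
    (hd : finrank F W = finrank F U) {s : End F U} {t : End F W}
    (h : ∀ x w, C (s x) (t w) = C x w) : σ (LinearMap.det s) * LinearMap.det t = 1 := by
  classical
  let b := Module.finBasis F U
  let b' := Module.finBasisOfFinrankEq F W hd
  let G : Matrix _ _ F := Matrix.of fun i j => C (b i) (b' j)
  have h0 : ∀ (a : F) (x : U) (w : W), C (a • x) w = σ a * C x w := fun a x w => by
    simp [LinearMap.map_smulₛₗ]
  have h1 : ∀ (x : U) (v : Fin (finrank F U) → F), C x (∑ j, v j • b' j) = ∑ j, C x (b' j) * v j :=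
    fun x v => by simp [mul_comm]
  have hG : G.det ≠ 0 := fun h0' => by
    obtain ⟨v, hv, h2⟩ := Matrix.exists_mulVec_eq_zero_iff.2 h0'
    refine hv (Fintype.linearIndependent_iff.1 b'.linearIndependent v ?_ |> funext)
    refine hC _ fun x => ?_
    have h3 : ∀ i, C (b i) (∑ j, v j • b' j) = 0 := fun i => by
      rw [h1]; exact congrFun h2 i
    rw [← b.sum_repr x, map_sum C, LinearMap.sum_apply]
    exact Finset.sum_eq_zero fun i _ => by rw [h0, h3, mul_zero]
  have h2 : ((LinearMap.toMatrix b b s).map σ).transpose * (G * LinearMap.toMatrix b' b' t) = G := by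
    ext i j
    have h3 := h (b i) (b' j)
    rw [← b.sum_repr (s (b i)), ← b'.sum_repr (t (b' j)), map_sum C, LinearMap.sum_apply] at h3
    simp only [h0, h1] at h3
    simpa [Matrix.mul_apply, LinearMap.toMatrix_apply, G] using h3
  have h3 := congrArg Matrix.det h2
  rw [Matrix.det_mul, Matrix.det_mul, Matrix.det_transpose, ← RingHom.mapMatrix_apply,
    ← RingHom.map_det, LinearMap.det_toMatrix, LinearMap.det_toMatrix] at h3
  refine mul_left_cancel₀ hG ?_
  linear_combination h3

theorem jobPL : JobPL.{u} := by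
  intro F V _ _ _ _ σ B y L κ _ hB hy hF hL
  have hM := hy.perp_mapsTo hB hL
  have hle := hF.le_perp
  have hd := hB.finrank_add_finrank_perp L
  obtain ⟨ν, h1, h2⟩ := hF.mid
  set M := perp B L with hMdef
  have e1 := y.det_eq_det_mul_det M hM
  -- the pairing of `L` and `V / M`
  let C : L →ₛₗ[σ] (V ⧸ M) →ₗ[F] F :=
    (M.liftQ (B.domRestrict L).flip fun w hw => LinearMap.ext fun x => hw x x.2).flip
  have hC : ∀ (x : L) (w : V), C x (M.mkQ w) = B x w := fun x w => rfl
  have e2 : σ (LinearMap.det (y.restrict hL)) * LinearMap.det (M.mapQ M y hM) = 1 := by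
    refine det_pair C (fun w hw => ?_) ?_ fun x w => ?_
    · obtain ⟨w, rfl⟩ := M.mkQ_surjective w
      exact (Submodule.Quotient.mk_eq_zero M).2 fun x hx => hw ⟨x, hx⟩
    · have := M.finrank_quotient_add_finrank
      omega
    · obtain ⟨w, rfl⟩ := M.mkQ_surjective w
      exact hy x w
  -- the determinant on `M`
  let y' : End F M := y.restrict hM
  let L' : Submodule F M := L.comap M.subtype
  have hL' : L' ≤ L'.comap y' := fun x hx => hL x hx
  have e3 := y'.det_eq_det_mul_det L' hL'
  have e4 : LinearMap.det (y'.restrict hL') = LinearMap.det (y.restrict hL) :=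
    Sim.det_eq ⟨Submodule.comapSubtypeEquivOfLe hle, fun _ => rfl⟩
  have e5 : L'.mapQ L' y' hL' = κ • LinearMap.id := by
    refine LinearMap.ext fun w => ?_
    obtain ⟨w, rfl⟩ := L'.mkQ_surjective w
    refine (Submodule.Quotient.eq L').2 ?_
    obtain ⟨l, hl, _, hz, hw'⟩ := Submodule.mem_sup.1 (h1.le w.2)
    obtain ⟨t, rfl⟩ := Submodule.mem_span_singleton.1 hz
    change y w - κ • (w : V) ∈ L
    have : y w - κ • (w : V) = y l - κ • l + t • (y ν - κ • ν) := by
      rw [← hw', map_add, map_smul]; module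
    rw [this]
    exact L.add_mem (L.sub_mem (hL l hl) (L.smul_mem _ hl)) (L.smul_mem _ h2)
  have e6 : finrank F (M ⧸ L') = finrank F V - 2 * finrank F L := by
    have := L'.finrank_quotient_add_finrank
    have h3 : finrank F L' = finrank F L := (Submodule.comapSubtypeEquivOfLe hle).finrank_eq
    omega
  rw [e4, e5, LinearMap.det_smul, LinearMap.det_id, e6] at e3
  rw [e1]
  change LinearMap.det y' * _ * _ = _
  rw [e3]
  linear_combination (LinearMap.det (y.restrict hL) * κ ^ (finrank F V - 2 * finrank F L)) * e2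

theorem jobK : JobK.{u} := by
  intro F V _ _ _ _ σ B x v m κ hσ hB hx hm hF hd hv
  set L := ch x v m with hLdef
  have hH := hB.isHerm hσ.ne
  have hmem : ∀ i < m, (x ^ i) v ∈ L := fun i hi => pow_mem_ch x v hi
  have hv0 : v ∈ L := by simpa using hmem 0 hm
  have hs : ∀ i (w : V), (x ^ (i + 1)) w = x ((x ^ i) w) := fun i w => by
    rw [pow_succ']; rfl
  obtain ⟨n, rfl⟩ : ∃ n, m = n + 1 := ⟨m - 1, by omega⟩
  have h1 : ∀ i ≤ n, B ((x ^ (n + 1)) v) ((x ^ (i + 1)) v) = 0 := fun i hi => by
    rw [hs, hs, hx]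
    exact hF.iso _ (hmem n (by omega)) _ (hmem i (by omega))
  have h2 := h1 n le_rfl
  have hc : B v ((x ^ (n + 1)) v) ≠ 0 := fun h0 => hv <| hF.mem hB (by
    refine H59.mem_perp_span.2 ?_
    rintro _ ⟨⟨i, hi⟩, rfl⟩
    rcases i with _ | i
    · simpa using h0
    · exact hB.eq_zero_comm.1 (h1 i (by omega))) h2
  refine ⟨hc, ?_⟩
  have h3 : B v v = 0 := hF.iso v hv0 v hv0
  have h4 : B (v - (x ^ (n + 1)) v) ((x ^ (n + 1)) v) = B v ((x ^ (n + 1)) v) := by
    rw [map_sub, LinearMap.sub_apply, h2, sub_zero]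
  obtain ⟨k, hk, hw⟩ := hH.exists_qref_map (u := (x ^ (n + 1)) v) (w := v) (h2.trans h3.symm)
    (h4 ▸ hc)
  set w := H59.qref B (v - (x ^ (n + 1)) v) k hk with hwdef
  have hp : v - (x ^ (n + 1)) v ≠ 0 := fun h0 => hv (sub_eq_zero.1 h0 ▸ hv0)
  have hkc : k * B v ((x ^ (n + 1)) v) = 1 := by
    have h5 := hw
    rw [hwdef, H59.qref_apply, h4] at h5
    have h6 : (k * B v ((x ^ (n + 1)) v) - 1) • (v - (x ^ (n + 1)) v) = 0 := by
      rw [sub_smul, one_smul, sub_eq_zero, eq_sub_iff_add_eq']
      exact h5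
    exact sub_eq_zero.1 ((smul_eq_zero.1 h6).resolve_right hp)
  have hdw : LinearMap.det (w : End F V) = -(k * σ (B v ((x ^ (n + 1)) v))) := by
    rw [← LinearEquiv.coe_det, hwdef, H59.det_qref, map_sub, h4, map_sub, LinearMap.sub_apply, h3,
      hH.symm]
    linear_combination -hkc
  have hfix : ∀ z, B v z = 0 → B ((x ^ (n + 1)) v) z = 0 → w z = z := fun z a b => by
    rw [hwdef, H59.qref_apply, map_sub, LinearMap.sub_apply, a, b]
    simp
  let y : End F V := (w : End F V) * x
  have hy : Inv B y := Inv.mul (hH.qref_mem_isom _ k hk) hx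
  have hyv : ∀ i : Fin (n + 1), ∃ j : Fin (n + 1), y ((x ^ (i : ℕ)) v) = (x ^ (j : ℕ)) v := by
    rintro ⟨i, hi⟩
    change ∃ j : Fin (n + 1), w (x ((x ^ i) v)) = _
    rw [← hs]
    by_cases hin : i = n
    · exact ⟨0, by rw [hin, hw]; simp⟩
    · exact ⟨⟨i + 1, by omega⟩,
        hfix _ (hF.iso v hv0 _ (hmem _ (by omega))) (h1 i (by omega))⟩
  have hL : Ex0 y L := by
    have : L ≤ L.comap y := Submodule.span_le.2 (by
      rintro _ ⟨i, rfl⟩
      obtain ⟨j, hj⟩ := hyv i
      change y _ ∈ L
      rw [hj]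
      exact hmem _ j.2)
    exact this
  have hFy : Fr B y L κ := by
    obtain ⟨ν, a, b⟩ := hF.mid
    have hν : ν ∈ perp B L := a ▸ Submodule.mem_sup_right (Submodule.mem_span_singleton_self ν)
    have hxν : x ν ∈ perp B L := by
      have := (perp B L).add_mem (hF.le_perp b) ((perp B L).smul_mem κ hν)
      rwa [sub_add_cancel] at this
    refine ⟨hF.iso, ν, a, ?_⟩
    change w (x ν) - _ ∈ L
    rw [hfix _ (hxν v hv0) (by rw [hs, hx]; exact hν _ (hmem n (by omega)))]
    exact b
  have hPL := jobPL F V σ B y L κ hσ hB hy hFy hL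
  have hli : LinearIndependent F fun i : Fin (n + 1) => (x ^ (i : ℕ)) v :=
    linearIndependent_iff_card_eq_finrank_span.2 (by rw [Fintype.card_fin]; exact hd.symm)
  let b : Basis (Fin (n + 1)) F L := Basis.span hli
  have hb : ∀ i, (b i : V) = (x ^ (i : ℕ)) v := fun i => congrArg Subtype.val (Basis.span_apply hli i)
  have hσd : σ (LinearMap.det (y.restrict hL)) = LinearMap.det (y.restrict hL) := by
    classical
    rw [← LinearMap.det_toMatrix b, RingHom.map_det]
    congr 1
    ext i j
    obtain ⟨l, hl⟩ := hyv j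
    have : y.restrict hL (b j) = b l := Subtype.ext (by
      change y (b j) = _
      rw [hb, hb, hl])
    rw [RingHom.mapMatrix_apply, Matrix.map_apply, LinearMap.toMatrix_apply, this, b.repr_self,
      Finsupp.single_apply]
    split_ifs <;> simp
  have hd0 : LinearMap.det (y.restrict hL) ≠ 0 := by
    refine (LinearMap.isUnit_det _ ((End.isUnit_iff _).2 ?_)).ne_zero
    have : Function.Injective (y.restrict hL) := fun a b hab =>
      Subtype.ext (hy.injective hB (congrArg Subtype.val hab))
    exact ⟨this, LinearMap.injective_iff_surjective.1 this⟩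
  rw [hσd, mul_left_inj' hd0, hd, map_mul, hdw] at hPL
  linear_combination (-B v ((x ^ (n + 1)) v)) * hPL -
    LinearMap.det x * σ (B v ((x ^ (n + 1)) v)) * hkc

theorem eq_zero_of_dg {F : Type u} [Field F] {t : Multiset F[X]} (h : ∀ P ∈ t, IsPP P)
    (h0 : dg t = 0) : t = 0 := by
  induction t using Multiset.induction_on with
  | empty => rfl
  | cons P t _ =>
    have := (h P (Multiset.mem_cons_self _ _)).natDegree_pos
    rw [dg_cons] at h0
    omega

theorem jobED : JobED.{u} := by
  intro F V _ _ _ _ σ B y χ m D w hB hy hχ hw h0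
  have h1 : ¬ IsUnit (aeval y χ) := fun h =>
    hw (((End.isUnit_iff _).1 h).1 (h0.trans (map_zero _).symm))
  rw [isUnit_aeval_iff_ed] at h1
  push Not at h1
  obtain ⟨P, hP, h1⟩ := h1
  obtain ⟨φ, k, hm, hi, hk, rfl⟩ := ed_isPP y P hP
  obtain rfl : φ = χ := by
    by_contra h
    exact h1 (isCoprime_of_monic_irreducible_ne hm hi hχ.mon hχ.irr h).pow_left
  have h2 := hy.pstar_mem_ed hB hP
  rw [pstar_pow] at h2
  have h3 : pstar σ φ ^ k ≠ φ ^ k := fun h => hχ.ne (monic_irreducible_eq_of_pow_eq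
    (monic_pstar hm.ne_zero) (irreducible_pstar hB.invol hm hi) hm hi hk h).1
  obtain ⟨s, hs⟩ := Multiset.exists_cons_of_mem hP
  obtain ⟨t, rfl⟩ := Multiset.exists_cons_of_mem
    ((Multiset.mem_cons.1 (hs ▸ h2)).resolve_left h3)
  have h4 := dg_ed y
  have h5 : ∀ P ∈ t, IsPP P := fun P hP => ed_isPP y P (by simp [hs, hP])
  have h6 : 0 < m := hχ.deg ▸ (isPP_of_irreducible hm hi).natDegree_pos
  rw [hs, dg_cons, dg_cons, natDegree_pow, natDegree_pow, natDegree_pstar, hχ.deg] at h4
  have h7 : finrank F V ≤ 2 * m + 1 → k = 1 := fun h => by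
    by_contra h8
    have : 2 * m ≤ k * m := Nat.mul_le_mul_right _ (by omega)
    omega
  refine ⟨fun h => ?_, fun h => ?_⟩
  · obtain rfl := h7 (by omega)
    rw [hs, eq_zero_of_dg h5 (by omega), pow_one, pow_one]
    rfl
  · obtain rfl := h7 h.le
    have h8 : dg t = 1 := by omega
    induction t using Multiset.induction_on with
    | empty => simp at h8
    | cons Q t _ =>
      have hQ := h5 Q (Multiset.mem_cons_self _ _)
      have h9 := hQ.natDegree_pos
      rw [dg_cons] at h8
      obtain rfl := eq_zero_of_dg (t := t) (fun P hP => h5 P (Multiset.mem_cons_of_mem hP))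
        (by omega)
      refine ⟨-Q.coeff 0, ?_⟩
      rw [hs, map_neg, sub_neg_eq_add, ← hQ.monic.eq_X_add_C (by omega), pow_one, pow_one, pr,
        add_comm]
      rfl

end H48.Ou
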