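/- Commutators in `SL_n(q)`: small facts on blocks. -/
import Cfsg.Agent.H60.OreSpec

set_option autoImplicit false

namespace H48.Ore
open Polynomial Module H53 H60.Ore

universe u
variable {F : Type u} [Field F]

theorem pp_pos {P : F[X]} (h : IsPP P) : 0 < P.natDegree := by
  obtain ⟨φ, k, hm, hi, hk, rfl⟩ := h
  rw [hm.natDegree_pow]
  exact Nat.mul_pos hk (natDegree_pos_iff_degree_pos.2 (degree_pos_of_irreducible hi))

theorem eq_lin_of_root {φ : F[X]} (hm : φ.Monic) (hi : Irreducible φ) {a : F} (h : φ.eval a = 0) :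
    φ = X - C a :=
  (eq_of_monic_of_associated (monic_X_sub_C a) hm
    ((irreducible_X_sub_C a).associated_of_dvd hi (dvd_iff_isRoot.2 h))).symm

/-- A block with a root is a power of a linear polynomial. -/
theorem pp_root {P : F[X]} (h : IsPP P) {a : F} (ha : P.eval a = 0) :
    P = (X - C a) ^ P.natDegree := by
  obtain ⟨φ, k, hm, hi, hk, rfl⟩ := h
  rw [eval_pow] at ha
  obtain rfl := eq_lin_of_root hm hi (pow_eq_zero_iff hk.ne' |>.1 ha)
  rw [(monic_X_sub_C a).natDegree_pow, natDegree_X_sub_C, mul_one]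

theorem pp_root_unique {P : F[X]} (h : IsPP P) {a b : F} (ha : P.eval a = 0) (hb : P.eval b = 0) :
    a = b := by
  rw [pp_root h ha, eval_pow, pow_eq_zero_iff (pp_pos h).ne'] at hb
  simpa [sub_eq_zero, eq_comm] using hb

theorem lin_of_deg {P : F[X]} (h : P.Monic) (hd : P.natDegree = 1) : P = X - C (dt P) := by
  rw [dt, hd]
  simpa using h.eq_X_add_C hd

theorem quad_of_deg {P : F[X]} (h : P.Monic) (hd : P.natDegree = 2) :
    P = X ^ 2 - C (-P.coeff 1) * X + C (dt P) := by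
  have h2 : P.coeff 2 = 1 := hd ▸ h.coeff_natDegree
  rw [dt, hd]
  conv_lhs => rw [P.as_sum_range_C_mul_X_pow, hd]
  simp [Finset.sum_range_succ, h2]
  ring

theorem dt_ne {P : F[X]} (h : P.coeff 0 ≠ 0) : dt P ≠ 0 :=
  mul_ne_zero (pow_ne_zero _ (by simp)) h

theorem dt_pow {P : F[X]} (h : P.Monic) (k : ℕ) : dt (P ^ k) = dt P ^ k := by
  induction k with
  | zero => simp [dt]
  | succ k ih => rw [pow_succ, dt_mul (h.pow k) h, ih, pow_succ]

theorem med_smul_one (n : ℕ) (c : F) :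
    med (c • (1 : Matrix (Fin n) (Fin n) F)) = Multiset.replicate n (X - C c) := by
  have h1 : ∀ P ∈ med (c • (1 : Matrix (Fin n) (Fin n) F)), P = X - C c := fun P hP => by
    have h := (aeval_eq_zero_iff_med _ (X - C c)).1 (by simp [Algebra.algebraMap_eq_smul_one]) P hP
    have hp := med_isPP _ P hP
    refine eq_of_monic_of_associated hp.monic (monic_X_sub_C c) ?_
    rcases (irreducible_X_sub_C c).dvd_iff.1 h with h | h
    · exact absurd (natDegree_eq_zero_of_isUnit h) (pp_pos hp).ne'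
    · exact h.symm
  have h2 := Multiset.eq_replicate_card.2 h1
  have h3 := sum_natDegree_med (c • (1 : Matrix (Fin n) (Fin n) F))
  rw [h2] at h3
  simp only [Multiset.map_replicate, natDegree_X_sub_C, Multiset.sum_replicate, smul_eq_mul, mul_one,
    Fintype.card_fin] at h3
  rw [h2, h3]

/-- Two coprime blocks of total degree at least three. -/
theorem flex_pair [Fintype F] (K : Kit F) {P Q : F[X]} (hP : IsPP P ∧ P.coeff 0 ≠ 0)
    (hQ : IsPP Q ∧ Q.coeff 0 ≠ 0) (h : IsCoprime P Q) (h3 : 3 ≤ P.natDegree + Q.natDegree)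
    (hx : ¬ (Fintype.card F = 3 ∧ P.natDegree + Q.natDegree = 3 ∧ dt P * dt Q = -1)) :
    Flex {P, Q} := by
  rw [pair_eq_edc hP.1 hQ.1 h]
  refine K.flex _ (hP.1.monic.mul hQ.1.monic) (by rw [mul_coeff_zero]; exact mul_ne_zero hP.2 hQ.2) ?_ ?_
  · rwa [hP.1.monic.natDegree_mul hQ.1.monic]
  · rwa [hP.1.monic.natDegree_mul hQ.1.monic, dt_mul hP.1.monic hQ.1.monic]

/-- A block is coprime to an irreducible polynomial or a power of it. -/
theorem coprime_or_pow {e B : F[X]} (hm : e.Monic) (hi : Irreducible e) (hB : IsPP B) :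
    IsCoprime e B ∨ ∃ j, 0 < j ∧ B = e ^ j := by
  obtain ⟨φ, k, hm', hi', hk, rfl⟩ := hB
  by_cases h : e = φ
  · exact .inr ⟨k, hk, by rw [h]⟩
  · exact .inl (isCoprime_of_monic_irreducible_ne hm hi hm' hi' h).pow_right

theorem flex_of_loop {s r : Multiset F[X]} (hd : dm s = 1)
    (hs : ∀ a ω : F, a ≠ 0 → ω ≠ 0 → E s {X - C a} {X - C a} ω False) (hr : Semi r True) :
    Flex (s + r) := by
  refine ⟨by rw [dm_add, hd, one_mul]; exact hr.1, fun a ω ha hω => ?_⟩
  obtain ⟨ω', h0, e⟩ := hr.2 a ha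
  rw [dm_add, hd, one_mul]
  exact ((hs a (ω / ω') ha (div_ne_zero hω h0)).chain e).congr rfl (div_mul_cancel₀ _ h0)
    fun _ => .inr trivial

end H48.Ore
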