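/- Commutators in `SL_n(2)`. -/
import Cfsg.Agent.H48.OreB

set_option autoImplicit false
set_option linter.unusedSectionVars false

namespace H48.Ore2
open Polynomial Module H53 H60.Ore H48.Ore Matrix

universe u
variable {F : Type u} [Field F]

theorem med_conj {n : Type*} [Fintype n] [DecidableEq n] {A B c c' : Matrix n n F} (hc : c * c' = 1)
    (h : c * A = B * c) : med A = med B :=
  (isConj_iff_med_eq _ _).1 ⟨⟨c, c', hc, mul_eq_one_comm.1 hc⟩, h⟩

theorem med3 (a b c d : F) :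
    med !![a, b, 0; c, d, 0; 0, 0, 1] = med !![a, b; c, d] + {X - C 1} := by
  have h1 := med_smul_one 1 (1 : F)
  rw [one_smul] at h1
  rw [← show Multiset.replicate 1 (X - C 1 : F[X]) = {X - C 1} from rfl, ← h1, ← med_fromBlocks,
    ← med_reindex finSumFinEquiv]
  congr 1
  ext i j; fin_cases i <;> fin_cases j <;> rfl

theorem med_comp3 (a b c : F) :
    med !![0, 0, a; 1, 0, b; 0, 1, c] = edc (X ^ 3 - C c * X ^ 2 - C b * X - C a) := by
  have hm : (X ^ 3 - C c * X ^ 2 - C b * X - C a : F[X]).Monic := by monicity!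
  refine ed_eq_edc hm.ne_zero (sim_cyc_of_vec (v := ![1, 0, 0]) (fun w => ?_) hm.ne_zero ?_ ?_)
  · refine ⟨C (w 0) + C (w 1) * X + C (w 2) * X ^ 2, ?_⟩
    ext i; fin_cases i <;> simp [toLin'_apply, dotProduct, pow_two, vecHead, vecTail, Fin.sum_univ_three]
  · ext i; fin_cases i <;> simp [toLin'_apply, dotProduct, pow_succ, vecHead, vecTail, Fin.sum_univ_three]
  · rw [finrank_fin_fun]; compute_degree!

theorem z1 : (0 : Fin 1 → F) = ![0] := by ext i; fin_cases i; rfl

theorem z2 : (0 : Fin 2 → F) = ![0, 0] := by ext i; fin_cases i <;> rfl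

theorem Z2 : (!![0, 0; 0, 0] : Matrix (Fin 2) (Fin 2) F) = 0 := by
  ext i j; fin_cases i <;> fin_cases j <;> rfl

/-- Jordan blocks with eigenvalue one. -/
noncomputable def J (F : Type u) [Field F] (k : ℕ) : F[X] := (X - C 1) ^ k

/-- The irreducible quadratic polynomial. -/
noncomputable def W (F : Type u) [Field F] : F[X] := X ^ 2 - C 1 * X + C 1

theorem J_pp {k : ℕ} (hk : 0 < k) : IsPP (J F k) := isPP_lin_pow 1 hk

theorem J_deg (k : ℕ) : (J F k).natDegree = k := by
  rw [J, (monic_X_sub_C _).natDegree_pow, natDegree_X_sub_C, mul_one]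

theorem J_dt (k : ℕ) : dt (J F k) = 1 := by rw [J, dt_pow (monic_X_sub_C _), dt_lin, one_pow]

theorem J_coeff (k : ℕ) : (J F k).coeff 0 ≠ 0 := fun h => by simpa [dt, h] using J_dt (F := F) k

/-- Closed of weight one. -/
def Cl (m : Multiset F[X]) : Prop := E m 0 0 1 False

theorem Cl.add {m m' : Multiset F[X]} (h : Cl m) (h' : Cl m') : Cl (m + m') :=
  (E.add h h').congr (by simp) (one_mul _) False.elim

theorem cl_J1 : Cl ({X - C 1} : Multiset F[X]) :=
  (E.lin 1 1).congr (by simp) (one_mul _) False.elim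

theorem cl_J21 : Cl ({J F 2, X - C 1} : Multiset F[X]) := by
  have hg : med !![1, 0, 0; 1, 1, 0; 0, 0, 1] = ({J F 2, X - C 1} : Multiset F[X]) := by
    rw [med3, med_two one_ne_zero, show (X ^ 2 - C (1 + 1) * X + C (1 * 1 - 0 * 1) : F[X]) = J F 2 by
      simp [J]; ring, edc_pp (J_pp two_pos)]
    rfl
  rw [Cl, ← hg]
  refine (E.of_comm (P := !![1, 0, 0; 0, 1, -1; 0, 0, 1]) (Y := !![1, 0, 0; 1, 1, -1; 0, 0, 1])
    (c := !![1, 0, 0; 0, 1, 0; 1, 0, 1]) (c' := !![1, 0, 0; 0, 1, 0; -1, 0, 1]) ?_ ?_ ?_).congr rfl ?_ id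
  · simp
  · simp [one_fin_three]
  · simp
  · simp [det_fin_three]

section
variable [CharP F 2]

theorem two_eq : (2 : F) = 0 := CharTwo.two_eq_zero

theorem med_J {a b d : F} (h1 : a + d = 0) (h2 : a * d - b = 1) : med !![a, b; 1, d] = {J F 2} := by
  rw [med_two one_ne_zero, h1, mul_one, h2, ← edc_pp (J_pp two_pos)]
  congr 1
  rw [← two_eq, J, show (2 : F) = 1 + 1 by norm_num, map_add]
  simp; ring

theorem med_W {a b d : F} (h1 : a + d = 1) (h2 : a * d - b = 1) : med !![a, b; 1, d] = edc (W F) := by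
  rw [med_two one_ne_zero, h1, mul_one, h2, W]

theorem med_L : med (!![1, 0; 1, 1] : Matrix (Fin 2) (Fin 2) F) = {J F 2} :=
  med_J (CharTwo.add_self_eq_zero _) (by simp)

theorem med_U : med (!![1, 1; 0, 1] : Matrix (Fin 2) (Fin 2) F) = {J F 2} := by
  rw [← med_transpose, ← med_L]
  congr 1
  ext i j; fin_cases i <;> fin_cases j <;> rfl

theorem med_S : med (!![0, 1; 1, 0] : Matrix (Fin 2) (Fin 2) F) = {J F 2} :=
  med_J (by simp) (by simp [CharTwo.neg_eq])

theorem med_one2 : med (1 : Matrix (Fin 2) (Fin 2) F) = {X - C 1, X - C 1} := by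
  simpa using med_smul_one 2 (1 : F)

theorem cl_W : Cl (edc (W F)) := by
  rw [Cl, ← med_W (a := 0) (b := 1) (d := 1) (by simp) (by simp [CharTwo.neg_eq])]
  refine (E.mat (P := !![0, 1; 1, 0]) (Y := !![1, 1; 0, 1]) (by simp)).congr ?_ (by simp) id
  rw [med_S, med_U, add_comm]

theorem t1 : E {J F 2} {J F 2} {X - C 1, X - C 1} 1 False := by
  have := E.mat (g := !![1, 0; 1, 1]) (P := !![1, 0; 1, 1]) (Y := (1 : Matrix (Fin 2) (Fin 2) F))
    (by simp [one_fin_two, CharTwo.add_self_eq_zero])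
  rwa [med_L, med_one2, det_one] at this

theorem t2 : E {J F 2} {X - C 1, X - C 1} {J F 2} 1 False := by
  have := E.mat (g := !![1, 0; 1, 1]) (P := (1 : Matrix (Fin 2) (Fin 2) F)) (one_mul _)
  rwa [med_L, med_one2, show det (!![1, 0; 1, 1] : Matrix (Fin 2) (Fin 2) F) = 1 by simp] at this

theorem t3 : E {J F 2} {J F 2} (edc (W F)) 1 False := by
  have := E.mat (F := F) (g := !![1, 0; 1, 1]) (P := !![0, 1; 1, 0]) (Y := !![1, 1; 1, 0]) (by simp)
  rwa [med_L, med_S, med_W (by simp) (by simp [CharTwo.neg_eq]),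
    show det (!![1, 1; 1, 0] : Matrix (Fin 2) (Fin 2) F) = 1 by simp [CharTwo.neg_eq]] at this

theorem cl_J22 : Cl ({J F 2, J F 2} : Multiset F[X]) :=
  (t1.add t2).congr (by abel) (one_mul _) False.elim

theorem cl_J23 : Cl ({J F 2, J F 3} : Multiset F[X]) := by
  have h2 : (2 : F[X]) = 0 := two_eq'
  have hg : med (!![0, 0, 1; 1, 0, 1; 0, 1, 1] : Matrix (Fin 3) (Fin 3) F) = {J F 3} := by
    rw [med_comp3, ← edc_pp (J_pp three_pos)]
    congr 1
    simp only [J, map_one]
    linear_combination (X ^ 2 - 2 * X) * h2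
  have hP : med (!![0, 1, 1; 1, 0, 1; 1, 0, 0] : Matrix (Fin 3) (Fin 3) F) = (X - C 1) ::ₘ edc (W F) := by
    rw [← med_conj (A := !![0, 0, 1; 1, 0, 0; 0, 1, 0]) (c := !![1, 0, 0; 0, 1, 1; 0, 1, 0])
      (c' := !![1, 0, 0; 0, 0, 1; 0, 1, -1]) (by simp [one_fin_three])
      (by simp [CharTwo.add_self_eq_zero]), med_comp3, ← edc_lin_mul (by simp [W])]
    congr 1
    simp only [W, map_one, map_zero]
    linear_combination (X ^ 2 - X) * h2
  have := E.mat (F := F) (g := !![0, 0, 1; 1, 0, 1; 0, 1, 1]) (P := !![0, 1, 1; 1, 0, 1; 1, 0, 0])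
    (Y := !![1, 1, 0; 0, 1, 0; 0, 0, 1]) (by simp [CharTwo.add_self_eq_zero]; exact z1)
  rw [hg, hP, med3, med_U] at this
  refine (t3.add this).congr ?_ (by simp [det_fin_three]) False.elim
  simp only [← Multiset.singleton_add]; abel
where two_eq' : (2 : F[X]) = 0 := by rw [← map_ofNat C 2, two_eq, map_zero]

theorem cl_J222 : Cl ({J F 2, J F 2, J F 2} : Multiset F[X]) := by
  have hg : med (fromBlocks !![1, 0; 1, 1] 0 0 !![1, 0; 1, 1] :
      Matrix (Fin 2 ⊕ Fin 2) (Fin 2 ⊕ Fin 2) F) = {J F 2} + {J F 2} := by rw [med_fromBlocks, med_L]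
  have := E.mat (F := F) (g := fromBlocks !![1, 0; 1, 1] 0 0 !![1, 0; 1, 1])
    (P := fromBlocks !![1, 0; 1, 1] 0 !![0, 0; 1, 0] !![1, 0; 1, 1])
    (Y := fromBlocks 1 0 !![0, 0; 1, 0] 1)
    (by simp [fromBlocks_multiply, one_fin_two, CharTwo.add_self_eq_zero]; exact z2)
  rw [← med_conj (A := fromBlocks !![1, 0; 1, 1] 0 0 !![1, 0; 1, 1])
    (B := fromBlocks !![1, 0; 1, 1] 0 !![0, 0; 1, 0] !![1, 0; 1, 1])
    (c := fromBlocks 1 0 !![0, 0; 0, 1] 1) (c' := fromBlocks 1 0 (-!![0, 0; 0, 1]) 1)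
      (by simp [fromBlocks_multiply, Z2]) (by simp [fromBlocks_multiply, CharTwo.add_self_eq_zero]),
    ← med_conj (A := fromBlocks !![1, 0; 1, 1] 0 0 1) (B := fromBlocks 1 0 !![0, 0; 1, 0] 1)
      (c := fromBlocks !![1, 0; 0, 0] !![0, 0; 0, 1] !![0, 0; 0, 1] !![1, 0; 0, 0])
      (c' := fromBlocks !![1, 0; 0, 0] !![0, 0; 0, 1] !![0, 0; 0, 1] !![1, 0; 0, 0])
      (by simp [fromBlocks_multiply, ← fromBlocks_one, one_fin_two]; exact Z2)
      (by simp [fromBlocks_multiply]; exact z2),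
    hg, med_fromBlocks, med_L, med_one2] at this
  refine (t2.add this).congr (by abel) (by simp) False.elim

theorem cl_J2k {χ : F[X]} [Fintype F] (K : Kit F) {k : ℕ} (hχ : Good χ) (hk : k = χ.natDegree + 1)
    (hu : ∀ x : F, x ≠ 0 → x = 1) (h0 : χ.eval 1 = 0) (h1 : (derivative χ).eval 1 ≠ 0) :
    Cl ({J F 2, J F k} : Multiset F[X]) := by
  obtain ⟨z, hz⟩ := dvd_iff_isRoot.2 h0
  have hz1 : z.eval 1 ≠ 0 := by simpa [hz] using h1
  have hz0 : z ≠ 0 := by rintro rfl; simp at hz1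
  have e := K.ml (J F k) ((X - C 1) * χ) χ 1 (J_pp (by omega)).monic ((monic_X_sub_C 1).mul hχ.1) hχ
    (by rw [J_deg, hk]) (by rw [(monic_X_sub_C 1).natDegree_mul hχ.1, J_deg, hk, natDegree_X_sub_C, add_comm])
    (by rw [dt_mul (monic_X_sub_C 1) hχ.1, dt_lin, J_dt, mul_one])
    (.inr ⟨rfl, by simp, by simp [J, hk]⟩)
  rw [edc_pp (J_pp (by omega)), hu _ (dt_ne hχ.2.1), hz, edc_lin_mul hz1, ← mul_assoc, ← pow_two,
    edc_mul (pow_ne_zero _ (X_sub_C_ne_zero 1)) hz0 (((irreducible_X_sub_C 1).coprime_iff_not_dvd.2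
      (by rwa [dvd_iff_isRoot])).pow_left), edc_pp (isPP_lin_pow 1 two_pos)] at e
  refine (t2.add e).congr ?_ (by simp) False.elim
  simp only [J, Multiset.insert_eq_cons, ← Multiset.singleton_add]; abel

theorem cl_J2J [Fintype F] (K : Kit F) (hu : ∀ x : F, x ≠ 0 → x = 1) {k : ℕ} (hk : 0 < k) :
    Cl ({J F 2, J F k} : Multiset F[X]) := by
  by_cases h4 : k < 4
  · interval_cases k
    · simpa [J] using cl_J21 (F := F)
    · exact cl_J22
    · exact cl_J23
  rcases Nat.even_or_odd' k with ⟨j, rfl | rfl⟩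
  · obtain ⟨j, rfl⟩ : ∃ i, j = i + 1 := ⟨j - 1, by omega⟩
    refine cl_J2k (χ := X ^ (2 * j + 1) + 1) K ⟨by monicity!, by simp, 1, X ^ j, ?_, isCoprime_one_left⟩
      ?_ hu (by simp [CharTwo.add_self_eq_zero]) ?_
    · simp; ring
    · rw [← map_one C, natDegree_X_pow_add_C]; ring
    · simp [two_eq]
  · have hd : (X ^ (2 * j) + (X ^ 2 + X + 1) : F[X]).natDegree = 2 * j := by
      rw [natDegree_add_eq_left_of_natDegree_lt, natDegree_X_pow]
      rw [natDegree_X_pow]
      refine lt_of_le_of_lt (b := 2) (by compute_degree) (by omega)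
    refine cl_J2k (χ := X ^ (2 * j) + (X ^ 2 + X + 1)) K ⟨?_, ?_, X ^ j + X + 1, 1, ?_,
      isCoprime_one_right⟩ (by rw [hd]) hu ?_ ?_
    · refine monic_X_pow_add (lt_of_le_of_lt (b := 2) (by compute_degree) ?_)
      exact_mod_cast (by omega : 2 < 2 * j)
    · have : 2 * j ≠ 0 := by omega
      simp [coeff_X_pow, this.symm]
    · simp; ring
    · simp [CharTwo.add_self_eq_zero]
    · simp [two_eq, derivative_X_pow, CharTwo.add_self_eq_zero]

theorem cl_rep (s : ℕ) (hs : s ≠ 1) : Cl (Multiset.replicate s (J F 2)) := by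
  induction s using Nat.strong_induction_on with
  | _ s ih =>
    by_cases h : s < 4
    · interval_cases s
      · exact E.zero
      · exact absurd rfl hs
      · exact cl_J22
      · exact cl_J222
    obtain ⟨s, rfl⟩ : ∃ t, s = 2 + t := ⟨s - 2, by omega⟩
    rw [Multiset.replicate_add]
    exact cl_J22.add (ih s (by omega) (by omega))

end

theorem cl_of_flex {m : Multiset F[X]} (hu : ∀ x : F, x ≠ 0 → x = 1) (h : Flex m) : Cl m :=
  (h.2 1 1 one_ne_zero one_ne_zero).congr (by simp [hu _ h.1]) rfl False.elim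

theorem jobF2 : JobF2.{u} := by
  intro F _ _ h K m hA h3
  classical
  have hu : ∀ x : F, x ≠ 0 → x = 1 := fun x hx => by
    simpa [h] using FiniteField.pow_card_sub_one_eq_one x hx
  have : CharP F 2 := by
    have : ringChar F = 2 := by rw [FiniteField.even_card_iff_char_two, h]
    exact this ▸ ringChar.charP F
  have blk : ∀ P : F[X], IsPP P ∧ P.coeff 0 ≠ 0 → P ≠ J F 2 → Cl {P} := fun P hP hne => by
    have := hP.1.natDegree_pos
    have hd := hu _ (dt_ne hP.2)
    by_cases h1 : P.natDegree = 1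
    · rw [lin_of_deg hP.1.monic h1, hd]; exact cl_J1
    rw [← edc_pp hP.1]
    by_cases h2 : P.natDegree = 2
    · have hq := quad_of_deg hP.1.monic h2
      rw [hd] at hq
      by_cases h0 : -P.coeff 1 = 0
      · refine absurd (hq.trans ?_) hne
        rw [h0, ← two_eq, J, show (2 : F) = 1 + 1 by norm_num, map_add]
        simp; ring
      · rw [hq, hu _ h0]; exact cl_W
    · exact cl_of_flex hu (K.flex P hP.1.monic hP.2 (by omega) (by omega))
  have all : ∀ r : Multiset F[X], Adm r → J F 2 ∉ r → Cl r := fun r => by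
    induction r using Multiset.induction_on with
    | empty => exact fun _ _ => E.zero
    | cons a s ih =>
      exact fun x y => (blk a (x a (by simp)) fun e => y (by simp [e])).add
        (ih (fun P hP => x P (by simp [hP])) fun e => y (by simp [e]))
  refine E.cm (l := False) ?_ (.inr hu)
  obtain ⟨s, r, rfl, hr⟩ : ∃ s r, m = Multiset.replicate s (J F 2) + r ∧ J F 2 ∉ r :=
    ⟨m.count (J F 2), m.filter fun P => ¬ P = J F 2, by
      rw [← Multiset.filter_eq', Multiset.filter_add_not], by simp⟩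
  have hAr : Adm r := fun P hP => hA P (by simp [hP])
  by_cases hs : s = 1
  · subst hs
    rcases Multiset.empty_or_exists_mem r with rfl | ⟨B, hB⟩
    · simp [J_deg] at h3
    obtain ⟨r, rfl⟩ := Multiset.exists_cons_of_mem hB
    have h2 : Cl ({J F 2, B} : Multiset F[X]) := by
      rcases coprime_or_pow (monic_X_sub_C (1 : F)) (irreducible_X_sub_C 1) (hAr B hB).1 with x | ⟨j, hj, rfl⟩
      · have := (hAr B hB).1.natDegree_pos
        exact cl_of_flex hu (flex_pair K ⟨J_pp two_pos, J_coeff 2⟩ (hAr B hB) x.pow_left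
          (by rw [J_deg]; omega) (by omega))
      · exact cl_J2J K hu hj
    have := h2.add (all r (fun P hP => hAr P (by simp [hP])) fun e => hr (by simp [e]))
    simpa only [Cl, Multiset.insert_eq_cons, Multiset.replicate_one, ← Multiset.singleton_add, add_assoc]
      using this
  · exact (cl_rep s hs).add (all r hAr hr)

end H48.Ore2
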