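/- Commutators in `SL_n(3)`. -/
import Cfsg.Agent.H48.OreB

set_option autoImplicit false
set_option linter.unusedSectionVars false

namespace H48.Ore
open Polynomial Module H53 H60.Ore

universe u
variable {F : Type u} [Field F] [Fintype F]

theorem three_eq (h : Fintype.card F = 3) : (3 : F) = 0 := by
  simpa [h] using FiniteField.cast_card_eq_zero F

theorem one_ne_neg (h : Fintype.card F = 3) : (1 : F) ≠ -1 := fun e =>
  one_ne_zero (α := F) (by linear_combination three_eq h - e)

theorem sq_one (h : Fintype.card F = 3) {x : F} (hx : x ≠ 0) : x ^ 2 = 1 := by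
  simpa [h] using FiniteField.pow_card_sub_one_eq_one x hx

theorem pm (h : Fintype.card F = 3) {x : F} (hx : x ≠ 0) : x = 1 ∨ x = -1 :=
  mul_self_eq_one_iff.1 (by rw [← pow_two]; exact sq_one h hx)

theorem pair_add {α : Type*} (a b : α) (t : Multiset α) : a ::ₘ b ::ₘ t = {a, b} + t := by
  simp only [Multiset.insert_eq_cons, Multiset.cons_add, Multiset.singleton_add]

/-- Blocks of degree two and determinant `-1`. -/
def Et (P : F[X]) : Prop := P.natDegree = 2 ∧ dt P = -1

/-- The polynomial `X ^ 2 + X - 1`. -/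
noncomputable def χ3 (F : Type u) [Field F] : F[X] := X ^ 2 + X - 1

theorem χ3_deg : (χ3 F).natDegree = 2 := by unfold χ3; compute_degree!

theorem χ3_good : Good (χ3 F) :=
  ⟨by unfold χ3; monicity!, by simp [χ3], X - 1, 1, by simp [χ3]; ring, isCoprime_one_right⟩

theorem χ3_dt : dt (χ3 F) = -1 := by rw [dt, χ3_deg]; simp [χ3]

theorem χ3_eval (h : Fintype.card F = 3) {a : F} (ha : a ≠ 0) : (χ3 F).eval a = a := by
  simp [χ3, sq_one h ha]

section
variable (h : Fintype.card F = 3) (K : Kit F)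
include h

theorem et_irr {P : F[X]} (hP : IsPP P) (e : Et P) : Irreducible P := by
  obtain ⟨φ, k, hm, hi, hk, rfl⟩ := hP
  obtain ⟨e1, e2⟩ := e
  rw [hm.natDegree_pow] at e1
  have : k = 1 ∨ k = 2 := by
    have := Nat.le_of_dvd two_pos (Dvd.intro _ e1)
    omega
  rcases this with rfl | rfl
  · rwa [pow_one]
  · rw [dt_pow hm] at e2
    have h0 : dt φ ≠ 0 := by rintro h0; simp [h0] at e2
    exact absurd ((sq_one h h0).symm.trans e2) (one_ne_neg h)

theorem et_form {P : F[X]} (hP : IsPP P) (e : Et P) : ∃ τ : F, τ ≠ 0 ∧ P = X ^ 2 - C τ * X - 1 := by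
  have hq := quad_of_deg hP.monic e.1
  rw [e.2] at hq
  refine ⟨-P.coeff 1, fun h0 => one_ne_neg h (pp_root_unique hP ?_ ?_), ?_⟩
  · rw [hq, h0]; simp
  · rw [hq, h0]; simp
  · rw [sub_eq_add_neg _ 1]; simpa using hq

include K

theorem e_T {T : F[X]} (hT : IsPP T) (h3 : T.natDegree = 3) (hd : dt T = -1) {a : F} (ha : a ≠ 0) :
    E {T} {X - C a} {X - C (-a)} a True := by
  have := K.tr T (χ3 F) a hT.monic χ3_good (by rw [h3, χ3_deg]) (by rwa [χ3_eval h ha])
    (by rw [hd, χ3_eval h (by simpa)]; simpa)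
  rw [edc_pp hT, hd, χ3_dt] at this
  simpa using this

theorem e_two {f : F[X]} (hf : IsPP f) (h2 : f.natDegree = 2) (hd : dt f = 1) {a : F} (ha : a ≠ 0) :
    E {f} {X - C a} {X - C a} (-1) True := by
  have hne : -a ≠ a := fun e => one_ne_neg h (mul_left_cancel₀ ha (by linear_combination -e))
  have := K.two f a (-a) hf.monic h2 (by simpa) hne (by rwa [hd, one_mul])
  rw [edc_pp hf, hd, one_mul] at this
  exact this.congr rfl (by linear_combination -sq_one h ha) id

theorem semi_blk {P : F[X]} (hP : IsPP P ∧ P.coeff 0 ≠ 0) (e : ¬ Et P) : Semi {P} True := by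
  have h0 := dt_ne hP.2
  have hp := hP.1.natDegree_pos
  by_cases h1 : P.natDegree = 1
  · rw [lin_of_deg hP.1.monic h1]; exact Semi.lin h0
  by_cases h2 : P.natDegree = 2
  · have hd : dt P = 1 := (pm h h0).resolve_right fun x => e ⟨h2, x⟩
    exact ⟨by simpa, fun a ha => ⟨-1, by simp, by simpa [hd] using e_two h K hP.1 h2 hd ha⟩⟩
  by_cases h3 : P.natDegree = 3 ∧ dt P = -1
  · exact ⟨by simpa, fun a ha => ⟨a, ha, by simpa [h3.2] using e_T h K hP.1 h3.1 h3.2 ha⟩⟩
  · have := K.flex P hP.1.monic hP.2 (by omega) fun x => h3 x.2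
    rw [edc_pp hP.1] at this
    exact this.semi

variable (H : E3 F)
include H

theorem flex_ee {P Q : F[X]} (hP : IsPP P ∧ P.coeff 0 ≠ 0) (hQ : IsPP Q ∧ Q.coeff 0 ≠ 0) (e : Et P)
    (e' : Et Q) : Flex {P, Q} := by
  by_cases x : P = Q
  · subst x
    obtain ⟨τ, h0, rfl⟩ := et_form h hP.1 e
    exact (H τ h0).1
  · exact flex_pair K hP hQ (isCoprime_of_monic_irreducible_ne hP.1.monic (et_irr h hP.1 e) hQ.1.monic
      (et_irr h hQ.1 e') x) (by rw [e.1, e'.1]; omega) (by rw [e.1, e'.1]; omega)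

theorem flex_eB {P B : F[X]} (hP : IsPP P ∧ P.coeff 0 ≠ 0) (hB : IsPP B ∧ B.coeff 0 ≠ 0) (e : Et P)
    (e' : ¬ Et B) (hd : dt B = -1) : Flex {P, B} := by
  rcases coprime_or_pow hP.1.monic (et_irr h hP.1 e) hB.1 with x | ⟨j, hj, rfl⟩
  · have := hB.1.natDegree_pos
    refine flex_pair K hP hB x (by rw [e.1]; omega) fun y => one_ne_neg h ?_
    simpa [e.2, hd] using y.2.2
  · rw [dt_pow hP.1.monic, e.2] at hd
    have ho : Odd j := by
      by_contra x
      rw [(Nat.not_odd_iff_even.1 x).neg_one_pow] at hd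
      exact one_ne_neg h hd
    have h1 : j ≠ 1 := by rintro rfl; exact e' (by rwa [pow_one])
    obtain ⟨τ, h0, rfl⟩ := et_form h hP.1 e
    exact (H τ h0).2 j ho (by obtain ⟨k, rfl⟩ := ho; omega)

theorem semi_even (k : ℕ) (t : Multiset F[X]) (hA : Adm t) (e : ∀ P ∈ t, Et P)
    (hc : t.card = 2 * k) : Semi t False := by
  induction k generalizing t with
  | zero => obtain rfl := Multiset.card_eq_zero.1 hc; exact Semi.zero
  | succ k ih =>
    obtain ⟨P, hP⟩ := Multiset.card_pos_iff_exists_mem.1 (show 0 < t.card by omega)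
    obtain ⟨t, rfl⟩ := Multiset.exists_cons_of_mem hP
    rw [Multiset.card_cons] at hc
    obtain ⟨Q, hQ⟩ := Multiset.card_pos_iff_exists_mem.1 (show 0 < t.card by omega)
    obtain ⟨t, rfl⟩ := Multiset.exists_cons_of_mem hQ
    rw [Multiset.card_cons] at hc
    rw [pair_add]
    exact ((flex_ee h K H (hA P (by simp)) (hA Q (by simp)) (e P (by simp)) (e Q (by simp))).add
      (ih t (fun R hR => hA R (by simp [hR])) (fun R hR => e R (by simp [hR]))
        (by omega))).semi.mono False.elim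

end

theorem dm_et {t : Multiset F[X]} (e : ∀ P ∈ t, dt P = -1) : dm t = (-1) ^ t.card := by
  induction t using Multiset.induction_on with
  | empty => simp
  | cons a s ih =>
    rw [dm_cons, e a (by simp), ih fun P hP => e P (by simp [hP]), Multiset.card_cons, pow_succ']

/-- A block `X ^ 2 - τ X + 1` is closed of weight one. -/
theorem closed_two (h2 : (2 : F) ≠ 0) (τ : F) : E (edc (X ^ 2 - C τ * X + C 1)) 0 0 1 False := by
  have hg : med !![0, -1; 1, τ] = edc (X ^ 2 - C τ * X + C 1) := by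
    rw [med_two one_ne_zero]; simp
  rw [← hg]
  by_cases x : τ = 2
  · subst x
    refine (E.mat (P := !![0, -1; 1, 2]) (Y := !![-1, -2; 2, 3]) ?_).congr ?_ ?_ id
    · ext i j; fin_cases i <;> fin_cases j <;> simp [Matrix.mul_apply, Fin.sum_univ_two] <;> ring
    · rw [med_two one_ne_zero, med_two h2, add_zero, zero_add (edc _)]
      ring_nf
    · simp; ring
  · refine (E.mat (P := !![1, 2 - τ; 0, 1]) (Y := !![2 - τ, -1 + (2 - τ) * τ; 1, τ]) ?_).congr ?_ ?_ id
    · ext i j; fin_cases i <;> fin_cases j <;> simp [Matrix.mul_apply, Fin.sum_univ_two]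
    · have e : (!![1, 2 - τ; 0, 1] : Matrix (Fin 2) (Fin 2) F) = Matrix.transpose !![1, 0; 2 - τ, 1] := by
        ext i j; fin_cases i <;> fin_cases j <;> rfl
      rw [e, med_transpose, med_two (sub_ne_zero.2 (Ne.symm x)), med_two one_ne_zero, add_zero, zero_add]
      congr 3 <;> ring_nf
    · simp

/-- The scalar `-1` in dimension two is closed of weight one. -/
theorem closed_neg : E ({X - C (-1), X - C (-1)} : Multiset F[X]) 0 0 1 False := by
  have hg := med_smul_one 2 (-1 : F)
  rw [show ({X - C (-1), X - C (-1)} : Multiset F[X]) = Multiset.replicate 2 (X - C (-1)) from rfl, ← hg]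
  refine (E.mat (P := !![0, -1; 1, 0]) (Y := !![0, 1; -1, 0]) ?_).congr ?_ ?_ id
  · ext i j; fin_cases i <;> fin_cases j <;> simp
  · rw [med_two one_ne_zero, med_two (by simp), add_zero, zero_add (edc _)]
    ring_nf
  · simp

section
variable (h : Fintype.card F = 3) (K : Kit F)
include h K

theorem flex_TT {T T' : F[X]} (hT : IsPP T ∧ T.coeff 0 ≠ 0) (h3 : T.natDegree = 3) (hd : dt T = -1)
    (hT' : IsPP T') (h3' : T'.natDegree = 3) (hd' : dt T' = -1) : Flex {T, T'} := by
  refine Flex.of_closed (by simp [hd, hd']) fun ω hω => ?_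
  rcases pm h hω with rfl | rfl
  · have hq : (X ^ 2 + 1 : F[X]).Monic := by monicity!
    have hq2 : (X ^ 2 + 1 : F[X]).natDegree = 2 := by compute_degree!
    have hq3 : dt (X ^ 2 + 1 : F[X]) = 1 := by rw [dt, hq2]; simp
    have hq4 : ∀ a : F, a ≠ 0 → (X ^ 2 + 1 : F[X]).eval a ≠ 0 := fun a ha x => one_ne_neg h (by
      simp only [eval_add, eval_pow, eval_X, eval_one, sq_one h ha] at x
      linear_combination x)
    have hp : ∀ a : F, ((X - C a) * (X ^ 2 + 1) : F[X]).natDegree = 3 := fun a => by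
      rw [(monic_X_sub_C a).natDegree_mul hq, hq2, natDegree_X_sub_C]
    have hp' : ∀ a : F, dt ((X - C a) * (X ^ 2 + 1) : F[X]) = a := fun a => by
      rw [dt_mul (monic_X_sub_C a) hq, hq3, dt_lin, mul_one]
    have e1 := K.ml' T ((X - C (-1)) * (X ^ 2 + 1)) (χ3 F) (-1) hT.1.monic hT.2
      ((monic_X_sub_C _).mul hq) χ3_good (by rw [h3, χ3_deg]) (by rw [hp, h3])
      (by rw [hp', χ3_dt, hd]; simp) (by rw [χ3_eval h (by simp)]; simp)
    have e2 := K.ml T' ((X - C 1) * (X ^ 2 + 1)) (χ3 F) 1 hT'.monic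
      ((monic_X_sub_C _).mul hq) χ3_good (by rw [h3', χ3_deg]) (by rw [hp, h3'])
      (by rw [hp', χ3_dt, hd']) (.inl (by rw [χ3_eval h one_ne_zero]; simp))
    rw [edc_pp hT.1, edc_lin_mul (hq4 _ (by simp)), hp'] at e1
    rw [edc_pp hT', edc_lin_mul (hq4 _ one_ne_zero), χ3_dt] at e2
    refine (e1.add e2).congr ?_ (by simp) fun _ => .inr trivial
    simp only [← Multiset.singleton_add]
    abel
  · have e2 := e_T h K hT' h3' hd' (a := -1) (by simp)
    rw [neg_neg] at e2
    exact ((e_T h K hT.1 h3 hd one_ne_zero).chain e2).congr (by simp) (by simp) fun _ => .inl trivial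

theorem semi_all {m : Multiset F[X]} (hA : Adm m) (e : ∀ P ∈ m, ¬ Et P) : Semi m (m ≠ 0) :=
  Semi.of_forall fun P hP => semi_blk h K (hA P hP) (e P hP)

theorem cm_no_et {m : Multiset F[X]} (hA : Adm m) (h3 : 3 ≤ (m.map natDegree).sum) (hd : dm m = 1)
    (e : ∀ P ∈ m, ¬ Et P) : Cm m := by
  have sub : ∀ s r : Multiset F[X], m = s + r → Semi r (r ≠ 0) := fun s r x =>
    semi_all h K (fun P hP => hA P (by simp [x, hP])) fun P hP => e P (by simp [x, hP])
  have h2 : (2 : F) ≠ 0 := fun x => one_ne_neg h (by linear_combination x)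
  by_cases c1 : ∃ P ∈ m, Flex {P}
  · obtain ⟨P, hP, f⟩ := c1
    obtain ⟨r, rfl⟩ := Multiset.exists_cons_of_mem hP
    exact (f.add (sub {P} r rfl)).cm
  by_cases c2 : ∃ P ∈ m, P.natDegree = 2
  · obtain ⟨f, hf, d2⟩ := c2
    clear hd
    have hd : dt f = 1 := (pm h (dt_ne (hA f hf).2)).resolve_right fun x => e f hf ⟨d2, x⟩
    have hp := (hA f hf).1
    obtain ⟨r, rfl⟩ := Multiset.exists_cons_of_mem hf
    have hr : r ≠ 0 := by rintro rfl; simp [d2] at h3
    refine (flex_of_loop (s := {f}) (by simpa) (fun a ω ha hω => ?_) ((sub {f} r rfl).mono fun _ => hr)).cm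
    rcases pm h hω with rfl | rfl
    · have := closed_two h2 (-f.coeff 1)
      rw [← hd, ← quad_of_deg hp.monic d2, edc_pp hp, hd] at this
      exact this.closed _
    · exact (e_two h K hp d2 hd ha).congr rfl rfl False.elim
  have cl : ∀ P ∈ m, P = X - C (-1) ∨ P.natDegree = 3 ∧ dt P = -1 := fun P hP => by
    have hp := hA P hP
    have := hp.1.natDegree_pos
    by_cases h1 : P.natDegree = 1
    · rcases pm h (dt_ne hp.2) with x | x
      · exact absurd ⟨P, hP, by rw [lin_of_deg hp.1.monic h1, x]; exact Flex.one⟩ c1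
      · exact .inl (by rw [← x]; exact lin_of_deg hp.1.monic h1)
    refine .inr (by_contra fun x => c1 ⟨P, hP, ?_⟩)
    have h2 : P.natDegree ≠ 2 := fun x => c2 ⟨P, hP, x⟩
    rw [← edc_pp hp.1]
    exact K.flex P hp.1.monic hp.2 (by omega) fun y => x y.2
  have LL : ∀ r, m = {X - C (-1), X - C (-1)} + r → Cm m := fun r x => by
    have hr : r ≠ 0 := by
      rintro rfl
      rw [x] at h3
      simp only [add_zero, Multiset.insert_eq_cons, Multiset.map_cons, Multiset.map_singleton,
        Multiset.sum_cons, Multiset.sum_singleton, natDegree_X_sub_C] at h3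
      omega
    rw [x]
    refine (flex_of_loop (by simp only [Multiset.insert_eq_cons, dm_cons, dm_singleton, dt_lin]; simp)
      (fun a ω ha hω => ?_) ((sub _ r x).mono fun _ => hr)).cm
    rcases pm h hω with rfl | rfl
    · exact closed_neg.closed _
    · refine ((E.lin (-1) a).chain (E.lin (-1) (-1 * a))).congr (by simp) ?_ False.elim
      linear_combination -sq_one h ha
  have TT : ∀ T T' r, m = {T, T'} + r → (T.natDegree = 3 ∧ dt T = -1) →
      (T'.natDegree = 3 ∧ dt T' = -1) → Cm m := fun T T' r x a b => by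
    have := (flex_TT h K (hA T (by simp [x])) a.1 a.2 (hA T' (by simp [x])).1 b.1 b.2).add (sub _ r x)
    rw [x]; exact this.cm
  have LT : ∀ T r, m = {X - C (-1), T} + r → (T.natDegree = 3 ∧ dt T = -1) → Cm m := fun T r x a => by
    rcases Multiset.empty_or_exists_mem r with rfl | ⟨Q, hQ⟩
    · have e2 := e_T h K (hA T (by simp [x])).1 a.1 a.2 (a := -1 * 1) (by simp)
      rw [x, add_zero]
      exact E.cm (l := True) (((E.lin (-1) 1).chain e2).congr (by simp) (by simp) fun _ => .inl trivial)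
        (.inl trivial)
    · obtain ⟨r, rfl⟩ := Multiset.exists_cons_of_mem hQ
      rcases cl Q (by simp [x]) with rfl | b
      · refine LL (T ::ₘ r) (x.trans ?_)
        simp only [Multiset.insert_eq_cons, ← Multiset.singleton_add]; abel
      · refine TT T Q ((X - C (-1)) ::ₘ r) (x.trans ?_) a b
        simp only [Multiset.insert_eq_cons, ← Multiset.singleton_add]; abel
  rcases Multiset.empty_or_exists_mem m with rfl | ⟨P, hP⟩
  · simp at h3
  obtain ⟨r, x⟩ := Multiset.exists_cons_of_mem hP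
  rcases Multiset.empty_or_exists_mem r with rfl | ⟨Q, hQ⟩
  · refine absurd (hd.symm.trans ?_) (one_ne_neg h)
    rw [x]
    rcases cl P hP with rfl | a
    · simp only [dm_cons, dt_lin, dm_zero, mul_one]
    · simp [a.2]
  obtain ⟨r, rfl⟩ := Multiset.exists_cons_of_mem hQ
  have y : m = {Q, P} + r := x.trans (by
    simp only [Multiset.insert_eq_cons, ← Multiset.singleton_add]; abel)
  rw [pair_add] at x
  rcases cl P hP with rfl | a <;> rcases cl Q (by simp [x]) with rfl | b
  · exact LL r x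
  · exact LT Q r x b
  · exact LT P r y a
  · exact TT P Q r x a b

end

theorem jobF3 : JobF3.{u} := by
  intro F _ _ h K H m hA h3 hd
  classical
  obtain ⟨t, r, rfl, ht, hr⟩ : ∃ t r : Multiset F[X], m = t + r ∧ (∀ P ∈ t, Et P) ∧ ∀ P ∈ r, ¬ Et P :=
    ⟨m.filter Et, m.filter fun P => ¬ Et P, (Multiset.filter_add_not _ _).symm,
      fun P hP => (Multiset.mem_filter.1 hP).2, fun P hP => (Multiset.mem_filter.1 hP).2⟩
  rcases Multiset.empty_or_exists_mem t with rfl | ⟨P, hP⟩
  · exact cm_no_et h K hA h3 hd (by simpa using hr)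
  obtain ⟨t, rfl⟩ := Multiset.exists_cons_of_mem hP
  have hAr : Adm r := fun Q hQ => hA Q (by simp [hQ])
  rcases Nat.even_or_odd' t.card with ⟨k, hk | hk⟩
  · have h1 : dm r = -1 := by
      rw [dm_add, dm_et fun Q hQ => (ht Q hQ).2, Multiset.card_cons, hk, pow_succ, pow_mul] at hd
      linear_combination -hd
    obtain ⟨B, hB, hB'⟩ : ∃ B ∈ r, dt B = -1 := by
      by_contra x
      refine one_ne_neg h (Eq.trans ?_ h1)
      refine (Multiset.prod_eq_one fun y hy => ?_).symm
      obtain ⟨B, hB, rfl⟩ := Multiset.mem_map.1 hy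
      exact (pm h (dt_ne (hAr B hB).2)).resolve_right fun z => x ⟨B, hB, z⟩
    obtain ⟨r, rfl⟩ := Multiset.exists_cons_of_mem hB
    have := ((flex_eB h K H (hA P (by simp)) (hAr B hB) (ht P hP) (hr B hB) hB').add
      (semi_even h K H k t (fun Q hQ => hA Q (by simp [hQ])) (fun Q hQ => ht Q (by simp [hQ])) hk)).add
      (semi_all h K (m := r) (fun Q hQ => hA Q (by simp [hQ])) fun Q hQ => hr Q (by simp [hQ]))
    convert this.cm using 1
    simp only [Multiset.insert_eq_cons, ← Multiset.singleton_add]; abel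
  · obtain ⟨Q, hQ⟩ := Multiset.card_pos_iff_exists_mem.1 (show 0 < t.card by omega)
    obtain ⟨t, rfl⟩ := Multiset.exists_cons_of_mem hQ
    rw [Multiset.card_cons] at hk
    rw [pair_add]
    exact (((flex_ee h K H (hA P (by simp)) (hA Q (by simp)) (ht P hP) (ht Q (by simp))).add
      (semi_even h K H k t (fun R hR => hA R (by simp [hR])) (fun R hR => ht R (by simp [hR]))
        (by omega))).add (semi_all h K hAr hr)).cm

end H48.Ore
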